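import Mathlib
import Cfsg.Agent.H552.Crit
import Cfsg.Agent.H552.SZ
import Cfsg.Agent.S0022

/-!
# Structure of the critical groups (helper552; for S4258), second part
-/

set_option autoImplicit false
set_option linter.unusedSectionVars false
set_option linter.unusedVariables false
set_option linter.style.haveILetI false

universe u

namespace Cfsg.Agent.H552

open scoped commutatorElement

/-- the data of the second part -/
structure D2 {G : Type u} [Group G] [Finite G] (k : ℕ) (Q R L N₁ : Subgroup G) : Prop extends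
    D1 k Q R where
  hk : 1 ≤ k
  oddL : Odd (Nat.card L)
  LT : L ≤ T k (⊤ : Subgroup G)
  LN : L ≤ Subgroup.normalizer (R : Set G)
  hNT : ∀ x ∈ T k (⊤ : Subgroup G), x ∈ Subgroup.normalizer (R : Set G) → ∃ r ∈ R, ∃ l ∈ L, x = r * l
  hN₁ : N₁ = Subgroup.normalizer (R : Set G) ⊓ Subgroup.normalizer (L : Set G)
  hN : ∀ x ∈ Subgroup.normalizer (R : Set G), ∃ r ∈ R, ∃ n ∈ N₁, x = r * n

section

variable {G : Type u} [Group G] [Finite G]

theorem D1.exists_D2 {k : ℕ} {Q R : Subgroup G} (h : D1 k Q R) (hk : 1 ≤ k) :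
    ∃ L N₁ : Subgroup G, D2 k Q R L N₁ := by
  set N := Subgroup.normalizer (R : Set G) with hN
  set K := T k (⊤ : Subgroup G) ⊓ N with hKdef
  have hTn : (T k (⊤ : Subgroup G)).Normal := T_normal k inferInstance
  have hRT : R ≤ T k (⊤ : Subgroup G) := h.hRU.trans (twoGen_le _)
  have hRK : R ≤ K := le_inf hRT Subgroup.le_normalizer
  have hKN : K ≤ Subgroup.normalizer (R : Set G) := inf_le_right
  have hidx : ¬ 2 ∣ R.relIndex K := by
    -- every 2-element of `K` lies in `R`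
    intro hd
    have hUK : R ≤ twoGen (T k (⊤ : Subgroup G)) ⊓ K := le_inf h.hRU hRK
    obtain ⟨S, hS1, hS2, hS3⟩ := exists_sylow_of 2 K
    obtain ⟨g, hg, hgR⟩ := exists_conj_le hS1 hS2 hS3 hRK h.hR
    -- `R` is normalized by `g`, so `R ≤ S`
    have hRS : R ≤ S := by
      intro r hr
      have h1 : g⁻¹ * r * g ∈ R := by
        have := (Subgroup.mem_normalizer_iff.1 (Subgroup.inv_mem _ (hKN hg)) r).1 hr
        simpa using this
      have h2 := hgR _ h1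
      have h3 : g * (g⁻¹ * r * g) * g⁻¹ = r := by group
      rwa [h3] at h2
    have hSU : S ≤ twoGen (T k (⊤ : Subgroup G)) := fun s hs =>
      mem_twoGen (hS1 hs).1 (isTwo_of_isPGroup hS2 hs)
    obtain ⟨u, hu, huS⟩ := exists_conj_le h.hRU h.hR h.hidx hSU hS2
    have hcard : Nat.card S ≤ Nat.card R := by
      have h1 : S.map (MulAut.conj u).toMonoidHom ≤ R := by
        rintro _ ⟨s, hs, rfl⟩
        exact huS s hs
      have h2 := Subgroup.card_le_of_le h1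
      rwa [Subgroup.card_map_of_injective (MulAut.conj u).injective] at h2
    have h4 : R = S := Subgroup.eq_of_le_of_card_ge hRS hcard
    rw [h4] at hd
    exact hS3 hd
  obtain ⟨L, hLK, hLo, hLs⟩ := SZ_exists hRK hKN h.hR hidx
  refine ⟨L, N ⊓ Subgroup.normalizer (L : Set G), ?_⟩
  refine ⟨h, hk, hLo, hLK.trans inf_le_left, hLK.trans inf_le_right,
    fun x hx hx' => hLs x ⟨hx, hx'⟩, rfl, ?_⟩
  intro n hn
  -- conjugate
  have hc1 : (L.map (MulAut.conj n).toMonoidHom) ≤ K := by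
    rintro _ ⟨l, hl, rfl⟩
    exact ⟨hTn.conj_mem l (hLK hl).1 n, N.mul_mem (N.mul_mem hn (hLK hl).2) (N.inv_mem hn)⟩
  obtain ⟨r, hr, hrl⟩ := SZ_conj hRK hKN h.hR hidx hLK hLo hLs hc1
    (Subgroup.card_map_of_injective (MulAut.conj n).injective)
  refine ⟨r⁻¹, R.inv_mem hr, r * n, ⟨N.mul_mem (Subgroup.le_normalizer hr) hn, ?_⟩, by group⟩
  have h2 : ∀ l ∈ L, (r * n) * l * (r * n)⁻¹ ∈ L := by
    intro l hl
    have h3 := hrl _ ⟨l, hl, rfl⟩
    have h4 : r * (n * l * n⁻¹) * r⁻¹ ∈ L := h3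
    have h5 : (r * n) * l * (r * n)⁻¹ = r * (n * l * n⁻¹) * r⁻¹ := by group
    rwa [h5]
  have h4 := map_conj_eq_of_le h2 le_rfl
  show r * n ∈ Subgroup.normalizer (L : Set G)
  rw [Subgroup.mem_normalizer_iff]
  intro x
  refine ⟨h2 x, fun hx => ?_⟩
  have h5 : (r * n) * x * (r * n)⁻¹ ∈ L.map (MulAut.conj (r * n)).toMonoidHom := by rwa [h4]
  obtain ⟨y, hy, hyx⟩ := h5
  have h6 : (r * n) * y * (r * n)⁻¹ = (r * n) * x * (r * n)⁻¹ := hyx
  have h7 : y = x := by simpa using h6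
  rwa [← h7]

namespace D2

variable {k : ℕ} {Q R L N₁ : Subgroup G}

theorem RT (h : D2 k Q R L N₁) : R ≤ T k (⊤ : Subgroup G) := h.hRU.trans (twoGen_le _)

theorem QT (h : D2 k Q R L N₁) : Q ≤ T k (⊤ : Subgroup G) := h.QU.trans (twoGen_le _)

theorem N₁R (h : D2 k Q R L N₁) : N₁ ≤ Subgroup.normalizer (R : Set G) := by
  rw [h.hN₁]; exact inf_le_left

theorem N₁L (h : D2 k Q R L N₁) : N₁ ≤ Subgroup.normalizer (L : Set G) := by
  rw [h.hN₁]; exact inf_le_right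

theorem LN₁ (h : D2 k Q R L N₁) : L ≤ N₁ := by
  rw [h.hN₁]; exact le_inf h.LN Subgroup.le_normalizer

theorem hRL (h : D2 k Q R L N₁) {x : G} (h1 : x ∈ R) (h2 : x ∈ L) : x = 1 :=
  eq_one_of_mem_two_odd h.hR h.oddL h1 h2

theorem hRQ (h : D2 k Q R L N₁) {x : G} (h1 : x ∈ R) (h2 : x ∈ Q) : x = 1 :=
  eq_one_of_mem_two_odd h.hR h.oddQ h1 h2

/-- `G = Q R N₁` -/
theorem G_eq (h : D2 k Q R L N₁) (x : G) : ∃ a ∈ Q, ∃ r ∈ R, ∃ n ∈ N₁, x = a * r * n := by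
  have hQn := h.normalQ
  have h1 : x ∈ Subgroup.normalizer (R : Set G) ⊔ Q := by rw [h.NR_sup_Q]; exact Subgroup.mem_top x
  rw [sup_comm, Subgroup.mem_sup_of_normal_left] at h1
  obtain ⟨a, ha, y, hy, rfl⟩ := h1
  obtain ⟨r, hr, n, hn, rfl⟩ := h.hN y hy
  exact ⟨a, ha, r, hr, n, hn, by group⟩

/-- `T k ⊤ = Q R L` -/
theorem T_eq (h : D2 k Q R L N₁) {x : G} (hx : x ∈ T k (⊤ : Subgroup G)) :
    ∃ a ∈ Q, ∃ r ∈ R, ∃ l ∈ L, x = a * r * l := by
  have hQn := h.normalQ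
  have h1 : x ∈ Subgroup.normalizer (R : Set G) ⊔ Q := by rw [h.NR_sup_Q]; exact Subgroup.mem_top x
  rw [sup_comm, Subgroup.mem_sup_of_normal_left] at h1
  obtain ⟨a, ha, y, hy, rfl⟩ := h1
  have h2 : y ∈ T k (⊤ : Subgroup G) := by
    have := Subgroup.mul_mem _ (Subgroup.inv_mem _ (h.QT ha)) hx
    simpa using this
  obtain ⟨r, hr, l, hl, rfl⟩ := h.hNT y h2 hy
  exact ⟨a, ha, r, hr, l, hl, by group⟩

/-- `N_Q(R) = C_Q(R)` -/
theorem NQR (h : D2 k Q R L N₁) {x : G} (h1 : x ∈ Q) (h2 : x ∈ Subgroup.normalizer (R : Set G)) :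
    x ∈ Subgroup.centralizer (R : Set G) := by
  intro r hr
  have h3 : ⁅x, r⁆ ∈ R :=
    R.mul_mem ((Subgroup.mem_normalizer_iff.1 h2 r).1 hr) (R.inv_mem hr)
  have h4 : ⁅x, r⁆ ∈ Q := by
    have : ⁅x, r⁆ = x * (r * x⁻¹ * r⁻¹) := by rw [commutatorElement_def]; group
    rw [this]
    exact Q.mul_mem h1 (h.normalQ.conj_mem _ (Q.inv_mem h1) r)
  have h5 := h.hRQ h3 h4
  rw [commutatorElement_eq_one_iff_mul_comm] at h5
  exact h5.symm

/-- `C_Q(R) ≤ L` -/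
theorem CL (h : D2 k Q R L N₁) : Q ⊓ Subgroup.centralizer (R : Set G) ≤ L := by
  intro c hc
  have hQn := h.normalQ
  obtain ⟨r, hr, l, hl, hrl⟩ := h.hNT c (h.QT hc.1) (Subgroup.centralizer_le_normalizer _ hc.2)
  -- `r = c * l⁻¹`
  set N := Subgroup.normalizer (R : Set G) with hNdef
  set C := Q ⊓ Subgroup.centralizer (R : Set G) with hCdef
  have hCN : C ≤ N := inf_le_right.trans (Subgroup.centralizer_le_normalizer _)
  have hNC : N ≤ Subgroup.normalizer (C : Set G) := by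
    have key : ∀ n ∈ N, ∀ x ∈ C, n * x * n⁻¹ ∈ C := by
      intro n hn x hx
      refine ⟨hQn.conj_mem x hx.1 n, fun s hs => ?_⟩
      have h1 : n⁻¹ * s * n ∈ R := by
        have := (Subgroup.mem_normalizer_iff.1 (N.inv_mem hn) s).1 hs
        simpa using this
      have h2 := hx.2 _ h1
      calc s * (n * x * n⁻¹) = n * ((n⁻¹ * s * n) * x) * n⁻¹ := by group
        _ = n * (x * (n⁻¹ * s * n)) * n⁻¹ := by rw [h2]
        _ = _ := by group
    intro n hn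
    rw [Subgroup.mem_normalizer_iff]
    intro x
    refine ⟨key n hn x, fun hx => ?_⟩
    have := key n⁻¹ (N.inv_mem hn) _ hx
    have h3 : n⁻¹ * (n * x * n⁻¹) * n⁻¹⁻¹ = x := by group
    rwa [h3] at this
  have h1 : c * l⁻¹ = r := by rw [hrl]; group
  have h2 : c * l⁻¹ ∈ C := mem_of_eq_mul hCN hNC hc (N.inv_mem (h.LN hl))
    (odd_orderOf_of_mem h.oddL (L.inv_mem hl)) (by rw [h1]; exact isTwo_of_isPGroup h.hR hr)
  rw [h1] at h2
  have h3 := h.hRQ hr h2.1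
  rw [hrl, h3, one_mul]
  exact hl

theorem CN₁ (h : D2 k Q R L N₁) : Q ⊓ Subgroup.centralizer (R : Set G) ≤ N₁ := h.CL.trans h.LN₁

/-- elements of `R ∩ N₁` centralize `L` -/
theorem RN₁ (h : D2 k Q R L N₁) {x : G} (h1 : x ∈ R) (h2 : x ∈ N₁) :
    x ∈ Subgroup.centralizer (L : Set G) := by
  intro l hl
  have h3 : ⁅l, x⁆ ∈ R :=
    R.mul_mem ((Subgroup.mem_normalizer_iff.1 (h.LN hl) x).1 h1) (R.inv_mem h1)
  have h4 : ⁅l, x⁆ ∈ L := by
    have : ⁅l, x⁆ = l * (x * l⁻¹ * x⁻¹) := by rw [commutatorElement_def]; group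
    rw [this]
    exact L.mul_mem hl ((Subgroup.mem_normalizer_iff.1 (h.N₁L h2) _).1 (L.inv_mem hl))
  have h5 := h.hRL h3 h4
  rw [commutatorElement_eq_one_iff_mul_comm] at h5
  exact h5

/-- `[R, L] = R` -/
theorem comm_RL (h : D2 k Q R L N₁) : ⁅R, L⁆ = R := by
  have hQn := h.normalQ
  have hTn : (T k (⊤ : Subgroup G)).Normal := T_normal k inferInstance
  have hle : ⁅R, L⁆ ≤ R := Subgroup.le_normalizer_iff_commutator_le_left.1 h.LN
  refine le_antisymm hle ?_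
  set C := ⁅R, L⁆ with hC
  have hRC : R ≤ Subgroup.normalizer (C : Set G) := Subgroup.normalizer_commutator_ge_left _ _
  have hLC : L ≤ Subgroup.normalizer (C : Set G) := Subgroup.normalizer_commutator_ge_right _ _
  set H' := Q ⊔ (C ⊔ L) with hH'
  have hCT : C ≤ T k (⊤ : Subgroup G) := hle.trans h.RT
  have hH'T : H' ≤ T k (⊤ : Subgroup G) := sup_le h.QT (sup_le hCT h.LT)
  have hn : T k (⊤ : Subgroup G) ≤ Subgroup.normalizer (H' : Set G) := by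
    have hR' : R ≤ Subgroup.normalizer (H' : Set G) := by
      rw [Subgroup.le_normalizer_iff_commutator_le_left, Subgroup.commutator_le]
      intro y hy r hr
      rw [hH', Subgroup.mem_sup_of_normal_left] at hy
      obtain ⟨a, ha, z, hz, rfl⟩ := hy
      obtain ⟨c, hc, l, hl, rfl⟩ := mem_sup_of_norm hLC hz
      have h1 : ⁅a * (c * l), r⁆ = a * (c * ((l * r * l⁻¹ * r⁻¹) * (r * c⁻¹ * r⁻¹)) ) * (r * a⁻¹ * r⁻¹) := by
        rw [commutatorElement_def]; group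
      rw [h1]
      have hlr : l * r * l⁻¹ * r⁻¹ ∈ C := by
        have := C.inv_mem (Subgroup.commutator_mem_commutator hr hl)
        have h2 : (⁅r, l⁆)⁻¹ = l * r * l⁻¹ * r⁻¹ := by rw [commutatorElement_def]; group
        rwa [h2] at this
      have hcr : r * c⁻¹ * r⁻¹ ∈ C := (Subgroup.mem_normalizer_iff.1 (hRC hr) _).1 (C.inv_mem hc)
      refine H'.mul_mem (H'.mul_mem (Subgroup.mem_sup_left ha) (Subgroup.mem_sup_right ?_))
        (Subgroup.mem_sup_left (hQn.conj_mem _ (Q.inv_mem ha) r))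
      exact Subgroup.mem_sup_left (C.mul_mem hc (C.mul_mem hlr hcr))
    intro x hx
    obtain ⟨a, ha, r, hr, l, hl, rfl⟩ := h.T_eq hx
    have hle' : H' ≤ Subgroup.normalizer (H' : Set G) := Subgroup.le_normalizer
    exact Subgroup.mul_mem _ (Subgroup.mul_mem _ (hle' (Subgroup.mem_sup_left ha)) (hR' hr))
      (hle' (Subgroup.mem_sup_right (Subgroup.mem_sup_right hl)))
  -- `T k ⊤ ≤ H'`
  have hTH : T k (⊤ : Subgroup G) ≤ H' := by
    obtain ⟨j, rfl⟩ : ∃ j, k = j + 1 := ⟨k - 1, by have := h.hk; omega⟩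
    rw [← oddGen_T_succ]
    refine (Subgroup.closure_le _).2 ?_
    rintro x ⟨hx, hxo⟩
    obtain ⟨a, ha, r, hr, l, hl, rfl⟩ := h.T_eq hx
    have h1 : a * r * l = (a * l) * (l⁻¹ * r * l) := by group
    rw [h1] at hxo ⊢
    have h2 : l⁻¹ * r * l ∈ R := by
      have := (Subgroup.mem_normalizer_iff.1 (h.LN (L.inv_mem hl)) r).1 hr
      simpa using this
    exact mem_of_eq_mul_two hH'T hn
      (H'.mul_mem (Subgroup.mem_sup_left ha) (Subgroup.mem_sup_right (Subgroup.mem_sup_right hl)))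
      (h.RT h2) hxo (isTwo_of_isPGroup h.hR h2)
  intro r hr
  have h1 := hTH (h.RT hr)
  rw [hH', Subgroup.mem_sup_of_normal_left] at h1
  obtain ⟨a, ha, z, hz, hraz⟩ := h1
  obtain ⟨c, hc, l, hl, rfl⟩ := mem_sup_of_norm hLC hz
  -- `c⁻¹ r = (c⁻¹ a c) l`
  have h2 : c⁻¹ * a * c ∈ Q := by
    have := hQn.conj_mem a ha c⁻¹
    simpa using this
  have h3 : (c⁻¹ * a * c) * l = c⁻¹ * r := by rw [← hraz]; group
  have h4 : c⁻¹ * r ∈ R := R.mul_mem (R.inv_mem (hle hc)) hr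
  have h5 : (c⁻¹ * a * c) * l ∈ Q := by
    refine mem_of_eq_mul (H := ⊤) le_top (h.le_normQ ⊤) h2 (Subgroup.mem_top l)
      (odd_orderOf_of_mem h.oddL hl) ?_
    rw [h3]; exact isTwo_of_isPGroup h.hR h4
  rw [h3] at h5
  have h6 := h.hRQ h4 h5
  have h7 : r = c := (inv_mul_eq_one.1 h6).symm
  rw [h7]; exact hc

theorem RneBot (h : D2 k Q R L N₁) : R ≠ ⊥ := by
  intro hR
  apply h.not_cent
  rw [hR]
  exact bot_le

/-- `T k N₁ ≤ L` -/
theorem L₀L (h : D2 k Q R L N₁) : T k N₁ ≤ L := by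
  obtain ⟨j, rfl⟩ : ∃ j, k = j + 1 := ⟨k - 1, by have := h.hk; omega⟩
  rw [← oddGen_T_succ]
  refine (Subgroup.closure_le _).2 ?_
  rintro x ⟨hx, hxo⟩
  have hxN : x ∈ N₁ := T_le _ _ hx
  obtain ⟨r, hr, l, hl, rfl⟩ := h.hNT x (T_mono _ le_top hx) (h.N₁R hxN)
  have hrN : r ∈ N₁ := by
    have := N₁.mul_mem hxN (N₁.inv_mem (h.LN₁ hl))
    simpa using this
  have hcomm := h.RN₁ hr hrN l hl
  rw [← hcomm] at hxo ⊢
  exact mem_of_eq_mul_two h.LN₁ h.N₁L hl hrN hxo (isTwo_of_isPGroup h.hR hr)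

/-- `L = L₀ C_Q(R)` -/
theorem L_eq (h : D2 k Q R L N₁) {l : G} (hl : l ∈ L) :
    ∃ l₀ ∈ T k N₁, ∃ c ∈ Q ⊓ Subgroup.centralizer (R : Set G), l = l₀ * c := by
  have hUn := h.normalU
  set U := twoGen (T k (⊤ : Subgroup G)) with hU
  let f := QuotientGroup.mk' U
  have hfs : Function.Surjective f := QuotientGroup.mk'_surjective _
  have h1 : N₁.map f = ⊤ := by
    rw [eq_top_iff]
    intro y _
    obtain ⟨x, rfl⟩ := hfs y
    obtain ⟨a, ha, r, hr, n, hn, rfl⟩ := h.G_eq x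
    refine ⟨n, hn, ?_⟩
    rw [map_mul, map_mul]
    have h2 : f a = 1 := (QuotientGroup.eq_one_iff _).2 (h.QU ha)
    have h3 : f r = 1 := (QuotientGroup.eq_one_iff _).2 (h.hRU hr)
    rw [h2, h3, one_mul, one_mul]
  have h2 : f l ∈ (T k N₁).map f := by
    rw [T_map, h1, ← T_map_top f hfs]
    exact ⟨l, h.LT hl, rfl⟩
  obtain ⟨l₀, hl₀, hfl⟩ := h2
  have h3 : l₀⁻¹ * l ∈ U := QuotientGroup.eq.1 hfl
  have h4 : l₀⁻¹ * l ∈ L := L.mul_mem (L.inv_mem (h.L₀L hl₀)) hl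
  have h5 : l₀⁻¹ * l ∈ Q := h.mem_Q h3 (odd_orderOf_of_mem h.oddL h4)
  exact ⟨l₀, hl₀, l₀⁻¹ * l, ⟨h5, h.NQR h5 (h.LN h4)⟩, by group⟩

/-- `[R₁, T k H] = 1` for `H = Q R₁ H₁`-type subgroups -/
theorem key_comm (h : D2 k Q R L N₁) {H R₁ S : Subgroup G} (hH : H ≠ ⊤) (hQH : Q ≤ H)
    (hR₁H : R₁ ≤ H) (hR₁R : R₁ ≤ R) (hS : S ≤ T k H) (hSR₁ : S ≤ Subgroup.normalizer (R₁ : Set G)) :
    ⁅R₁, S⁆ = ⊥ := by
  have h1 : T (k + 1) H = ⊥ := h.crit.min H hH
  have h2 : ⁅R₁, S⁆ ≤ R₁ := Subgroup.le_normalizer_iff_commutator_le_left.1 hSR₁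
  have h3 : ⁅R₁, S⁆ ≤ T k H := by
    refine (Subgroup.commutator_mono le_rfl hS).trans ?_
    exact Subgroup.le_normalizer_iff_commutator_le_right.1 (hR₁H.trans (le_normalizer_T k H))
  have h4 : ⁅Q, ⁅R₁, S⁆⁆ ≤ T (k + 1) H := by
    refine KL1 k (fun r hr => isTwo_of_isPGroup h.hR (hR₁R (h2 hr))) h3 hQH h.oddQ ?_
    exact h.le_normQ _
  rw [h1, le_bot_iff, Subgroup.commutator_eq_bot_iff_le_centralizer,
    Subgroup.le_centralizer_iff] at h4
  rw [eq_bot_iff]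
  intro x hx
  exact h.propP (isTwo_of_isPGroup h.hR (hR₁R (h2 hx))) fun a ha => (h4 hx a ha).symm

/-- `N₁`-invariant proper subgroups of `R` are centralized by `L` -/
theorem irr_R (h : D2 k Q R L N₁) {R₁ : Subgroup G} (hle : R₁ ≤ R)
    (hn : N₁ ≤ Subgroup.normalizer (R₁ : Set G)) (hne : R₁ ≠ R) :
    L ≤ Subgroup.centralizer (R₁ : Set G) := by
  have hQn := h.normalQ
  set H := Q ⊔ (R₁ ⊔ N₁) with hH
  have hHtop : H ≠ ⊤ := by
    intro htop
    apply hne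
    refine le_antisymm hle ?_
    -- `R = R₁ C_R(L)`
    have h1 : ∀ r ∈ R, ∃ r₁ ∈ R₁, ∃ c ∈ R, c ∈ Subgroup.centralizer (L : Set G) ∧ r = r₁ * c := by
      intro r hr
      have h2 : r ∈ H := by rw [htop]; exact Subgroup.mem_top r
      rw [hH, Subgroup.mem_sup_of_normal_left] at h2
      obtain ⟨a, ha, z, hz, hraz⟩ := h2
      obtain ⟨r₁, hr₁, n, hn', rfl⟩ := mem_sup_of_norm hn hz
      have h3 : r₁⁻¹ * a * r₁ ∈ Q := by
        have := hQn.conj_mem a ha r₁⁻¹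
        simpa using this
      have h4 : r₁⁻¹ * r = (r₁⁻¹ * a * r₁) * n := by rw [← hraz]; group
      have h5 : r₁⁻¹ * r ∈ R := R.mul_mem (R.inv_mem (hle hr₁)) hr
      have h6 : r₁⁻¹ * a * r₁ = (r₁⁻¹ * r) * n⁻¹ := by rw [h4]; group
      have h7 : r₁⁻¹ * a * r₁ ∈ Subgroup.normalizer (R : Set G) := by
        rw [h6]
        exact Subgroup.mul_mem _ (Subgroup.le_normalizer h5) (Subgroup.inv_mem _ (h.N₁R hn'))
      have h8 : r₁⁻¹ * a * r₁ ∈ N₁ := h.CN₁ ⟨h3, h.NQR h3 h7⟩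
      have h9 : r₁⁻¹ * r ∈ N₁ := by rw [h4]; exact N₁.mul_mem h8 hn'
      exact ⟨r₁, hr₁, r₁⁻¹ * r, h5, h.RN₁ h5 h9, by group⟩
    rw [← h.comm_RL, Subgroup.commutator_le]
    intro r hr l hl
    obtain ⟨r₁, hr₁, c, hc, hcL, rfl⟩ := h1 r hr
    have h2 : l * c = c * l := hcL l hl
    have h3 : ⁅r₁ * c, l⁆ = r₁ * (l * r₁⁻¹ * l⁻¹) := by
      rw [commutatorElement_def]
      have h4 : c * l * c⁻¹ = l := by rw [← h2]; group
      calc r₁ * c * l * (r₁ * c)⁻¹ * l⁻¹ = r₁ * (c * l * c⁻¹) * r₁⁻¹ * l⁻¹ := by group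
        _ = _ := by rw [h4]; group
    rw [h3]
    exact R₁.mul_mem hr₁ ((Subgroup.mem_normalizer_iff.1 (hn (h.LN₁ hl)) _).1 (R₁.inv_mem hr₁))
  have h1 : ⁅R₁, T k N₁⁆ = ⊥ := by
    refine h.key_comm hHtop le_sup_left (le_sup_left.trans le_sup_right) hle ?_ ?_
    · exact T_mono k (le_sup_right.trans le_sup_right)
    · exact (T_le k N₁).trans hn
  rw [Subgroup.commutator_eq_bot_iff_le_centralizer, Subgroup.le_centralizer_iff] at h1
  intro l hl
  obtain ⟨l₀, hl₀, c, hc, rfl⟩ := h.L_eq hl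
  have h2 : c ∈ Subgroup.centralizer (R₁ : Set G) := fun r hr => hc.2 r (hle hr)
  exact Subgroup.mul_mem _ (h1 hl₀) h2

end D2

end

end Cfsg.Agent.H552
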