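import Mathlib
import Cfsg.Agent.H552.Crit2
import Cfsg.Agent.H979.TwoLenA

/-!
# Structure of the critical groups (helper552; for S4258), third part: the module `R / C_R(L)`
-/

set_option autoImplicit false
set_option linter.unusedSectionVars false
set_option linter.unusedVariables false
set_option linter.style.haveILetI false

universe u

namespace Cfsg.Agent.H552

open scoped commutatorElement

section

variable {G : Type u} [Group G] [Finite G]

/-- coprime action: `[R, L] = R`, `R / D` abelian: the fixed points of `L` on `R / D` are trivial -/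
theorem fix_le {R L D : Subgroup G} (hDR : D ≤ R) (hRD : R ≤ Subgroup.normalizer (D : Set G))
    (hLD : L ≤ Subgroup.normalizer (D : Set G)) (hLR : L ≤ Subgroup.normalizer (R : Set G))
    (hRR : ⁅R, R⁆ ≤ D) (hc : (Nat.card L).Coprime (Nat.card R)) (hRL : ⁅R, L⁆ = R) {r : G}
    (hr : r ∈ R) (hfix : ∀ l ∈ L, l * r * l⁻¹ * r⁻¹ ∈ D) : r ∈ D := by
  set N := Subgroup.normalizer (D : Set G) with hN
  have hDN : D ≤ N := hDR.trans hRD
  have hn : (D.subgroupOf N).Normal :=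
    Subgroup.normal_subgroupOf_iff_le_normalizer hDN |>.2 le_rfl
  let f : N →* N ⧸ D.subgroupOf N := QuotientGroup.mk' _
  have hker : ∀ x : N, f x = 1 ↔ (x : G) ∈ D := fun x => by
    rw [← Subgroup.mem_subgroupOf]; exact QuotientGroup.eq_one_iff x
  set R' := (R.subgroupOf N).map f with hR'
  set L' := (L.subgroupOf N).map f with hL'
  have hmemR : ∀ x : N, (x : G) ∈ R → f x ∈ R' := fun x hx => ⟨x, Subgroup.mem_subgroupOf.2 hx, rfl⟩
  have hmemL : ∀ x : N, (x : G) ∈ L → f x ∈ L' := fun x hx => ⟨x, Subgroup.mem_subgroupOf.2 hx, rfl⟩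
  have hcomm : IsMulCommutative R' := by
    refine ⟨⟨?_⟩⟩
    rintro ⟨_, a, ha, rfl⟩ ⟨_, b, hb, rfl⟩
    refine Subtype.ext ?_
    show f a * f b = f b * f a
    rw [← commutatorElement_eq_one_iff_mul_comm, ← map_commutatorElement, hker]
    exact hRR (Subgroup.commutator_mem_commutator (Subgroup.mem_subgroupOf.1 ha)
      (Subgroup.mem_subgroupOf.1 hb))
  have hnorm : L' ≤ Subgroup.normalizer (R' : Set _) := by
    rw [Subgroup.le_normalizer_iff_commutator_le_left, Subgroup.commutator_le]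
    rintro _ ⟨a, ha, rfl⟩ _ ⟨b, hb, rfl⟩
    rw [← map_commutatorElement]
    apply hmemR
    have h1 : ⁅(a : G), (b : G)⁆ ∈ ⁅R, L⁆ :=
      Subgroup.commutator_mem_commutator (Subgroup.mem_subgroupOf.1 ha) (Subgroup.mem_subgroupOf.1 hb)
    rw [hRL] at h1
    exact h1
  have hcR : Nat.card R' ∣ Nat.card R := by
    refine (Subgroup.card_map_dvd (R.subgroupOf N) f).trans ?_
    rw [Nat.card_congr (Subgroup.subgroupOfEquivOfLe hRD).toEquiv]
  have hcL : Nat.card L' ∣ Nat.card L := by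
    refine (Subgroup.card_map_dvd (L.subgroupOf N) f).trans ?_
    rw [Nat.card_congr (Subgroup.subgroupOfEquivOfLe hLD).toEquiv]
  have h1 := S0055.result L' R' hnorm (Nat.Coprime.of_dvd_left hcL (Nat.Coprime.of_dvd_right hcR hc))
  have h2 : ⁅R', L'⁆ = R' := by
    refine le_antisymm (Subgroup.le_normalizer_iff_commutator_le_left.1 hnorm) ?_
    have h3 : (⁅R.subgroupOf N, L.subgroupOf N⁆ : Subgroup N) = R.subgroupOf N := by
      have h4 : (⁅R.subgroupOf N, L.subgroupOf N⁆ : Subgroup N).map N.subtype =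
          (R.subgroupOf N).map N.subtype := by
        rw [Subgroup.map_commutator, Subgroup.map_subgroupOf_eq_of_le hRD,
          Subgroup.map_subgroupOf_eq_of_le hLD, hRL]
      exact Subgroup.map_injective N.subtype_injective h4
    rw [hR', hL', ← Subgroup.map_commutator, h3]
  rw [h2] at h1
  have h5 : f ⟨r, hRD hr⟩ ∈ R' ⊓ Subgroup.centralizer (L' : Set _) ⊓ R' := by
    refine ⟨⟨hmemR _ hr, ?_⟩, hmemR _ hr⟩
    rintro _ ⟨l, hl, rfl⟩
    rw [← commutatorElement_eq_one_iff_mul_comm, ← map_commutatorElement, hker]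
    exact hfix l (Subgroup.mem_subgroupOf.1 hl)
  rw [h1.1, Subgroup.mem_bot, hker] at h5
  exact h5

/-- `C_R(L)` -/
abbrev Z0 (R L : Subgroup G) : Subgroup G := R ⊓ Subgroup.centralizer (L : Set G)

namespace D2

variable {k : ℕ} {Q R L N₁ : Subgroup G}

theorem Z0_ne (h : D2 k Q R L N₁) : Z0 R L ≠ R := by
  intro he
  apply h.RneBot
  have h1 : R ≤ Subgroup.centralizer (L : Set G) := inf_eq_left.1 he
  rw [← h.comm_RL, Subgroup.commutator_eq_bot_iff_le_centralizer]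
  exact h1

theorem norm_centL (h : D2 k Q R L N₁) : N₁ ≤ Subgroup.normalizer (Subgroup.centralizer (L : Set G) : Set G) := by
  have key : ∀ n ∈ N₁, ∀ x ∈ Subgroup.centralizer (L : Set G), n * x * n⁻¹ ∈ Subgroup.centralizer (L : Set G) := by
    intro n hn x hx l hl
    have h1 : n⁻¹ * l * n ∈ L := by
      have := (Subgroup.mem_normalizer_iff.1 (h.N₁L (N₁.inv_mem hn)) l).1 hl
      simpa using this
    have h2 := hx _ h1
    calc l * (n * x * n⁻¹) = n * ((n⁻¹ * l * n) * x) * n⁻¹ := by group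
      _ = n * (x * (n⁻¹ * l * n)) * n⁻¹ := by rw [h2]
      _ = _ := by group
  intro n hn
  rw [Subgroup.mem_normalizer_iff]
  intro x
  refine ⟨key n hn x, fun hx => ?_⟩
  have := key n⁻¹ (N₁.inv_mem hn) _ hx
  have h3 : n⁻¹ * (n * x * n⁻¹) * n⁻¹⁻¹ = x := by group
  rwa [h3] at this

theorem norm_inf {A B : Subgroup G} {g : G} (h1 : g ∈ Subgroup.normalizer (A : Set G))
    (h2 : g ∈ Subgroup.normalizer (B : Set G)) : g ∈ Subgroup.normalizer ((A ⊓ B : Subgroup G) : Set G) := by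
  rw [Subgroup.mem_normalizer_iff] at *
  intro x
  exact ⟨fun hx => ⟨(h1 x).1 hx.1, (h2 x).1 hx.2⟩, fun hx => ⟨(h1 x).2 hx.1, (h2 x).2 hx.2⟩⟩

theorem norm_Z0 (h : D2 k Q R L N₁) : N₁ ≤ Subgroup.normalizer ((Z0 R L : Subgroup G) : Set G) :=
  fun n hn => norm_inf (h.N₁R hn) (h.norm_centL hn)

theorem le_Z0 (h : D2 k Q R L N₁) {R₁ : Subgroup G} (hle : R₁ ≤ R)
    (hn : N₁ ≤ Subgroup.normalizer (R₁ : Set G)) (hne : R₁ ≠ R) : R₁ ≤ Z0 R L :=
  le_inf hle (Subgroup.le_centralizer_iff.1 (h.irr_R hle hn hne))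

theorem comm_RR (h : D2 k Q R L N₁) : ⁅R, R⁆ ≤ Z0 R L := by
  refine h.le_Z0 (Subgroup.commutator_le_self R) ?_ ?_
  · intro n hn
    exact D1.conj_commutator (h.N₁R hn) (h.N₁R hn)
  · intro he
    have hnil := h.hR.isNilpotent
    have hsol : Group.IsSolvable R := inferInstance
    have h1 : commutator R = ⊤ := by
      have : (commutator R).map R.subtype = (⊤ : Subgroup R).map R.subtype := by
        rw [Subgroup.map_subtype_commutator, he, ← MonoidHom.range_eq_map, Subgroup.range_subtype]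
      exact Subgroup.map_injective R.subtype_injective this
    have : Nontrivial R := (Subgroup.nontrivial_iff_ne_bot R).2 h.RneBot
    exact (Group.IsSolvable.commutator_lt_top_of_nontrivial R).ne h1

theorem Z0_central (h : D2 k Q R L N₁) {c r : G} (hc : c ∈ Z0 R L) (hr : r ∈ R) : c * r = r * c := by
  have h1 : ⁅⁅L, Z0 R L⁆, R⁆ = ⊥ := by
    have : ⁅L, Z0 R L⁆ = ⊥ := by
      rw [Subgroup.commutator_eq_bot_iff_le_centralizer, Subgroup.le_centralizer_iff]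
      exact inf_le_right
    rw [this, Subgroup.commutator_bot_left]
  have h2 : ⁅⁅Z0 R L, R⁆, L⁆ = ⊥ := by
    rw [Subgroup.commutator_eq_bot_iff_le_centralizer]
    refine (Subgroup.commutator_mono inf_le_left le_rfl).trans (h.comm_RR.trans inf_le_right)
  have h3 := Subgroup.commutator_commutator_eq_bot_of_rotate h1 h2
  rw [h.comm_RL, Subgroup.commutator_eq_bot_iff_le_centralizer] at h3
  exact h3 hr c hc

/-- squares of `R` lie in `Z₀` -/
theorem sq_mem (h : D2 k Q R L N₁) {r : G} (hr : r ∈ R) : r ^ 2 ∈ Z0 R L := by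
  have hmulsq : ∀ a ∈ R, ∀ b ∈ R, a ^ 2 ∈ Z0 R L → b ^ 2 ∈ Z0 R L → (a * b) ^ 2 ∈ Z0 R L := by
    intro a ha b hb h1 h2
    have h3 : (a * b) ^ 2 = a ^ 2 * (a⁻¹ * ⁅b, a⁆ * a) * b ^ 2 := by
      simp only [commutatorElement_def, pow_two]; group
    rw [h3]
    have h4 : ⁅b, a⁆ ∈ Z0 R L := h.comm_RR (Subgroup.commutator_mem_commutator hb ha)
    have h5 : a⁻¹ * ⁅b, a⁆ * a = ⁅b, a⁆ := by
      rw [mul_assoc, h.Z0_central h4 ha]; group
    rw [h5]
    exact Subgroup.mul_mem _ (Subgroup.mul_mem _ h1 h4) h2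
  let R₂ : Subgroup G :=
    { carrier := {r | r ∈ R ∧ r ^ 2 ∈ Z0 R L}
      one_mem' := ⟨R.one_mem, by rw [one_pow]; exact Subgroup.one_mem _⟩
      mul_mem' := fun {a b} ha hb => ⟨R.mul_mem ha.1 hb.1, hmulsq a ha.1 b hb.1 ha.2 hb.2⟩
      inv_mem' := fun {a} ha => ⟨R.inv_mem ha.1, by rw [inv_pow]; exact Subgroup.inv_mem _ ha.2⟩ }
  have hR₂ : ∀ x, x ∈ R₂ ↔ x ∈ R ∧ x ^ 2 ∈ Z0 R L := fun x => Iff.rfl
  by_cases he : R₂ = R
  · have : r ∈ R₂ := by rw [he]; exact hr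
    exact this.2
  exfalso
  have h1 : R₂ ≤ Z0 R L := by
    refine h.le_Z0 (fun x hx => hx.1) ?_ he
    intro n hn
    rw [Subgroup.mem_normalizer_iff]
    intro x
    rw [hR₂, hR₂, conj_pow]
    exact and_congr (Subgroup.mem_normalizer_iff.1 (h.N₁R hn) x)
      (Subgroup.mem_normalizer_iff.1 (h.norm_Z0 hn) (x ^ 2))
  apply h.Z0_ne
  refine le_antisymm inf_le_left ?_
  -- every element of `R` lies in `Z₀`
  have key : ∀ n : ℕ, ∀ x ∈ R, x ^ 2 ^ n ∈ Z0 R L → x ∈ Z0 R L := by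
    intro n
    induction n with
    | zero => intro x _ hx; simpa using hx
    | succ n ih =>
      intro x hx hx'
      refine ih x hx ?_
      apply h1
      rw [hR₂]
      refine ⟨R.pow_mem hx _, ?_⟩
      rw [← pow_mul, ← pow_succ]
      exact hx'
  intro x hx
  obtain ⟨n, hn⟩ := isTwo_of_isPGroup h.hR hx
  exact key n x hx (by rw [hn]; exact Subgroup.one_mem _)

theorem coprimeL (h : D2 k Q R L N₁) : (Nat.card L).Coprime (Nat.card R) :=
  (coprime_two_odd h.hR h.oddL).symm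

theorem Z0_le (h : D2 k Q R L N₁) : Z0 R L ≤ ⁅R, R⁆ := by
  intro c hc
  refine fix_le (Subgroup.commutator_le_self R) (Subgroup.normalizer_commutator_ge_left _ _) ?_ h.LN le_rfl
    h.coprimeL h.comm_RL hc.1 ?_
  · intro l hl
    exact D1.conj_commutator (h.LN hl) (h.LN hl)
  · intro l hl
    have h1 : l * c = c * l := hc.2 l hl
    have h2 : l * c * l⁻¹ * c⁻¹ = 1 := by rw [h1]; group
    rw [h2]
    exact Subgroup.one_mem _

/-- squares of commutators -/
theorem comm_sq (h : D2 k Q R L N₁) {r s : G} (hr : r ∈ R) (hs : s ∈ R) : ⁅r, s⁆ ^ 2 = 1 := by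
  have h1 : ⁅r, s⁆ ∈ Z0 R L := h.comm_RR (Subgroup.commutator_mem_commutator hr hs)
  have h2 : ⁅r, s⁆ * r = r * ⁅r, s⁆ := h.Z0_central h1 hr
  have h3 : ⁅r, s⁆ ^ 2 = ⁅r ^ 2, s⁆ := by
    have h4 : ⁅r ^ 2, s⁆ = r * ⁅r, s⁆ * r⁻¹ * ⁅r, s⁆ := by
      simp only [commutatorElement_def, pow_two]; group
    rw [h4, ← h2, mul_inv_cancel_right, pow_two]
  rw [h3, commutatorElement_eq_one_iff_mul_comm]
  exact h.Z0_central (h.sq_mem hr) hs

theorem Z0_sq (h : D2 k Q R L N₁) {c : G} (hc : c ∈ Z0 R L) : c ^ 2 = 1 := by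
  have h1 : ⁅R, R⁆ ≤ {
      carrier := {x : G | x ∈ Z0 R L ∧ x ^ 2 = 1}
      one_mem' := ⟨Subgroup.one_mem _, one_pow 2⟩
      mul_mem' := fun {a b} ha hb => ⟨Subgroup.mul_mem _ ha.1 hb.1, by
        have h2 : a * b = b * a := h.Z0_central ha.1 hb.1.1
        rw [Commute.mul_pow h2, ha.2, hb.2, one_mul]⟩
      inv_mem' := fun {a} ha => ⟨Subgroup.inv_mem _ ha.1, by rw [inv_pow, ha.2, inv_one]⟩ : Subgroup G} := by
    rw [Subgroup.commutator_le]
    intro r hr s hs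
    exact ⟨h.comm_RR (Subgroup.commutator_mem_commutator hr hs), h.comm_sq hr hs⟩
  exact (h1 (h.Z0_le hc)).2

/-- the kernel of `N₁` on `R / Z₀` centralizes `R` -/
theorem cent_of (h : D2 k Q R L N₁) {n : G} (hn : n ∈ N₁) (hf : ∀ r ∈ R, n * r * n⁻¹ * r⁻¹ ∈ Z0 R L) :
    n ∈ Subgroup.centralizer (R : Set G) := by
  -- elements of `L` acting trivially on `R/Z₀` centralize `R`
  have hL : ∀ m ∈ L, (∀ r ∈ R, m * r * m⁻¹ * r⁻¹ ∈ Z0 R L) → ∀ r ∈ R, m * r = r * m := by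
    intro m hm hm' r hr
    set z := m * r * m⁻¹ * r⁻¹ with hz
    have hzZ : z ∈ Z0 R L := hm' r hr
    have hmz : m * z = z * m := hzZ.2 m hm
    have h1 : ∀ j : ℕ, m ^ j * r * (m ^ j)⁻¹ = z ^ j * r := by
      intro j
      induction j with
      | zero => simp
      | succ j ih =>
        have hmzj : m * z ^ j = z ^ j * m := (Commute.pow_right hmz j)
        calc m ^ (j + 1) * r * (m ^ (j + 1))⁻¹ = m * (m ^ j * r * (m ^ j)⁻¹) * m⁻¹ := by
              rw [pow_succ']; group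
          _ = m * (z ^ j * r) * m⁻¹ := by rw [ih]
          _ = (m * z ^ j) * r * m⁻¹ := by group
          _ = z ^ j * (m * r * m⁻¹) := by rw [hmzj]; group
          _ = z ^ j * (z * r) := by rw [hz]; group
          _ = z ^ (j + 1) * r := by rw [pow_succ]; group
    have h2 := h1 (orderOf m)
    rw [pow_orderOf_eq_one, inv_one, mul_one, one_mul] at h2
    have h3 : z ^ orderOf m = 1 := by
      have : z ^ orderOf m * r = 1 * r := by rw [← h2, one_mul]
      exact mul_right_cancel this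
    have h4 : z = 1 := by
      have h5 : Odd (orderOf z) := Odd.of_dvd_nat (odd_orderOf_of_mem h.oddL hm)
        (orderOf_dvd_of_pow_eq_one h3)
      exact eq_one_of_isTwo_of_odd (isTwo_of_isPGroup h.hR hzZ.1) h5
    rw [h4] at hz
    have h5 : m * r * m⁻¹ = r := by
      have := hz.symm
      rwa [mul_inv_eq_one] at this
    rw [mul_inv_eq_iff_eq_mul] at h5
    exact h5
  -- `[n, l r l⁻¹] = [n, r]`
  have hnR : ∀ r ∈ R, n * r * n⁻¹ ∈ R := fun r hr => (Subgroup.mem_normalizer_iff.1 (h.N₁R hn) r).1 hr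
  have key : ∀ l ∈ L, ∀ r ∈ R, n * (l * r * l⁻¹) * n⁻¹ * (l * r * l⁻¹)⁻¹ = n * r * n⁻¹ * r⁻¹ := by
    intro l hl r hr
    set m := n⁻¹ * l⁻¹ * n * l with hm
    have hmL : m ∈ L := by
      have h1 : n⁻¹ * l⁻¹ * n ∈ L := by
        have := (Subgroup.mem_normalizer_iff.1 (h.N₁L (N₁.inv_mem hn)) _).1 (L.inv_mem hl)
        simpa using this
      exact L.mul_mem h1 hl
    -- the elements acting trivially on `R/Z₀`
    have hmulK : ∀ a b : G, a ∈ N₁ → (∀ r ∈ R, a * r * a⁻¹ * r⁻¹ ∈ Z0 R L) → b ∈ N₁ →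
        (∀ r ∈ R, b * r * b⁻¹ * r⁻¹ ∈ Z0 R L) → ∀ r ∈ R, (a * b) * r * (a * b)⁻¹ * r⁻¹ ∈ Z0 R L := by
      intro a b ha ha' hb hb' r hr
      have h1 : b * r * b⁻¹ ∈ R := (Subgroup.mem_normalizer_iff.1 (h.N₁R hb) r).1 hr
      have h2 : (a * b) * r * (a * b)⁻¹ * r⁻¹ =
          (a * (b * r * b⁻¹) * a⁻¹ * (b * r * b⁻¹)⁻¹) * (b * r * b⁻¹ * r⁻¹) := by group
      rw [h2]
      exact Subgroup.mul_mem _ (ha' _ h1) (hb' r hr)
    have hninv : ∀ r ∈ R, n⁻¹ * r * n⁻¹⁻¹ * r⁻¹ ∈ Z0 R L := by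
      intro r hr
      have h1 : n⁻¹ * r * n ∈ R := by
        have := (Subgroup.mem_normalizer_iff.1 (h.N₁R (N₁.inv_mem hn)) r).1 hr
        simpa using this
      have h2 := hf _ h1
      have h3 : n * (n⁻¹ * r * n) * n⁻¹ * (n⁻¹ * r * n)⁻¹ = (n⁻¹ * r * n⁻¹⁻¹ * r⁻¹)⁻¹ := by group
      rw [h3] at h2
      have h4 := Subgroup.inv_mem _ h2
      rwa [inv_inv] at h4
    have hconj : ∀ r ∈ R, (l⁻¹ * n * l) * r * (l⁻¹ * n * l)⁻¹ * r⁻¹ ∈ Z0 R L := by
      intro r hr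
      have h1 : l * r * l⁻¹ ∈ R := (Subgroup.mem_normalizer_iff.1 (h.LN hl) r).1 hr
      have h2 := hf _ h1
      have h3 := (Subgroup.mem_normalizer_iff.1 (h.norm_Z0 (h.LN₁ (L.inv_mem hl))) _).1 h2
      have h4 : l⁻¹ * (n * (l * r * l⁻¹) * n⁻¹ * (l * r * l⁻¹)⁻¹) * l⁻¹⁻¹ =
          (l⁻¹ * n * l) * r * (l⁻¹ * n * l)⁻¹ * r⁻¹ := by group
      rwa [h4] at h3
    have hm' : ∀ r ∈ R, m * r * m⁻¹ * r⁻¹ ∈ Z0 R L := by
      have h1 : m = n⁻¹ * (l⁻¹ * n * l) := by rw [hm]; group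
      rw [h1]
      refine hmulK _ _ (N₁.inv_mem hn) hninv ?_ hconj
      exact N₁.mul_mem (N₁.mul_mem (h.LN₁ (L.inv_mem hl)) hn) (h.LN₁ hl)
    have hmr := hL m hmL hm' r hr
    have h5 : m * r * m⁻¹ = r := by rw [hmr]; group
    have h6 : n * (l * r * l⁻¹) * n⁻¹ * (l * r * l⁻¹)⁻¹ =
        l * (n * (m * r * m⁻¹) * n⁻¹ * r⁻¹) * l⁻¹ := by rw [hm]; group
    rw [h6, h5]
    have h7 : l * (n * r * n⁻¹ * r⁻¹) = (n * r * n⁻¹ * r⁻¹) * l := (hf r hr).2 l hl
    rw [h7]; group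
  have h2 : ⁅R, L⁆ ≤ Subgroup.centralizer ({n} : Set G) := by
    rw [Subgroup.commutator_le]
    intro r hr l hl
    rw [Subgroup.mem_centralizer_singleton_iff]
    have h3 := key l hl r⁻¹ (R.inv_mem hr)
    -- `⁅r, l⁆ = r * (l r⁻¹ l⁻¹)`
    set s := l * r⁻¹ * l⁻¹ with hs
    have hsR : s ∈ R := (Subgroup.mem_normalizer_iff.1 (h.LN hl) _).1 (R.inv_mem hr)
    have h4 : ⁅r, l⁆ = r * s := by rw [commutatorElement_def, hs]; group
    rw [h4]
    have hz : n * r⁻¹ * n⁻¹ * r⁻¹⁻¹ ∈ Z0 R L := hf _ (R.inv_mem hr)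
    set z := n * r⁻¹ * n⁻¹ * r⁻¹⁻¹ with hzdef
    have h5 : n * s * n⁻¹ = z * s := by
      have := mul_inv_eq_iff_eq_mul.1 h3
      exact this
    have h6 : n * r * n⁻¹ = r * z⁻¹ := by
      rw [hzdef]; group
    have h7 : n * (r * s) * n⁻¹ = r * s := by
      calc n * (r * s) * n⁻¹ = (n * r * n⁻¹) * (n * s * n⁻¹) := by group
        _ = r * z⁻¹ * (z * s) := by rw [h5, h6]
        _ = r * s := by group
    have h8 : n * (r * s) = (r * s) * n := by
      rw [mul_inv_eq_iff_eq_mul] at h7; exact h7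
    exact h8.symm
  rw [h.comm_RL] at h2
  intro r hr
  have h3 := h2 hr
  rw [Subgroup.mem_centralizer_singleton_iff] at h3
  exact h3

end D2

end

end Cfsg.Agent.H552
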