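import Mathlib
import Cfsg.Agent.H552.Crit3
import Cfsg.Agent.PLocal.Uniserial

/-!
# Structure of the critical groups (helper552; for S4258), fourth part: the module `M = R / C_R(L)` and the
critical group `X = N₁ / C_{N₁}(R)`
-/

set_option autoImplicit false
set_option linter.unusedSectionVars false
set_option linter.unusedVariables false
set_option linter.style.haveILetI false

universe u

namespace Cfsg.Agent.H552

open scoped commutatorElement
open Cfsg.Agent.OddOrderCharacters.PF9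

/-- the module `M = R / Z₀` for `N₁` -/
structure MD {G : Type u} [Group G] (R L N₁ : Subgroup G) {M : Type u} [AddCommGroup M] [Module (ZMod 2) M]
    (π : ↥R → M) (ρ : ↥N₁ →* Module.End (ZMod 2) M) : Prop where
  surj : Function.Surjective π
  add : ∀ a b, π (a * b) = π a + π b
  ker : ∀ a : ↥R, π a = 0 ↔ (a : G) ∈ Z0 R L
  norm : ∀ x ∈ N₁, ∀ h ∈ R, x * h * x⁻¹ ∈ R
  act : ∀ (x : ↥N₁) (h : ↥R), ρ x (π h) = π ⟨x * h * (x : G)⁻¹, norm x x.2 h h.2⟩

section

variable {G : Type u} [Group G] [Finite G] {k : ℕ} {Q R L N₁ : Subgroup G}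

theorem D2.exists_MD (h : D2 k Q R L N₁) :
    ∃ (M : Type u) (_ : AddCommGroup M) (_ : Module (ZMod 2) M) (_ : Finite M) (π : ↥R → M)
      (ρ : ↥N₁ →* Module.End (ZMod 2) M), MD R L N₁ π ρ := by
  have : Fact (Nat.Prime 2) := ⟨Nat.prime_two⟩
  obtain ⟨M, i1, i2, π, hsurj, hadd, hker, -⟩ :=
    SectionModule.exists_module 2 R (Z0 R L)
      (fun a ha c hc => by
        have h1 := h.Z0_central hc ha
        have h2 : a * c * a⁻¹ = c := by rw [← h1]; group
        rw [h2]; exact hc)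
      (fun a ha b hb => h.comm_RR (Subgroup.commutator_mem_commutator ha hb))
      (fun a ha => h.sq_mem ha)
  have hn : ∀ x ∈ N₁, ∀ a ∈ R, x * a * x⁻¹ ∈ R := fun x hx a ha =>
    (Subgroup.mem_normalizer_iff.1 (h.N₁R hx) a).1 ha
  obtain ⟨ρ, hρ⟩ := SectionModule.exists_rep (p := 2) hsurj hadd hker N₁ hn
    (fun x hx a ha => (Subgroup.mem_normalizer_iff.1 (h.norm_Z0 hx) a).1 ha)
  exact ⟨M, i1, i2, Finite.of_surjective _ hsurj, π, ρ, hsurj, hadd, hker, hn, hρ⟩

namespace MD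

variable {M : Type u} [AddCommGroup M] [Module (ZMod 2) M] {π : ↥R → M}
  {ρ : ↥N₁ →* Module.End (ZMod 2) M}

theorem one (d : MD R L N₁ π ρ) : π 1 = 0 := SectionModule.pi_one d.add

theorem inv (d : MD R L N₁ π ρ) (a : ↥R) : π a⁻¹ = -π a := SectionModule.pi_inv d.add a

theorem neg (d : MD R L N₁ π ρ) (m : M) : -m = m := by
  have h : m + m = 0 := by
    have : (2 : ZMod 2) • m = 0 := by
      have h2 : (2 : ZMod 2) = 0 := by decide
      rw [h2, zero_smul]
    rwa [two_smul] at this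
  exact neg_eq_of_add_eq_zero_left h

theorem act_eq_iff (d : MD R L N₁ π ρ) (x : ↥N₁) (r : ↥R) :
    ρ x (π r) = π r ↔ (x : G) * r * (x : G)⁻¹ * (r : G)⁻¹ ∈ Z0 R L := by
  rw [d.act, ← sub_eq_zero, sub_eq_add_neg, ← d.inv, ← d.add, d.ker]
  rfl

theorem act_eq_one_iff (d : MD R L N₁ π ρ) (x : ↥N₁) :
    ρ x = 1 ↔ ∀ r ∈ R, (x : G) * r * (x : G)⁻¹ * r⁻¹ ∈ Z0 R L := by
  constructor
  · intro h1 r hr
    rw [← d.act_eq_iff x ⟨r, hr⟩, h1, Module.End.one_apply]
  · intro h1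
    ext v
    obtain ⟨r, rfl⟩ := d.surj v
    rw [Module.End.one_apply, d.act_eq_iff]
    exact h1 r r.2

/-- the product formula -/
theorem exists_mul_pow (d : MD R L N₁ π ρ) (z : ↥N₁) (m : ↥R) (n : ℕ) :
    ∃ w : ↥R, ((m : G) * z) ^ n = w * (z : G) ^ n ∧ π w = (∑ i ∈ Finset.range n, (ρ z) ^ i) (π m) := by
  induction n with
  | zero => exact ⟨1, by simp, by simpa using d.one⟩
  | succ n ih =>
    obtain ⟨w, hw, hπ⟩ := ih
    refine ⟨m * ⟨z * w * (z : G)⁻¹, d.norm z z.2 w w.2⟩, ?_, ?_⟩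
    · rw [pow_succ', hw, pow_succ']
      push_cast
      group
    · rw [d.add, ← d.act, hπ, Finset.sum_range_succ']
      simp only [pow_zero, LinearMap.add_apply, Module.End.one_apply, pow_succ', LinearMap.sum_apply,
        Module.End.mul_apply, map_sum]
      rw [add_comm]

theorem pi_eq (d : MD R L N₁ π ρ) (z : ↥N₁) (m : ↥R) (n : ℕ)
    (hmem : ((m : G) * z) ^ n * ((z : G) ^ n)⁻¹ ∈ R) :
    π ⟨_, hmem⟩ = (∑ i ∈ Finset.range n, (ρ z) ^ i) (π m) := by
  obtain ⟨w, hw, hπ⟩ := d.exists_mul_pow z m n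
  rw [← hπ]
  congr 1
  apply Subtype.ext
  show ((m : G) * z) ^ n * ((z : G) ^ n)⁻¹ = w
  rw [hw]; group

theorem mem_R (d : MD R L N₁ π ρ) (z : ↥N₁) (m : ↥R) (n : ℕ) :
    ((m : G) * z) ^ n * ((z : G) ^ n)⁻¹ ∈ R := by
  obtain ⟨w, hw, hπ⟩ := d.exists_mul_pow z m n
  have : ((m : G) * z) ^ n * ((z : G) ^ n)⁻¹ = w := by rw [hw]; group
  rw [this]; exact w.2

/-- `M` is irreducible -/
theorem irr (d : MD R L N₁ π ρ) (h : D2 k Q R L N₁) (S : Submodule (ZMod 2) M)
    (hS : ∀ g, ∀ m ∈ S, ρ g m ∈ S) : S = ⊥ ∨ S = ⊤ := by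
  obtain ⟨K, hKR, hK⟩ := SectionModule.exists_subgroup d.add S
  have hn : N₁ ≤ Subgroup.normalizer (K : Set G) := by
    have key : ∀ n ∈ N₁, ∀ x ∈ K, n * x * n⁻¹ ∈ K := by
      intro n hn x hx
      have h1 : π ⟨x, hKR hx⟩ ∈ S := (hK ⟨x, hKR hx⟩).1 hx
      have h2 := hS ⟨n, hn⟩ _ h1
      rw [d.act] at h2
      exact (hK _).2 h2
    intro n hn
    rw [Subgroup.mem_normalizer_iff]
    intro x
    refine ⟨key n hn x, fun hx => ?_⟩
    have := key n⁻¹ (N₁.inv_mem hn) _ hx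
    have h3 : n⁻¹ * (n * x * n⁻¹) * n⁻¹⁻¹ = x := by group
    rwa [h3] at this
  by_cases he : K = R
  · right
    rw [eq_top_iff]
    intro v _
    obtain ⟨r, rfl⟩ := d.surj v
    rw [← hK, he]
    exact r.2
  · left
    rw [eq_bot_iff]
    intro v hv
    obtain ⟨r, rfl⟩ := d.surj v
    rw [Submodule.mem_bot, d.ker]
    exact h.le_Z0 hKR hn he ((hK r).2 hv)

/-- no nonzero vectors fixed by `L` -/
theorem fixL (d : MD R L N₁ π ρ) (h : D2 k Q R L N₁) (m : M)
    (hm : ∀ l, (hl : l ∈ L) → ρ ⟨l, h.LN₁ hl⟩ m = m) : m = 0 := by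
  obtain ⟨r, rfl⟩ := d.surj m
  rw [d.ker]
  refine fix_le inf_le_left ?_ (h.LN₁.trans h.norm_Z0) h.LN h.comm_RR h.coprimeL h.comm_RL r.2 ?_
  · intro a ha
    rw [Subgroup.mem_normalizer_iff]
    intro c
    constructor
    · intro hc
      have h2 : a * c * a⁻¹ = c := by rw [← h.Z0_central hc ha]; group
      rw [h2]; exact hc
    · intro hc
      have h2 := h.Z0_central hc ha
      have h3 : a * c * a⁻¹ = c := by
        have h4 : a * (a * c * a⁻¹) * a⁻¹ = a * c * a⁻¹ := by rw [← h2]; group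
        have h5 : a * c * a⁻¹ = c := by
          have := mul_right_cancel h4
          exact mul_left_cancel this
        exact h5
      rw [← h3]; exact hc
  · intro l hl
    exact (d.act_eq_iff ⟨l, h.LN₁ hl⟩ r).1 (hm l hl)

end MD

/-- by Theorem E for `N₁`: some `2`-element `x` of `N₁` has nontrivial norm on `R / Z₀` -/
theorem D2.exists_x (h : D2 k Q R L N₁) (hE : EAt.{u} k N₁) :
    ∃ x ∈ N₁, IsTwo x ∧ ∃ m ∈ R, (m * x) ^ 2 ^ k * (x ^ 2 ^ k)⁻¹ ∉ Z0 R L := by
  obtain ⟨M, i1, i2, i3, π, ρ, d⟩ := h.exists_MD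
  by_contra hcon
  push Not at hcon
  have h1 : ∀ g ∈ T k (⊤ : Subgroup ↥N₁), ρ g = 1 := by
    refine hE M ρ fun y hy => ?_
    rw [H979.TwoLenA.sub_one_pow]
    ext v
    obtain ⟨m, rfl⟩ := d.surj v
    rw [← d.pi_eq y m (2 ^ k) (d.mem_R y m (2 ^ k)), LinearMap.zero_apply, d.ker]
    exact hcon y y.2 (hy.map N₁.subtype) m m.2
  have h2 : ⁅R, L⁆ ≤ Z0 R L := by
    rw [Subgroup.commutator_le]
    intro r hr l hl
    obtain ⟨l₀, hl₀, c, hc, rfl⟩ := h.L_eq hl
    rw [← T_subtype] at hl₀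
    obtain ⟨g, hg, rfl⟩ := hl₀
    have h3 := (d.act_eq_one_iff g).1 (h1 g hg) r hr
    have h4 := Subgroup.inv_mem _ h3
    have h5 : ⁅r, N₁.subtype g * c⁆ = ((g : G) * r * (g : G)⁻¹ * r⁻¹)⁻¹ := by
      have h6 : r * c = c * r := hc.2 r hr
      have h7 : c * r⁻¹ * c⁻¹ = r⁻¹ := by
        rw [mul_inv_eq_iff_eq_mul, eq_comm, inv_mul_eq_iff_eq_mul, ← mul_assoc, h6, mul_assoc,
          mul_inv_cancel, mul_one]
      have h8 : ⁅r, N₁.subtype g * c⁆ = r * (g : G) * (c * r⁻¹ * c⁻¹) * (g : G)⁻¹ := by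
        rw [commutatorElement_def]
        show r * ((g : G) * c) * r⁻¹ * ((g : G) * c)⁻¹ = _
        group
      rw [h8, h7]; group
    rw [h5]
    exact h4
  rw [h.comm_RL] at h2
  exact h.Z0_ne (le_antisymm inf_le_left h2)

section X

/-- the kernel `C_{N₁}(R)` -/
abbrev KX (R N₁ : Subgroup G) : Subgroup ↥N₁ := (Subgroup.centralizer (R : Set G)).subgroupOf N₁

theorem D2.KX_normal (h : D2 k Q R L N₁) : (KX R N₁).Normal := by
  refine ⟨fun c hc n => ?_⟩
  rw [Subgroup.mem_subgroupOf] at hc ⊢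
  intro r hr
  have h1 : (n : G)⁻¹ * r * n ∈ R := by
    have := (Subgroup.mem_normalizer_iff.1 (h.N₁R (N₁.inv_mem n.2)) r).1 hr
    simpa using this
  have h2 := hc _ h1
  show r * ((n : G) * c * (n : G)⁻¹) = ((n : G) * c * (n : G)⁻¹) * r
  calc r * ((n : G) * c * (n : G)⁻¹) = n * (((n : G)⁻¹ * r * n) * c) * (n : G)⁻¹ := by group
    _ = n * (c * ((n : G)⁻¹ * r * n)) * (n : G)⁻¹ := by rw [h2]
    _ = _ := by group

/-- `X = N₁ / C_{N₁}(R)` is critical -/
theorem D2.crit_X (h : D2 k Q R L N₁) [hn : (KX R N₁).Normal] : Crit.{u} k (↥N₁ ⧸ KX R N₁) := by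
  have hQn := h.normalQ
  let f : ↥N₁ →* ↥N₁ ⧸ KX R N₁ := QuotientGroup.mk' _
  have hfs : Function.Surjective f := QuotientGroup.mk'_surjective _
  have hfker : ∀ x : ↥N₁, f x = 1 ↔ (x : G) ∈ Subgroup.centralizer (R : Set G) := fun x => by
    rw [← Subgroup.mem_subgroupOf]; exact QuotientGroup.eq_one_iff x
  have hT : (T k (⊤ : Subgroup ↥N₁)).map f = T k ⊤ := T_map_top f hfs k
  have hTN : (T k (⊤ : Subgroup ↥N₁)).map N₁.subtype = T k N₁ := T_subtype k N₁
  constructor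
  · -- core
    intro N hN hN2
    set Y : Subgroup ↥N₁ := N.comap f with hY
    set Y' : Subgroup G := Y.map N₁.subtype with hY'
    have hY'N : Y' ≤ N₁ := Subgroup.map_subtype_le _
    have hYn : Y.Normal := hN.comap f
    have hmemY' : ∀ x, (hx : x ∈ N₁) → (x ∈ Y' ↔ f ⟨x, hx⟩ ∈ N) := by
      intro x hx
      constructor
      · rintro ⟨y, hy, hyx⟩
        have : y = ⟨x, hx⟩ := Subtype.ext hyx
        rw [← this]; exact hy
      · intro hy
        exact ⟨⟨x, hx⟩, hy, rfl⟩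
    have hnorm : N₁ ≤ Subgroup.normalizer (Y' : Set G) := by
      have key : ∀ n ∈ N₁, ∀ x ∈ Y', n * x * n⁻¹ ∈ Y' := by
        rintro n hn' _ ⟨y, hy, rfl⟩
        exact ⟨⟨n, hn'⟩ * y * ⟨n, hn'⟩⁻¹, hYn.conj_mem y hy _, rfl⟩
      intro n hn'
      rw [Subgroup.mem_normalizer_iff]
      intro x
      refine ⟨key n hn' x, fun hx => ?_⟩
      have := key n⁻¹ (N₁.inv_mem hn') _ hx
      have h3 : n⁻¹ * (n * x * n⁻¹) * n⁻¹⁻¹ = x := by group
      rwa [h3] at this
    obtain ⟨P, hP1, hP2, hP3⟩ := exists_sylow_of 2 Y'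
    -- `Y' = P C`
    have hYP : ∀ y ∈ Y', ∃ p ∈ P, ∃ c ∈ Subgroup.centralizer (R : Set G), y = p * c := by
      -- `Y'/C` is a 2-group with Sylow subgroup the image of `P`
      intro y hy
      -- work in `N`: the image of `P` is everything
      have h1 : (P.subgroupOf N₁).map f = N := by
        have hle : (P.subgroupOf N₁).map f ≤ N := by
          rintro _ ⟨p, hp, rfl⟩
          exact (hmemY' p p.2).1 (hP1 (Subgroup.mem_subgroupOf.1 hp))
        have hPeq : (P.subgroupOf N₁).map N₁.subtype = P :=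
          Subgroup.map_subgroupOf_eq_of_le (hP1.trans hY'N)
        have hYmap : Y.map f = N := Subgroup.map_comap_eq_self_of_surjective hfs N
        have hPY : P.subgroupOf N₁ ≤ Y := by
          intro p hp
          exact (hmemY' p p.2).1 (hP1 (Subgroup.mem_subgroupOf.1 hp))
        have hidx1 : (P.subgroupOf N₁).relIndex Y = P.relIndex Y' := by
          rw [hY', ← Subgroup.relIndex_map_map_of_injective _ _ N₁.subtype_injective, hPeq]
        have hidx2 : ((P.subgroupOf N₁).map f).relIndex N ∣ P.relIndex Y' := by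
          rw [← hidx1, ← hYmap]
          rw [← Subgroup.relIndex_comap]
          exact Subgroup.relIndex_dvd_of_le_left _ (Subgroup.le_comap_map _ _)
        -- index is a power of 2 and odd
        obtain ⟨n, hn2⟩ := hN2.exists_card_eq
        have h2 : ((P.subgroupOf N₁).map f).relIndex N ∣ 2 ^ n := by
          rw [← hn2]; exact Subgroup.relIndex_dvd_card _ _
        obtain ⟨j, _, hj⟩ := (Nat.dvd_prime_pow Nat.prime_two).1 h2
        have h3 : j = 0 := by
          by_contra hj0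
          apply hP3
          refine dvd_trans ?_ hidx2
          rw [hj]; exact dvd_pow_self 2 hj0
        rw [h3, pow_zero] at hj
        exact le_antisymm hle (Subgroup.relIndex_eq_one.1 hj)
      have h2 : f ⟨y, hY'N hy⟩ ∈ (P.subgroupOf N₁).map f := by
        rw [h1]; exact (hmemY' y _).1 hy
      obtain ⟨p, hp, hpy⟩ := h2
      refine ⟨p, Subgroup.mem_subgroupOf.1 hp, (p : G)⁻¹ * y, ?_, by group⟩
      have h3 : f (p⁻¹ * ⟨y, hY'N hy⟩) = 1 := by rw [map_mul, map_inv, hpy, inv_mul_cancel]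
      exact (hfker _).1 h3
    have hYR : ⁅R, Y'⁆ ≤ ⁅R, P⁆ := by
      rw [Subgroup.commutator_le]
      intro r hr y hy
      obtain ⟨p, hp, c, hc, rfl⟩ := hYP y hy
      have h6 : r * c = c * r := hc r hr
      have h7 : c * r⁻¹ * c⁻¹ = r⁻¹ := by
        rw [mul_inv_eq_iff_eq_mul, eq_comm, inv_mul_eq_iff_eq_mul, ← mul_assoc, h6, mul_assoc,
          mul_inv_cancel, mul_one]
      have h8 : ⁅r, p * c⁆ = r * p * (c * r⁻¹ * c⁻¹) * p⁻¹ := by rw [commutatorElement_def]; group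
      rw [h8, h7]
      exact Subgroup.commutator_mem_commutator hr hp
    have hPR : P ≤ Subgroup.normalizer (R : Set G) := hP1.trans (hY'N.trans h.N₁R)
    have hlt : ⁅R, P⁆ < R := by
      refine PLocal.Uniserial.commutator_lt (P ⊔ R) P R ?_ le_sup_left le_sup_right hPR h.RneBot
      have : Fact (Nat.Prime 2) := ⟨Nat.prime_two⟩
      exact (hP2.to_sup_of_normal_right' h.hR hPR).isNilpotent
    have hne : ⁅R, Y'⁆ ≠ R := fun he => by
      rw [he] at hYR
      exact absurd (lt_of_le_of_lt hYR hlt) (lt_irrefl _)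
    have hle : ⁅R, Y'⁆ ≤ R :=
      Subgroup.le_normalizer_iff_commutator_le_left.1 (hY'N.trans h.N₁R)
    have h1 : ⁅R, Y'⁆ ≤ Z0 R L := by
      refine h.le_Z0 hle ?_ hne
      intro n hn'
      exact D1.conj_commutator (h.N₁R hn') (hnorm hn')
    rw [eq_bot_iff]
    intro y hy
    obtain ⟨x, rfl⟩ := hfs y
    rw [Subgroup.mem_bot, hfker]
    refine h.cent_of x.2 fun r hr => ?_
    have h2 : (x : G) ∈ Y' := (hmemY' x x.2).2 hy
    have h3 := Subgroup.inv_mem _ (h1 (Subgroup.commutator_mem_commutator hr h2))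
    have h4 : (⁅r, (x : G)⁆)⁻¹ = (x : G) * r * (x : G)⁻¹ * r⁻¹ := by rw [commutatorElement_def]; group
    rwa [h4] at h3
  · -- nontrivial
    intro he
    have h1 : T k N₁ ≤ Subgroup.centralizer (R : Set G) := by
      rw [← hTN]
      rintro _ ⟨x, hx, rfl⟩
      have h2 : f x ∈ (T k (⊤ : Subgroup ↥N₁)).map f := ⟨x, hx, rfl⟩
      rw [hT, he, Subgroup.mem_bot, hfker] at h2
      exact h2
    apply h.RneBot
    rw [← h.comm_RL, Subgroup.commutator_eq_bot_iff_le_centralizer, Subgroup.le_centralizer_iff]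
    intro l hl
    obtain ⟨l₀, hl₀, c, hc, rfl⟩ := h.L_eq hl
    exact Subgroup.mul_mem _ (h1 hl₀) hc.2
  · -- odd
    rw [← hT]
    refine Odd.of_dvd_nat ?_ (Subgroup.card_map_dvd _ f)
    rw [← Subgroup.card_map_of_injective N₁.subtype_injective, hTN]
    exact odd_card_mono h.L₀L h.oddL
  · -- minimality
    intro H hH
    set H' : Subgroup G := (H.comap f).map N₁.subtype with hH'
    have hH'N : H' ≤ N₁ := Subgroup.map_subtype_le _
    have hmemH' : ∀ x, (hx : x ∈ N₁) → (x ∈ H' ↔ f ⟨x, hx⟩ ∈ H) := by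
      intro x hx
      constructor
      · rintro ⟨y, hy, hyx⟩
        have : y = ⟨x, hx⟩ := Subtype.ext hyx
        rw [← this]; exact hy
      · intro hy
        exact ⟨⟨x, hx⟩, hy, rfl⟩
    have hCH : ∀ x ∈ N₁, x ∈ Subgroup.centralizer (R : Set G) → x ∈ H' := by
      intro x hx hx'
      rw [hmemH' x hx, (hfker ⟨x, hx⟩).2 hx']
      exact H.one_mem
    have hH'R : H' ≤ Subgroup.normalizer (R : Set G) := hH'N.trans h.N₁R
    have hH₁ : Q ⊔ (R ⊔ H') ≠ ⊤ := by
      intro htop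
      apply hH
      rw [eq_top_iff]
      intro y _
      obtain ⟨x, rfl⟩ := hfs y
      have h2 : (x : G) ∈ Q ⊔ (R ⊔ H') := by rw [htop]; exact Subgroup.mem_top _
      rw [Subgroup.mem_sup_of_normal_left] at h2
      obtain ⟨a, ha, z, hz, haz⟩ := h2
      obtain ⟨r, hr, m, hm, rfl⟩ := mem_sup_of_norm hH'R hz
      have h3 : a = (x : G) * m⁻¹ * r⁻¹ := by rw [← haz]; group
      have h4 : a ∈ Subgroup.normalizer (R : Set G) := by
        rw [h3]
        exact Subgroup.mul_mem _ (Subgroup.mul_mem _ (h.N₁R x.2) (Subgroup.inv_mem _ (hH'R hm)))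
          (Subgroup.inv_mem _ (Subgroup.le_normalizer hr))
      have h5 := h.NQR ha h4
      have h6 : a ∈ N₁ := h.CN₁ ⟨ha, h5⟩
      have h7 : r = a⁻¹ * (x : G) * m⁻¹ := by rw [← haz]; group
      have h8 : r ∈ N₁ := by
        rw [h7]; exact N₁.mul_mem (N₁.mul_mem (N₁.inv_mem h6) x.2) (N₁.inv_mem (hH'N hm))
      have h9 : r ∈ Subgroup.centralizer (R : Set G) := fun s hs =>
        (h.Z0_central ⟨hr, h.RN₁ hr h8⟩ hs).symm
      have h10 : (x : G) ∈ H' := by
        rw [← haz]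
        exact H'.mul_mem (hCH a h6 h5) (H'.mul_mem (hCH r h8 h9) hm)
      exact (hmemH' x x.2).1 h10
    have h1 : ⁅R, T k H'⁆ = ⊥ := by
      refine h.key_comm hH₁ le_sup_left (le_sup_left.trans le_sup_right) le_rfl ?_ ?_
      · exact T_mono k (le_sup_right.trans le_sup_right)
      · exact (T_le k H').trans hH'R
    rw [Subgroup.commutator_eq_bot_iff_le_centralizer, Subgroup.le_centralizer_iff] at h1
    rw [eq_bot_iff]
    have h2 : (H.comap f).map f = H := Subgroup.map_comap_eq_self_of_surjective hfs H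
    rw [← h2, ← T_map]
    rintro _ ⟨x, hx, rfl⟩
    rw [Subgroup.mem_bot, hfker]
    apply h1
    rw [hH', ← T_map]
    exact ⟨x, hx, rfl⟩

end X

end

end Cfsg.Agent.H552
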