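import Mathlib
import Cfsg.Agent.H552.DL
import Cfsg.Agent.Lib.FrattiniPGroup

/-!
# Linear algebra for S4259 (helper552): quadratic action of `S^(k)`, imprimitivity
-/

set_option autoImplicit false
set_option linter.unusedSectionVars false
set_option linter.unusedVariables false
set_option linter.style.haveILetI false

namespace Cfsg.Agent.H552

open scoped commutatorElement

theorem opProd_add {G A : Type*} [Group G] [Ring A] (ρ : G →* A) (s : ℕ → G) (a b : ℕ) :
    opProd ρ s (a + b) = opProd ρ (fun i => s (a + i)) b * opProd ρ s a := by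
  induction b with
  | zero => simp [opProd]
  | succ b ih => rw [← Nat.add_assoc, opProd_succ, opProd_succ, ih, mul_assoc]

theorem opProd_map {G A A' : Type*} [Group G] [Ring A] [Ring A'] (ρ : G →* A) (ρ' : G →* A') (f : A →+* A')
    (h : ∀ g, f (ρ g) = ρ' g) (s : ℕ → G) (d : ℕ) : f (opProd ρ s d) = opProd ρ' s d := by
  induction d with
  | zero => simp [opProd]
  | succ d ih => rw [opProd_succ, opProd_succ, map_mul, map_sub, h, map_one, ih]

theorem Nil.map {G A A' : Type*} [Group G] [Ring A] [Ring A'] {ρ : G →* A} {S : Subgroup G} {d : ℕ}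
    (hN : Nil ρ S d) (ρ' : G →* A') (f : A →+* A') (h : ∀ g, f (ρ g) = ρ' g) : Nil ρ' S d := by
  intro s hs
  rw [← opProd_map ρ ρ' f h, hN s hs, map_zero]

section Lin

variable {K : Type*} [Field K] {V : Type*} [AddCommGroup V] [Module K V] {G : Type*} [Group G]
  (ρ : G →* Module.End K V) (S : Subgroup G)

/-- `[V, S, S', ..., S^(i-1)]` -/
def Vd (i : ℕ) : Submodule K V :=
  Submodule.span K {w | ∃ (s : ℕ → G) (v : V), (∀ j, s j ∈ ds S j) ∧ w = opProd ρ s i v}

variable {ρ S}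

theorem step_mem {i : ℕ} {t : G} (ht : t ∈ ds S i) {v : V} (hv : v ∈ Vd ρ S i) :
    (ρ t - 1) v ∈ Vd ρ S (i + 1) := by
  refine Submodule.span_induction (p := fun v _ => (ρ t - 1) v ∈ Vd ρ S (i + 1)) ?_ ?_ ?_ ?_ hv
  · rintro _ ⟨s, v, hs, rfl⟩
    refine Submodule.subset_span ⟨Function.update s i t, v, ?_, ?_⟩
    · intro j
      by_cases hj : j = i
      · subst hj; rw [Function.update_self]; exact ht
      · rw [Function.update_of_ne hj]; exact hs j
    · rw [opProd_succ, Function.update_self, Module.End.mul_apply]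
      rw [opProd_congr ρ (s := Function.update s i t) (s' := s) (d := i) fun j hj => by
        rw [Function.update_of_ne hj.ne]]
  · rw [map_zero]; exact Submodule.zero_mem _
  · intro a b _ _ ha hb; rw [map_add]; exact Submodule.add_mem _ ha hb
  · intro c a _ ha; rw [map_smul]; exact Submodule.smul_mem _ c ha

/-- `[V, S^(k)] ≤ [V, S, ..., S^(k-1)]` -/
theorem range_mem (k : ℕ) : ∀ c ∈ ds S k, ∀ v : V, (ρ c - 1) v ∈ Vd ρ S k := by
  induction k with
  | zero =>
    intro c _ v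
    exact Submodule.subset_span ⟨fun _ => 1, (ρ c - 1) v, fun j => Subgroup.one_mem _, rfl⟩
  | succ k ih =>
    intro c hc
    rw [ds_succ] at hc
    refine Subgroup.closure_induction (p := fun c _ => ∀ v : V, (ρ c - 1) v ∈ Vd ρ S (k + 1)) ?_ ?_ ?_ ?_ hc
    · rintro _ ⟨a, ha, b, hb, rfl⟩ v
      set u := ρ (a⁻¹ * b⁻¹) v with hu
      have hv : v = ρ (b * a) u := by
        rw [hu, ← Module.End.mul_apply, ← map_mul]
        have : b * a * (a⁻¹ * b⁻¹) = 1 := by group
        rw [this, map_one, Module.End.one_apply]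
      have h1 : (ρ ⁅a, b⁆ - 1) v = (ρ a - 1) ((ρ b - 1) u) - (ρ b - 1) ((ρ a - 1) u) := by
        have h2 : ρ ⁅a, b⁆ v = ρ (a * b) u := by
          rw [hu, ← Module.End.mul_apply, ← map_mul]
          congr 2
          rw [commutatorElement_def]; group
        rw [LinearMap.sub_apply, Module.End.one_apply, h2]
        conv_lhs => rw [hv]
        rw [map_mul, map_mul, Module.End.mul_apply, Module.End.mul_apply]
        simp only [LinearMap.sub_apply, Module.End.one_apply, map_sub]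
        abel
      rw [h1]
      exact Submodule.sub_mem _ (step_mem ha (ih b hb u)) (step_mem hb (ih a ha u))
    · intro v
      rw [map_one, sub_self, LinearMap.zero_apply]
      exact Submodule.zero_mem _
    · intro a b _ _ ha hb v
      have h1 : (ρ (a * b) - 1) v = (ρ a - 1) (ρ b v) + (ρ b - 1) v := by
        rw [map_mul]
        simp only [LinearMap.sub_apply, Module.End.one_apply, Module.End.mul_apply]
        abel
      rw [h1]
      exact Submodule.add_mem _ (ha _) (hb v)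
    · intro a _ ha v
      have h1 : (ρ a⁻¹ - 1) v = -((ρ a - 1) (ρ a⁻¹ v)) := by
        have h2 : ρ a (ρ a⁻¹ v) = v := by
          rw [← Module.End.mul_apply, ← map_mul, mul_inv_cancel, map_one, Module.End.one_apply]
        simp only [LinearMap.sub_apply, Module.End.one_apply]
        rw [h2]
        abel
      rw [h1]
      exact Submodule.neg_mem _ (ha _)

/-- `S^(k)` acts quadratically -/
theorem quadratic {k : ℕ} (hN : Nil ρ S (k + 1)) {a c : G} (ha : a ∈ ds S k) (hc : c ∈ ds S k) :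
    (ρ a - 1) * (ρ c - 1) = 0 := by
  ext v
  rw [Module.End.mul_apply, LinearMap.zero_apply]
  have h1 := step_mem (ρ := ρ) ha (range_mem (ρ := ρ) k c hc v)
  have h2 : Vd ρ S (k + 1) = ⊥ := by
    rw [Vd, Submodule.span_eq_bot]
    rintro _ ⟨s, v, hs, rfl⟩
    rw [hN s hs, LinearMap.zero_apply]
  rw [h2, Submodule.mem_bot] at h1
  exact h1

/-- the weight space of `Z` for the function `μ` -/
def wK (ρ : G →* Module.End K V) (Z : Subgroup G) (μ : G → K) : Submodule K V where
  carrier := {v | ∀ c ∈ Z, ρ c v = μ c • v}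
  zero_mem' := by intro c _; simp
  add_mem' := by
    intro v w hv hw c hc
    rw [map_add, hv c hc, hw c hc, smul_add]
  smul_mem' := by
    intro t w hw c hc
    rw [map_smul, hw c hc, smul_comm]

theorem mem_wK {Z : Subgroup G} {μ : G → K} {v : V} : v ∈ (wK ρ Z μ : Submodule K V) ↔ ∀ c ∈ Z, ρ c v = μ c • v := Iff.rfl

/-- a weight space meets the sum of the other ones trivially -/
theorem weight_disjoint {Z : Subgroup G} (hZ : ∀ a ∈ Z, ∀ c ∈ Z, a * c = c * a) (μ : G → K)
    {ι : Type*} (ν : ι → G → K) (hν : ∀ i, ∃ c ∈ Z, ν i c ≠ μ c) {v : V} (hv : v ∈ wK ρ Z μ)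
    (hv' : v ∈ ⨆ i, wK ρ Z (ν i)) : v = 0 := by
  let P : List (↥Z × K) → Module.End K V := fun l => (l.map fun p => ρ (p.1 : G) - p.2 • 1).prod
  let t : List (↥Z × K) → K := fun l => (l.map fun p => μ (p.1 : G) - p.2).prod
  have hone : ∀ p p' : ↥Z × K, Commute (ρ (p.1 : G) - p.2 • 1 : Module.End K V) (ρ (p'.1 : G) - p'.2 • 1) := by
    intro p p'
    have h1 : Commute (ρ (p.1 : G)) (ρ (p'.1 : G)) := by
      show ρ _ * ρ _ = ρ _ * ρ _
      rw [← map_mul, ← map_mul, hZ p.1 p.1.2 p'.1 p'.1.2]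
    refine Commute.sub_left (Commute.sub_right h1 ?_) (Commute.sub_right ?_ ?_)
    · exact (Commute.one_right _).smul_right _
    · exact (Commute.one_left _).smul_left _
    · exact ((Commute.one_left _).smul_left _)
  have hcomm : ∀ l l' : List (↥Z × K), Commute (P l) (P l') := by
    intro l l'
    refine Commute.list_prod_left _ _ fun x hx => ?_
    refine Commute.list_prod_right _ _ fun y hy => ?_
    obtain ⟨p, _, rfl⟩ := List.mem_map.1 hx
    obtain ⟨p', _, rfl⟩ := List.mem_map.1 hy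
    exact hone p p'
  have hP : ∀ l, ∀ v ∈ wK ρ Z μ, P l v = t l • v := by
    intro l
    induction l with
    | nil => intro v _; simp [P, t]
    | cons p l ih =>
      intro v hv
      have h1 : P (p :: l) v = (ρ (p.1 : G) - p.2 • 1) (P l v) := rfl
      rw [h1, ih v hv, map_smul, LinearMap.sub_apply, hv _ p.1.2]
      simp only [t, List.map_cons, List.prod_cons, LinearMap.smul_apply, Module.End.one_apply]
      rw [← sub_smul, smul_smul, mul_comm]
  have key : ∀ y ∈ ⨆ i, wK ρ Z (ν i), ∃ l, P l y = 0 ∧ t l ≠ 0 := by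
    intro y hy
    refine Submodule.iSup_induction _ (motive := fun y => ∃ l, P l y = 0 ∧ t l ≠ 0) hy ?_ ?_ ?_
    · intro i y hy
      obtain ⟨c, hc, hne⟩ := hν i
      refine ⟨[(⟨c, hc⟩, ν i c)], ?_, ?_⟩
      · simp only [P, List.map_cons, List.map_nil, List.prod_cons, List.prod_nil, mul_one,
          LinearMap.sub_apply, LinearMap.smul_apply, Module.End.one_apply]
        rw [hy c hc, sub_self]
      · simp only [t, List.map_cons, List.map_nil, List.prod_cons, List.prod_nil, mul_one]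
        exact sub_ne_zero.2 hne.symm
    · exact ⟨[], by simp [P], by simp [t]⟩
    · rintro y y' ⟨l, h1, h2⟩ ⟨l', h3, h4⟩
      refine ⟨l ++ l', ?_, ?_⟩
      · have h5 : P (l ++ l') = P l * P l' := by simp [P]
        rw [map_add, h5, Module.End.mul_apply, Module.End.mul_apply, h3, map_zero, add_zero]
        have h6 : P l (P l' y) = P l' (P l y) := by
          rw [← Module.End.mul_apply, ← Module.End.mul_apply, (hcomm l l').eq]
        rw [h6, h1, map_zero]
      · have h5 : t (l ++ l') = t l * t l' := by simp [t]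
        rw [h5]
        exact mul_ne_zero h2 h4
  obtain ⟨l, h1, h2⟩ := key v hv'
  rw [hP l v hv] at h1
  exact (smul_eq_zero.1 h1).resolve_left h2

end Lin

section Imp

variable {K : Type*} [Field K] {V : Type*} [AddCommGroup V] [Module K V] {G : Type*} [Group G] [Finite G]
  {ρ : G →* Module.End K V} {S Z : Subgroup G} {μ : G → K}

/-- the translated weight -/
def tr (μ : G → K) (g : G) : G → K := fun c => μ (g⁻¹ * c * g)

/-- `g` fixes the weight `μ` of `Z` -/
def Fixes (Z : Subgroup G) (μ : G → K) (g : G) : Prop := ∀ c ∈ Z, μ (g⁻¹ * c * g) = μ c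

theorem conj_mem_of {g c : G} (hg : g ∈ Subgroup.normalizer (Z : Set G)) (hc : c ∈ Z) : g⁻¹ * c * g ∈ Z := by
  have := (Subgroup.mem_normalizer_iff.1 (Subgroup.inv_mem _ hg) c).1 hc
  simpa using this

/-- the subgroup of `normalizer Z` fixing `μ` -/
def St (Z : Subgroup G) (μ : G → K) : Subgroup G where
  carrier := {g | g ∈ Subgroup.normalizer (Z : Set G) ∧ Fixes Z μ g}
  one_mem' := ⟨Subgroup.one_mem _, fun c _ => by simp⟩
  mul_mem' := by
    rintro a b ⟨ha, ha'⟩ ⟨hb, hb'⟩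
    refine ⟨Subgroup.mul_mem _ ha hb, fun c hc => ?_⟩
    have h1 : (a * b)⁻¹ * c * (a * b) = b⁻¹ * (a⁻¹ * c * a) * b := by group
    rw [h1, hb' _ (conj_mem_of ha hc), ha' c hc]
  inv_mem' := by
    rintro a ⟨ha, ha'⟩
    refine ⟨Subgroup.inv_mem _ ha, fun c hc => ?_⟩
    have h1 : a⁻¹⁻¹ * c * a⁻¹ ∈ Z := conj_mem_of (Subgroup.inv_mem _ ha) hc
    rw [← ha' _ h1]
    congr 1
    group

theorem mem_St {g : G} : g ∈ St Z μ ↔ g ∈ Subgroup.normalizer (Z : Set G) ∧ Fixes Z μ g := Iff.rfl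

/-- translation of weight spaces -/
theorem act_wK {g h : G} (hg : g ∈ Subgroup.normalizer (Z : Set G)) {v : V} (hv : v ∈ wK ρ Z (tr μ h)) :
    ρ g v ∈ wK ρ Z (tr μ (g * h)) := by
  intro c hc
  have h1 := hv _ (conj_mem_of hg hc)
  have h2 : ρ c (ρ g v) = ρ g (ρ (g⁻¹ * c * g) v) := by
    rw [← Module.End.mul_apply, ← Module.End.mul_apply, ← map_mul, ← map_mul]
    congr 2
    group
  rw [h2, h1, map_smul]
  congr 1
  show μ (h⁻¹ * (g⁻¹ * c * g) * h) = μ ((g * h)⁻¹ * c * (g * h))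
  congr 1
  group

/-- existence of elements moving `μ` out of the orbit of the next derived group -/
theorem exists_out (hS : IsPGroup 2 S) (hSZ : S ≤ Subgroup.normalizer (Z : Set G)) (i : ℕ)
    (hmove : ∃ g ∈ ds S i, ¬ Fixes Z μ g) :
    ∃ s ∈ ds S i, ∀ h ∈ ds S (i + 1), ¬ Fixes Z μ (h * s) := by
  have : Fact (Nat.Prime 2) := ⟨Nat.prime_two⟩
  by_contra hcon
  push Not at hcon
  obtain ⟨g, hg, hgμ⟩ := hmove
  apply hgμ
  set D := ds S i with hD
  have hDS : D ≤ S := ds_le S i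
  have hDp : IsPGroup 2 D := hS.to_le hDS
  have h1 : (St Z μ).subgroupOf D ⊔ frattini D = ⊤ := by
    rw [eq_top_iff]
    intro x _
    obtain ⟨h, hh, hx⟩ := hcon x x.2
    have hhD : h ∈ D := ds_succ_le S i hh
    have h2 : h * (x : G) ∈ St Z μ :=
      ⟨Subgroup.mul_mem _ (hSZ (hDS hhD)) (hSZ (hDS x.2)), hx⟩
    have h3 : x = ⟨h, hhD⟩⁻¹ * (⟨h, hhD⟩ * x) := by group
    rw [h3, sup_comm]
    refine Subgroup.mul_mem_sup (Subgroup.inv_mem _ ?_) (Subgroup.mem_subgroupOf.2 h2)
    -- `h ∈ ⁅D, D⁆ ≤ frattini D`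
    have h4 : (⟨h, hhD⟩ : D) ∈ commutator D := by
      have h5 : h ∈ (commutator D).map D.subtype := by
        rw [Subgroup.map_subtype_commutator]; exact hh
      obtain ⟨y, hy, hyh⟩ := h5
      have : y = ⟨h, hhD⟩ := Subtype.ext hyh
      rwa [← this]
    have h6 : commutator D ≤ frattini D := by
      rw [commutator_def, Subgroup.commutator_le]
      intro a _ b _
      exact Lib.FrattiniPGroup.commutator_mem_frattini hDp a b
    exact h6 h4
  have h2 := frattini_nongenerating h1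
  have h3 : (⟨g, hg⟩ : D) ∈ (St Z μ).subgroupOf D := by rw [h2]; exact Subgroup.mem_top _
  exact (Subgroup.mem_subgroupOf.1 h3).2

/-- the sum of the other translated weight spaces -/
def Yn (ρ : G →* Module.End K V) (S Z : Subgroup G) (μ : G → K) : Submodule K V :=
  ⨆ g : {g : G // g ∈ S ∧ ¬ Fixes Z μ g}, wK ρ Z (tr μ g)

theorem Yn_disj (hZ : ∀ a ∈ Z, ∀ c ∈ Z, a * c = c * a) {v : V} (hv : v ∈ wK ρ Z μ) (hv' : v ∈ Yn ρ S Z μ) :
    v = 0 := by
  refine weight_disjoint hZ μ _ ?_ hv hv'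
  rintro ⟨g, hg, hgμ⟩
  by_contra hcon
  push Not at hcon
  exact hgμ fun c hc => hcon c hc

theorem Yn_inv (hSZ : S ≤ Subgroup.normalizer (Z : Set G)) {g : G} (hg : g ∈ S) (hgμ : Fixes Z μ g) {y : V}
    (hy : y ∈ Yn ρ S Z μ) : ρ g y ∈ Yn ρ S Z μ := by
  refine Submodule.iSup_induction _ (motive := fun y => ρ g y ∈ Yn ρ S Z μ) hy ?_ ?_ ?_
  · rintro ⟨h, hh, hhμ⟩ y hy
    have h1 := act_wK (hSZ hg) hy
    refine Submodule.mem_iSup_of_mem (⟨g * h, S.mul_mem hg hh, fun hf => hhμ ?_⟩ : {g : G // g ∈ S ∧ ¬ Fixes Z μ g}) h1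
    have h2 : h = g⁻¹ * (g * h) := by group
    have h3 : g ∈ St Z μ := ⟨hSZ hg, hgμ⟩
    have h4 : g * h ∈ St Z μ := ⟨Subgroup.mul_mem _ (hSZ hg) (hSZ hh), hf⟩
    have h5 := (St Z μ).mul_mem ((St Z μ).inv_mem h3) h4
    rw [← h2] at h5
    exact h5.2
  · rw [map_zero]; exact Submodule.zero_mem _
  · intro a c ha hc; rw [map_add]; exact Submodule.add_mem _ ha hc

/-- the choice of the elements below the level where `μ` is fixed -/
theorem imp_seq (hS : IsPGroup 2 S) (hSZ : S ≤ Subgroup.normalizer (Z : Set G)) (j : ℕ)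
    (hmove : ∀ i < j, ∃ g ∈ ds S i, ¬ Fixes Z μ g) :
    ∃ s : ℕ → G, (∀ i, s i ∈ ds S i) ∧ ∀ v ∈ wK ρ Z μ, opProd ρ s j v - (-1 : K) ^ j • v ∈ Yn ρ S Z μ := by
  have hex : ∀ i : ℕ, ∃ s ∈ ds S i, i < j → ∀ h ∈ ds S (i + 1), ¬ Fixes Z μ (h * s) := by
    intro i
    by_cases hi : i < j
    · obtain ⟨s, hs, h⟩ := exists_out hS hSZ i (hmove i hi)
      exact ⟨s, hs, fun _ => h⟩
    · exact ⟨1, Subgroup.one_mem _, fun h => absurd h hi⟩
  choose s hs hs' using hex
  refine ⟨s, hs, fun v hv => ?_⟩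
  let Y : ℕ → Submodule K V := fun i =>
    ⨆ p : {p : ℕ × G // p.1 < i ∧ p.2 ∈ ds S (p.1 + 1)}, wK ρ Z (tr μ (p.1.2 * s p.1.1))
  have hYmono : ∀ i, Y i ≤ Y (i + 1) := by
    intro i
    refine iSup_le ?_
    rintro ⟨⟨a, h⟩, hp⟩
    exact le_iSup_of_le (⟨⟨a, h⟩, hp.1.trans (Nat.lt_succ_self i), hp.2⟩ :
      {p : ℕ × G // p.1 < i + 1 ∧ p.2 ∈ ds S (p.1 + 1)}) le_rfl
  have key : ∀ i, opProd ρ s i v - (-1 : K) ^ i • v ∈ Y i := by
    intro i
    induction i with
    | zero => simp [opProd]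
    | succ i ih =>
      have h1 : opProd ρ s (i + 1) v - (-1 : K) ^ (i + 1) • v =
          (ρ (s i) (opProd ρ s i v - (-1 : K) ^ i • v) - (opProd ρ s i v - (-1 : K) ^ i • v)) +
            (-1 : K) ^ i • ρ (s i) v := by
        rw [opProd_succ, Module.End.mul_apply, LinearMap.sub_apply, Module.End.one_apply, map_sub, map_smul,
          pow_succ, mul_neg_one, neg_smul]
        abel
      rw [h1]
      refine Submodule.add_mem _ (Submodule.sub_mem _ ?_ (hYmono i ih)) (Submodule.smul_mem _ _ ?_)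
      · -- `ρ (s i)` preserves `Y i`
        apply hYmono i
        generalize opProd ρ s i v - (-1 : K) ^ i • v = y at ih ⊢
        refine Submodule.iSup_induction _ (motive := fun y => ρ (s i) y ∈ Y i) ih ?_ ?_ ?_
        · rintro ⟨⟨a, h⟩, ha, hh⟩ y hy
          have h2 := act_wK (hSZ (ds_le S i (hs i))) hy
          have h3 : s i * h ∈ ds S (a + 1) := Subgroup.mul_mem _ (ds_antitone S ha (hs i)) hh
          refine Submodule.mem_iSup_of_mem (⟨⟨a, s i * h⟩, ha, h3⟩ :
            {p : ℕ × G // p.1 < i ∧ p.2 ∈ ds S (p.1 + 1)}) ?_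
          show ρ (s i) y ∈ wK ρ Z (tr μ (s i * h * s a))
          rw [mul_assoc]
          exact h2
        · rw [map_zero]; exact Submodule.zero_mem _
        · intro a c ha hc; rw [map_add]; exact Submodule.add_mem _ ha hc
      · refine Submodule.mem_iSup_of_mem (⟨⟨i, 1⟩, Nat.lt_succ_self i, Subgroup.one_mem _⟩ :
          {p : ℕ × G // p.1 < i + 1 ∧ p.2 ∈ ds S (p.1 + 1)}) ?_
        show ρ (s i) v ∈ wK ρ Z (tr μ (1 * s i))
        have h2 : v ∈ wK ρ Z (tr μ 1) := by
          intro c hc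
          have : tr μ 1 c = μ c := by simp [tr]
          rw [this]
          exact hv c hc
        have h3 := act_wK (hSZ (ds_le S i (hs i))) h2
        rw [one_mul]
        rw [mul_one] at h3
        exact h3
  have hYle : Y j ≤ Yn ρ S Z μ := by
    refine iSup_le ?_
    rintro ⟨⟨a, h⟩, ha, hh⟩
    refine le_iSup_of_le (⟨h * s a, S.mul_mem (ds_le S _ hh) (ds_le S _ (hs a)), hs' a ha h hh⟩ :
      {g : G // g ∈ S ∧ ¬ Fixes Z μ g}) le_rfl
  exact hYle (key j)

/-- `S^(k)` fixes the weights of `Z` -/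
theorem ds_fixes {k : ℕ} (hN : Nil ρ S (k + 1)) (hS : IsPGroup 2 S) (hSZ : S ≤ Subgroup.normalizer (Z : Set G))
    (hZ : ∀ a ∈ Z, ∀ c ∈ Z, a * c = c * a) (hμ : ∃ v ∈ wK ρ Z μ, v ≠ 0) : ∀ g ∈ ds S k, Fixes Z μ g := by
  by_contra hcon
  push Not at hcon
  obtain ⟨g, hg, hgμ⟩ := hcon
  obtain ⟨s, hs, hsv⟩ := imp_seq (ρ := ρ) hS hSZ (k + 1) (fun i hi =>
    ⟨g, ds_antitone S (Nat.le_of_lt_succ hi) hg, hgμ⟩)
  obtain ⟨v, hv, hv0⟩ := hμ
  have h1 := hsv v hv
  rw [hN s hs, LinearMap.zero_apply, zero_sub, ← neg_smul] at h1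
  have h2 := Yn_disj hZ ((wK ρ Z μ).smul_mem _ hv) h1
  rcases smul_eq_zero.1 h2 with h3 | h3
  · rw [neg_eq_zero] at h3
    exact absurd h3 (pow_ne_zero _ (neg_ne_zero.2 one_ne_zero))
  · exact hv0 h3

/-- the products over the levels where `μ` is fixed vanish on the weight space -/
theorem key_prod {k : ℕ} (hN : Nil ρ S (k + 1)) (hS : IsPGroup 2 S) (hSZ : S ≤ Subgroup.normalizer (Z : Set G))
    (hZ : ∀ a ∈ Z, ∀ c ∈ Z, a * c = c * a) (hμ : ∃ v ∈ wK ρ Z μ, v ≠ 0) :
    ∃ j ≤ k, (∀ g ∈ ds S j, Fixes Z μ g) ∧ ∀ s' : ℕ → G, (∀ i, s' i ∈ ds S (j + i)) →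
      ∀ v ∈ wK ρ Z μ, opProd ρ s' (k + 1 - j) v = 0 := by
  classical
  have hex : ∃ j, ∀ g ∈ ds S j, Fixes Z μ g := ⟨k, ds_fixes hN hS hSZ hZ hμ⟩
  set j := Nat.find hex with hj
  have hjk : j ≤ k := Nat.find_min' hex (ds_fixes hN hS hSZ hZ hμ)
  have hjf : ∀ g ∈ ds S j, Fixes Z μ g := Nat.find_spec hex
  refine ⟨j, hjk, hjf, fun s' hs' v hv => ?_⟩
  obtain ⟨s, hs, hsv⟩ := imp_seq (ρ := ρ) (μ := μ) hS hSZ j (fun i hi => by
    have := Nat.find_min hex hi
    push Not at this
    exact this)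
  -- combine the two sequences
  let S₁ : ℕ → G := fun i => if i < j then s i else s' (i - j)
  have hS₁ : ∀ i, S₁ i ∈ ds S i := by
    intro i
    by_cases hi : i < j
    · simp only [S₁, if_pos hi]; exact hs i
    · simp only [S₁, if_neg hi]
      have h1 := hs' (i - j)
      rwa [Nat.add_sub_cancel' (not_lt.1 hi)] at h1
  have h1 := hN S₁ hS₁
  have h2 : k + 1 = j + (k + 1 - j) := by omega
  rw [h2, opProd_add] at h1
  have h3 : opProd ρ S₁ j = opProd ρ s j := opProd_congr ρ fun i hi => by simp only [S₁, if_pos hi]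
  have h4 : (fun i => S₁ (j + i)) = s' := by
    funext i
    simp only [S₁]
    rw [if_neg (by omega), Nat.add_sub_cancel_left]
  rw [h3, h4] at h1
  -- `opProd ρ s'` preserves `wK` and `Yn`
  have hpresY : ∀ n, ∀ y ∈ Yn ρ S Z μ, opProd ρ s' n y ∈ Yn ρ S Z μ := by
    intro n
    induction n with
    | zero => intro y hy; exact hy
    | succ n ih =>
      intro y hy
      rw [opProd_succ, Module.End.mul_apply, LinearMap.sub_apply, Module.End.one_apply]
      refine Submodule.sub_mem _ ?_ (ih y hy)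
      exact Yn_inv hSZ (ds_le S _ (hs' n)) (hjf _ (ds_antitone S (Nat.le_add_right j n) (hs' n))) (ih y hy)
  have hpresW : ∀ n, ∀ y ∈ wK ρ Z μ, opProd ρ s' n y ∈ wK ρ Z μ := by
    intro n
    induction n with
    | zero => intro y hy; exact hy
    | succ n ih =>
      intro y hy
      rw [opProd_succ, Module.End.mul_apply, LinearMap.sub_apply, Module.End.one_apply]
      refine Submodule.sub_mem _ ?_ (ih y hy)
      have hf := hjf _ (ds_antitone S (Nat.le_add_right j n) (hs' n))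
      intro c hc
      have h5 : opProd ρ s' n y ∈ wK ρ Z (tr μ 1) := by
        intro c hc
        have : tr μ 1 c = μ c := by simp [tr]
        rw [this]
        exact ih y hy c hc
      have h6 := act_wK (hSZ (ds_le S _ (hs' n))) h5 c hc
      rw [mul_one] at h6
      rw [h6]
      congr 1
      exact hf c hc
  have h5 : opProd ρ s' (k + 1 - j) (opProd ρ s j v) = 0 := by
    rw [← Module.End.mul_apply, h1, LinearMap.zero_apply]
  have h6 := hpresY (k + 1 - j) _ (hsv v hv)
  rw [map_sub, h5, zero_sub, map_smul, ← neg_smul] at h6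
  have h7 := Yn_disj hZ ((wK ρ Z μ).smul_mem _ (hpresW (k + 1 - j) v hv)) h6
  rcases smul_eq_zero.1 h7 with h8 | h8
  · rw [neg_eq_zero] at h8
    exact absurd h8 (pow_ne_zero _ (neg_ne_zero.2 one_ne_zero))
  · exact h8

end Imp

end Cfsg.Agent.H552
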