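import Mathlib
import Cfsg.Agent.H552.DL
import Cfsg.Agent.H979.TwoLenA

/-!
# Part A for S4259: odd order of `T e G` (helper552, adapted from `H979.TwoLenA.odd_of_EAt` by helper979)
-/

set_option autoImplicit false
set_option linter.unusedSectionVars false
set_option linter.unusedVariables false

universe u

namespace Cfsg.Agent.H552

open Cfsg Cfsg.Agent.H979.TwoLenA Cfsg.Agent.H451.PLength Cfsg.Agent.OddOrderLocal
open scoped commutatorElement

/-- a `2`-subgroup of a quotient lifts -/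
theorem exists_two_subgroup_lift {G G' : Type*} [Group G] [Finite G] [Group G'] (f : G →* G')
    (hf : Function.Surjective f) (S : Subgroup G') (hS : IsPGroup 2 S) :
    ∃ P : Subgroup G, IsPGroup 2 P ∧ P.map f = S := by
  have hF2 : Fact (Nat.Prime 2) := ⟨Nat.prime_two⟩
  let g : ↥(S.comap f) →* ↥S := f.subgroupComap S
  have hg : Function.Surjective g := by
    rintro ⟨y, hy⟩
    obtain ⟨x, rfl⟩ := hf y
    exact ⟨⟨x, hy⟩, rfl⟩
  let P : Sylow 2 ↥(S.comap f) := default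
  have h1 : ((P.mapSurjective hg : Sylow 2 ↥S) : Subgroup ↥S) = ⊤ := by
    have h2 : IsPGroup 2 (⊤ : Subgroup ↥S) := hS.of_equiv Subgroup.topEquiv.symm
    exact ((P.mapSurjective hg).is_maximal' h2 le_top).symm
  refine ⟨(P : Subgroup ↥(S.comap f)).map (S.comap f).subtype, P.isPGroup'.map _, ?_⟩
  have h3 : (P : Subgroup ↥(S.comap f)).map g = ⊤ := h1
  apply le_antisymm
  · rintro _ ⟨_, ⟨x, hx, rfl⟩, rfl⟩
    exact x.2
  · intro y hy
    have h4 : (⟨y, hy⟩ : ↥S) ∈ (P : Subgroup ↥(S.comap f)).map g := by rw [h3]; exact Subgroup.mem_top _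
    obtain ⟨x, hx, hxy⟩ := h4
    exact ⟨x, ⟨x, hx, rfl⟩, congrArg Subtype.val hxy⟩

theorem opProd_comp {G G' A : Type*} [Group G] [Group G'] [Ring A] (ρ : G →* A) (f : G' →* G) (s : ℕ → G')
    (d : ℕ) : opProd (ρ.comp f) s d = opProd ρ (fun i => f (s i)) d := by
  induction d with
  | zero => rfl
  | succ d ih => rw [opProd_succ, opProd_succ, ih]; rfl

theorem Nil.comp {G G' A : Type*} [Group G] [Group G'] [Ring A] {ρ : G →* A} (f : G' →* G) {S : Subgroup G'}
    {d : ℕ} (h : Nil ρ (S.map f) d) : Nil (ρ.comp f) S d := by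
  intro s hs
  rw [opProd_comp]
  exact h _ fun i => by rw [← ds_map]; exact ⟨s i, hs i, rfl⟩

theorem Nil.of_comp {G G' A : Type*} [Group G] [Group G'] [Ring A] {ρ : G →* A} (f : G' →* G) {S : Subgroup G'}
    {d : ℕ} (h : Nil (ρ.comp f) S d) : Nil ρ (S.map f) d := by
  intro s hs
  have h1 : ∀ i, ∃ t ∈ ds S i, f t = s i := fun i => by
    have := hs i
    rw [← ds_map] at this
    exact this
  choose t ht hts using h1
  have h2 := h t ht
  rw [opProd_comp] at h2
  rw [← h2]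
  congr 1
  funext i
  exact (hts i).symm

/-- **Part A of Theorem D** -/
theorem odd_of_DAt (e : ℕ) (he : 1 ≤ e) (G : Type u) [Group G] [Finite G] (hG : IsPSolvable 2 G)
    (hS : ∀ S : Subgroup G, IsPGroup 2 S → ds S e = ⊥)
    (hE : ∀ (X : Type u) [Group X] [Finite X], IsPSolvable 2 X → Nat.card X < Nat.card G → DAt.{u} e X) :
    Odd (Nat.card (T e (⊤ : Subgroup G))) := by
  have : Fact (Nat.Prime 2) := ⟨Nat.prime_two⟩
  have hRodd : Odd (Nat.card (pPrimeCore 2 G)) := Nat.coprime_two_right.1 (PLengthOne.card_pPrimeCore_coprime 2)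
  set Q := G ⧸ pPrimeCore 2 G with hQdef
  have hQsol : IsPSolvable 2 Q :=
    Lib.PSolvable.IsPSolvable_of_surjective 2 hG (QuotientGroup.mk' (pPrimeCore 2 G)) (QuotientGroup.mk'_surjective _)
  have hQcore : pPrimeCore 2 Q = ⊥ := PLengthOne.pPrimeCore_quotient_pPrimeCore 2
  have hc : Subgroup.centralizer (pCore 2 Q : Set Q) ≤ pCore 2 Q :=
    Lib.PSolvable.centralizer_pCore_le_of_pSolvable 2 hQsol hQcore
  have hP2 : IsPGroup 2 (pCore 2 Q) := PLengthOne.isPGroup_pCore 2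
  have hSQ : ∀ S : Subgroup Q, IsPGroup 2 S → ds S e = ⊥ := by
    intro S hS2
    obtain ⟨P, hP, rfl⟩ := exists_two_subgroup_lift (QuotientGroup.mk' (pPrimeCore 2 G))
      (QuotientGroup.mk'_surjective _) S hS2
    rw [← ds_map, hS P hP, Subgroup.map_bot]
  -- reduction to the quotient
  suffices hQ : T e (⊤ : Subgroup Q) = ⊥ by
    have h1 : (T e (⊤ : Subgroup G)).map (QuotientGroup.mk' (pPrimeCore 2 G)) = ⊥ := by
      rw [T_map_top _ (QuotientGroup.mk'_surjective _), hQ]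
    have h2 : T e (⊤ : Subgroup G) ≤ pPrimeCore 2 G := by
      intro x hx
      have h3 : QuotientGroup.mk' (pPrimeCore 2 G) x ∈ (⊥ : Subgroup Q) := by
        rw [← h1]; exact ⟨x, hx, rfl⟩
      exact (QuotientGroup.eq_one_iff x).1 (Subgroup.mem_bot.1 h3)
    exact Odd.of_dvd_nat hRodd (Subgroup.card_dvd_of_le h2)
  suffices hQP : T e (⊤ : Subgroup Q) ≤ pCore 2 Q by
    obtain ⟨k, rfl⟩ : ∃ k, e = k + 1 := ⟨e - 1, by omega⟩
    rw [← oddGen_T_succ, eq_bot_iff]
    refine (Subgroup.closure_le _).2 ?_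
    rintro x ⟨hx, ho⟩
    exact eq_one_of_isTwo_of_odd (isTwo_of_isPGroup hP2 (hQP hx)) ho
  -- the case of a trivial quotient
  have hcardQ : Nat.card Q ≤ Nat.card G := Nat.card_le_card_of_surjective _ (QuotientGroup.mk'_surjective _)
  by_cases hX : Nat.card (Q ⧸ pCore 2 Q) < Nat.card G
  swap
  · have h1 : Nat.card Q = Nat.card (Q ⧸ pCore 2 Q) * Nat.card (pCore 2 Q) :=
      Subgroup.card_eq_card_quotient_mul_card_subgroup _
    have h2 : 0 < Nat.card (Q ⧸ pCore 2 Q) := Nat.card_pos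
    have h3 : Nat.card (pCore 2 Q) = 1 := by
      have h4 : 0 < Nat.card (pCore 2 Q) := Nat.card_pos
      by_contra h5
      have h6 : 2 ≤ Nat.card (pCore 2 Q) := by omega
      have h7 : Nat.card (Q ⧸ pCore 2 Q) * 2 ≤ Nat.card Q := by
        rw [h1]; exact Nat.mul_le_mul_left _ h6
      omega
    have h4 : pCore 2 Q = ⊥ := Subgroup.eq_bot_of_card_eq _ h3
    intro x _
    apply hc
    rw [h4]
    simp [Subgroup.mem_centralizer_iff]
  -- the module
  have hFn : ((frattini (pCore 2 Q)).map (pCore 2 Q).subtype).Normal := inferInstance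
  have hPn : (pCore 2 Q).Normal := inferInstance
  obtain ⟨V, i1, i2, π, hsurj, hadd, hker, -⟩ :=
    OddOrderCharacters.PF9.SectionModule.exists_module 2 (pCore 2 Q)
      ((frattini (pCore 2 Q)).map (pCore 2 Q).subtype)
      (fun h _ k hk => hFn.conj_mem k hk h)
      (fun a ha b hb => ⟨⟨a, ha⟩ * ⟨b, hb⟩ * ⟨a, ha⟩⁻¹ * ⟨b, hb⟩⁻¹,
        Lib.FrattiniPGroup.commutator_mem_frattini hP2 _ _, rfl⟩)
      (fun a ha => ⟨⟨a, ha⟩ ^ 2, Lib.FrattiniPGroup.pow_mem_frattini hP2 _, rfl⟩)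
  obtain ⟨ρ, hρ⟩ := OddOrderCharacters.PF9.SectionModule.exists_rep_normal (p := 2) hsurj hadd hker hPn hFn
  have hπ1 : π 1 = 0 := OddOrderCharacters.PF9.SectionModule.pi_one hadd
  have hVfin : Finite V := Finite.of_surjective _ hsurj
  have htriv : ∀ x ∈ pCore 2 Q, ρ x = 1 := by
    intro x hx
    ext v
    obtain ⟨h, rfl⟩ := hsurj v
    rw [hρ, Module.End.one_apply]
    have h1 : (⟨x * h * x⁻¹, hPn.conj_mem h h.2 x⟩ : pCore 2 Q) = ⟨x, hx⟩ * h * ⟨x, hx⟩⁻¹ := rfl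
    rw [h1, hadd, hadd, OddOrderCharacters.PF9.SectionModule.pi_inv hadd]
    abel
  let ρX : Q ⧸ pCore 2 Q →* Module.End (ZMod 2) V := QuotientGroup.lift (pCore 2 Q) ρ htriv
  have hρX : ∀ x : Q, ρX (QuotientGroup.mk' (pCore 2 Q) x) = ρ x := fun x => rfl
  have hXsol : IsPSolvable 2 (Q ⧸ pCore 2 Q) :=
    Lib.PSolvable.IsPSolvable_of_surjective 2 hQsol (QuotientGroup.mk' (pCore 2 Q)) (QuotientGroup.mk'_surjective _)
  have hmain := hE (Q ⧸ pCore 2 Q) hXsol hX V ρX ?_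
  · -- faithfulness
    intro x hx
    have h1 : QuotientGroup.mk' (pCore 2 Q) x ∈ T e (⊤ : Subgroup (Q ⧸ pCore 2 Q)) := by
      rw [← T_map_top _ (QuotientGroup.mk'_surjective _)]
      exact ⟨x, hx, rfl⟩
    have h2 : ρ x = 1 := by rw [← hρX]; exact hmain _ h1
    have h3 : x ∈ sectionKernel (pCore 2 Q) ((frattini (pCore 2 Q)).map (pCore 2 Q).subtype) := by
      rw [PLocal.SectionFrattini.mem_sectionKernel]
      intro k hk
      have h4 := congrArg (fun f => f (π (⟨k, hk⟩⁻¹ : pCore 2 Q))) h2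
      simp only [Module.End.one_apply] at h4
      rw [hρ] at h4
      have h5 := (OddOrderCharacters.PF9.SectionModule.pi_eq_iff hadd hker _ _).1 h4.symm
      change (k⁻¹)⁻¹ * (x * k⁻¹ * x⁻¹) ∈ _ at h5
      have h6 : (k⁻¹)⁻¹ * (x * k⁻¹ * x⁻¹) = ⁅k, x⁆ := by rw [commutatorElement_def]; group
      rwa [h6] at h5
    have h4 : IsPGroup 2 (sectionKernel (pCore 2 Q) ((frattini (pCore 2 Q)).map (pCore 2 Q).subtype)) :=
      PLocal.SectionFrattini.isPGroup_sectionKernel_frattini (pCore 2 Q) hP2 hc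
    have h5 : (sectionKernel (pCore 2 Q) ((frattini (pCore 2 Q)).map (pCore 2 Q).subtype)).Normal := by
      unfold sectionKernel
      infer_instance
    exact PLengthOne.le_pCore h5 h4 h3
  · intro S hS2
    obtain ⟨S', hS', rfl⟩ := exists_two_subgroup_lift (QuotientGroup.mk' (pCore 2 Q))
      (QuotientGroup.mk'_surjective _) S hS2
    have h0 : IsPGroup 2 (↥(S' ⊔ pCore 2 Q)) := hS'.to_sup_of_normal_right hP2
    have h1 : (S' ⊔ pCore 2 Q).map (QuotientGroup.mk' (pCore 2 Q)) = S'.map (QuotientGroup.mk' (pCore 2 Q)) := by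
      rw [Subgroup.map_sup, QuotientGroup.map_mk'_self, sup_bot_eq]
    rw [← h1]
    refine Nil.of_comp (QuotientGroup.mk' (pCore 2 Q)) ?_
    have h2 : ρX.comp (QuotientGroup.mk' (pCore 2 Q)) = ρ := MonoidHom.ext hρX
    rw [h2]
    intro s hs
    ext v
    obtain ⟨h, rfl⟩ := hsurj v
    have key : ∀ i : ℕ, ∃ w : ↥(pCore 2 Q), (w : Q) ∈ ds (S' ⊔ pCore 2 Q) i ∧ π w = opProd ρ s i (π h) := by
      intro i
      induction i with
      | zero => exact ⟨h, (le_sup_right : pCore 2 Q ≤ S' ⊔ pCore 2 Q) h.2, rfl⟩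
      | succ i ih =>
        obtain ⟨w, hw, hπw⟩ := ih
        refine ⟨⟨s i * w * (s i)⁻¹, hPn.conj_mem w w.2 (s i)⟩ * w⁻¹, ?_, ?_⟩
        · have h3 : s i * (w : Q) * (s i)⁻¹ * (w : Q)⁻¹ ∈ ⁅ds (S' ⊔ pCore 2 Q) i, ds (S' ⊔ pCore 2 Q) i⁆ :=
            Subgroup.commutator_mem_commutator (hs i) hw
          exact h3
        · rw [hadd, ← hρ, OddOrderCharacters.PF9.SectionModule.pi_inv hadd, hπw, opProd_succ,
            Module.End.mul_apply, LinearMap.sub_apply, Module.End.one_apply, sub_eq_add_neg]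
    obtain ⟨w, hw, hπw⟩ := key e
    rw [hSQ _ h0, Subgroup.mem_bot] at hw
    have h3 : w = 1 := Subtype.ext hw
    rw [← hπw, h3, hπ1]
    rfl

end Cfsg.Agent.H552
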