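import Mathlib
import Cfsg.Agent.H979.TwoLenQ5

/-!
# Quadratic forms without totally singular planes, modulo the radical (helper552; for S4258)
-/

set_option autoImplicit false
set_option linter.unusedSectionVars false
set_option linter.unusedVariables false
set_option linter.style.haveILetI false

namespace Cfsg.Agent.H552

theorem exists_quot_rep {X : Type*} [Group X] {M : Type*} [AddCommGroup M] [Module (ZMod 2) M]
    (τ : X →* Module.End (ZMod 2) M) (P : Submodule (ZMod 2) M) (hP : ∀ x, ∀ m ∈ P, τ x m ∈ P) :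
    ∃ τ' : X →* Module.End (ZMod 2) (M ⧸ P), ∀ x m, τ' x (P.mkQ m) = P.mkQ (τ x m) := by
  refine ⟨{ toFun := fun x => P.mapQ P (τ x) (fun m hm => hP x m hm)
            map_one' := ?_
            map_mul' := fun x y => ?_ }, fun x m => rfl⟩
  · ext m
    simp
  · ext m
    simp

theorem zmod2_double {M : Type*} [AddCommGroup M] [Module (ZMod 2) M] (m : M) : m + m = 0 := by
  have : (2 : ZMod 2) • m = 0 := by
    have h2 : (2 : ZMod 2) = 0 := by decide
    rw [h2, zero_smul]
  rwa [two_smul] at this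

theorem zmod2_neg {M : Type*} [AddCommGroup M] [Module (ZMod 2) M] (m : M) : -m = m :=
  neg_eq_of_add_eq_zero_left (zmod2_double m)

theorem odd_nsmul {M : Type*} [AddCommGroup M] [Module (ZMod 2) M] {n : ℕ} (hn : Odd n) (m : M) :
    n • m = m := by
  obtain ⟨j, rfl⟩ := hn
  rw [add_smul, mul_comm, mul_smul, two_smul, zmod2_double, smul_zero, zero_add, one_smul]

section

variable {L : Type*} [Group L] [Finite L] {M : Type*} [AddCommGroup M] [Module (ZMod 2) M] [Finite M]

/-- the sum over the group is a fixed vector -/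
theorem sum_fixed [Fintype L] (τ : L →* Module.End (ZMod 2) M) (m : M) (l : L) :
    τ l (∑ x : L, τ x m) = ∑ x : L, τ x m := by
  rw [map_sum]
  refine Fintype.sum_equiv (Equiv.mulLeft l) _ _ fun x => ?_
  rw [Equiv.coe_mulLeft, map_mul, Module.End.mul_apply]

theorem quad' (hL : Odd (Nat.card L)) (τ : L →* Module.End (ZMod 2) M) (qf : M → ZMod 2)
    (B : M →ₗ[ZMod 2] M →ₗ[ZMod 2] ZMod 2) (hq : ∀ a b, qf (a + b) = qf a + qf b + B a b)
    (hinv : ∀ l m, qf (τ l m) = qf m) (hfix : ∀ m, (∀ l, τ l m = m) → m = 0)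
    (hsing : ∀ a b, qf a = 0 → qf b = 0 → B a b = 0 →
      a ∈ LinearMap.ker B ∨ b ∈ LinearMap.ker B ∨ a + b ∈ LinearMap.ker B) :
    (∀ l l' m, τ l (τ l' m) - τ l' (τ l m) ∈ LinearMap.ker B) ∧
      (∀ m, (∀ l, τ l m - m ∈ LinearMap.ker B) → m ∈ LinearMap.ker B) ∧
      ((∀ m, m ∉ LinearMap.ker B → qf m ≠ 0) ∨
        (Nat.card (M ⧸ LinearMap.ker B) = 16 ∧
          ∀ K : Subgroup L, (∀ l, l ∈ K ↔ ∀ m, τ l m - m ∈ LinearMap.ker B) → K.index = 5)) := by
  classical
  have := Fintype.ofFinite L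
  have hq0 : qf 0 = 0 := by
    have := hq 0 0
    rw [add_zero, map_zero, add_zero] at this
    exact left_eq_add.1 this
  have hBB : ∀ a b, B a b = qf (a + b) - qf a - qf b := fun a b => by rw [hq]; ring
  have hsymm : ∀ a b, B a b = B b a := fun a b => by rw [hBB, hBB, add_comm]; ring
  have hBinv : ∀ l a b, B (τ l a) (τ l b) = B a b := fun l a b => by
    rw [hBB, hBB, ← map_add, hinv, hinv, hinv]
  set P := LinearMap.ker B with hPdef
  have hPr : ∀ p ∈ P, ∀ b, B p b = 0 := fun p hp b => by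
    rw [hPdef, LinearMap.mem_ker] at hp
    rw [hp, LinearMap.zero_apply]
  have hPl : ∀ p ∈ P, ∀ b, B b p = 0 := fun p hp b => by rw [hsymm]; exact hPr p hp b
  have hPmem : ∀ p, (∀ b, B p b = 0) → p ∈ P := fun p hp => by
    rw [hPdef, LinearMap.mem_ker]
    ext b
    exact hp b
  have hPinv : ∀ l, ∀ p ∈ P, τ l p ∈ P := by
    intro l p hp
    refine hPmem _ fun b => ?_
    have h1 : b = τ l (τ l⁻¹ b) := by
      rw [← Module.End.mul_apply, ← map_mul, mul_inv_cancel, map_one, Module.End.one_apply]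
    rw [h1, hBinv]
    exact hPr p hp _
  have hsum : ∀ m, ∑ x : L, τ x m = 0 := fun m => hfix _ fun l => sum_fixed τ m l
  have hcard : Odd (Fintype.card L) := by rwa [← Nat.card_eq_fintype_card]
  -- fixed points modulo `P`
  have hfixP : ∀ m, (∀ l, τ l m - m ∈ P) → m ∈ P := by
    intro m hm
    have h1 : ∑ x : L, (τ x m - m) ∈ P := Submodule.sum_mem _ fun x _ => hm x
    rw [Finset.sum_sub_distrib, hsum, zero_sub, Finset.sum_const, Finset.card_univ,
      odd_nsmul hcard, zmod2_neg] at h1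
    exact h1
  -- `qf` vanishes on `P`
  have hqP : ∀ p ∈ P, qf p = 0 := by
    intro p hp
    have key : ∀ s : Finset L, qf (∑ x ∈ s, τ x p) = s.card • qf p ∧ ∑ x ∈ s, τ x p ∈ P := by
      intro s
      induction s using Finset.induction_on with
      | empty => simp [hq0]
      | insert a s ha ih =>
        rw [Finset.sum_insert ha, Finset.card_insert_of_notMem ha]
        refine ⟨?_, P.add_mem (hPinv a p hp) ih.2⟩
        rw [hq, hPr _ (hPinv a p hp), add_zero, ih.1, hinv, add_smul, one_smul, add_comm]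
    have h1 := (key Finset.univ).1
    rw [hsum, hq0, Finset.card_univ, odd_nsmul hcard] at h1
    exact h1.symm
  have hqadd : ∀ a p, p ∈ P → qf (a + p) = qf a := fun a p hp => by
    rw [hq, hPl p hp, hqP p hp, add_zero, add_zero]
  -- pass to the quotient
  obtain ⟨τ', hτ'⟩ := exists_quot_rep τ P hPinv
  have hsurj : Function.Surjective P.mkQ := P.mkQ_surjective
  have hmk : ∀ a b, P.mkQ a = P.mkQ b ↔ a - b ∈ P := fun a b => by
    rw [← sub_eq_zero, ← map_sub, Submodule.mkQ_apply, Submodule.Quotient.mk_eq_zero]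
  have hmk0 : ∀ a, P.mkQ a = 0 ↔ a ∈ P := fun a => by
    rw [Submodule.mkQ_apply, Submodule.Quotient.mk_eq_zero]
  let qf' : M ⧸ P → ZMod 2 := fun v => qf (Function.surjInv hsurj v)
  have hqf' : ∀ a, qf' (P.mkQ a) = qf a := by
    intro a
    have h1 : P.mkQ (Function.surjInv hsurj (P.mkQ a)) = P.mkQ a := Function.surjInv_eq hsurj _
    rw [hmk] at h1
    have h2 : Function.surjInv hsurj (P.mkQ a) = a + (Function.surjInv hsurj (P.mkQ a) - a) := by abel
    show qf (Function.surjInv hsurj (P.mkQ a)) = qf a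
    rw [h2, hqadd _ _ h1]
  have hle : P ≤ LinearMap.ker B := le_of_eq hPdef
  let B₁ : M ⧸ P →ₗ[ZMod 2] M →ₗ[ZMod 2] ZMod 2 := P.liftQ B hle
  have hB₁ : ∀ a b, B₁ (P.mkQ a) b = B a b := fun a b => rfl
  have hle2 : P ≤ LinearMap.ker B₁.flip := by
    intro p hp
    rw [LinearMap.mem_ker]
    ext a
    show B₁.flip p (P.mkQ a) = 0
    rw [LinearMap.flip_apply, hB₁]
    exact hPl p hp a
  let B' : M ⧸ P →ₗ[ZMod 2] M ⧸ P →ₗ[ZMod 2] ZMod 2 := (P.liftQ B₁.flip hle2).flip
  have hB' : ∀ a b, B' (P.mkQ a) (P.mkQ b) = B a b := fun a b => rfl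
  have hfinP : Finite (M ⧸ P) := Finite.of_surjective _ hsurj
  have h := H979.TwoLenQ5.quad hL τ' qf' B'
    (fun a b => by
      obtain ⟨a, rfl⟩ := hsurj a
      obtain ⟨b, rfl⟩ := hsurj b
      rw [← map_add, hqf', hqf', hqf', hB', hq])
    (fun a ha => by
      obtain ⟨a, rfl⟩ := hsurj a
      rw [hmk0]
      refine hPmem a fun b => ?_
      rw [← hB']; exact ha _)
    (fun l m => by
      obtain ⟨m, rfl⟩ := hsurj m
      rw [hτ', hqf', hqf', hinv])
    (fun m hm => by
      obtain ⟨m, rfl⟩ := hsurj m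
      rw [hmk0]
      refine hfixP m fun l => ?_
      rw [← hmk, ← hτ']
      exact hm l)
    (fun a b ha hb hab => by
      obtain ⟨a, rfl⟩ := hsurj a
      obtain ⟨b, rfl⟩ := hsurj b
      rw [hqf'] at ha hb
      rw [hB'] at hab
      rcases hsing a b ha hb hab with h1 | h1 | h1
      · left; rwa [hmk0]
      · right; left; rwa [hmk0]
      · right; right
        rw [hmk]
        have : a - b = a + b := by rw [sub_eq_add_neg, zmod2_neg]
        rwa [this])
  refine ⟨fun l l' m => ?_, hfixP, ?_⟩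
  · rw [← hmk, ← hτ', ← hτ', ← hτ', ← hτ', ← Module.End.mul_apply, ← Module.End.mul_apply, h.1 l l']
  · rcases h.2 with h1 | ⟨h1, h2⟩
    · left
      intro m hm
      rw [← hqf']
      exact h1 _ (fun h0 => hm ((hmk0 m).1 h0))
    · right
      refine ⟨h1, fun K hK => ?_⟩
      have : K = τ'.ker := by
        ext l
        rw [hK, MonoidHom.mem_ker]
        constructor
        · intro h3
          ext v
          show τ' l (P.mkQ v) = P.mkQ v
          rw [hτ', hmk]
          exact h3 v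
        · intro h3 m
          rw [← hmk, ← hτ', h3, Module.End.one_apply]
      rw [this]; exact h2

end

end Cfsg.Agent.H552
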