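import Mathlib
import Cfsg.Agent.H552.DL4
import Cfsg.Agent.H552.QuadQ
import Cfsg.Agent.H552.DLA
import Cfsg.Agent.H979.TwoLenA

/-!
# Theorem D and the `2`-length (helper552; for S4259)
-/

set_option autoImplicit false
set_option linter.unusedSectionVars false
set_option linter.unusedVariables false
set_option linter.style.haveILetI false

universe u

namespace Cfsg.Agent.H552

open scoped commutatorElement

section

open scoped TensorProduct

theorem Nil.bc {G : Type u} [Group G] [Finite G] {V : Type u} [AddCommGroup V] [Module (ZMod 2) V] [Finite V]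
    (ρ : G →* Module.End (ZMod 2) V) {S : Subgroup G} {k : ℕ} (hN : Nil ρ S k) :
    Nil (A := Module.End (AlgebraicClosure (ZMod 2)) (AlgebraicClosure (ZMod 2) ⊗[ZMod 2] V))
      (H557.PartC.bc ρ) S k := by
  let f : Module.End (ZMod 2) V →+* Module.End (AlgebraicClosure (ZMod 2))
      (TensorProduct (ZMod 2) (AlgebraicClosure (ZMod 2)) V) :=
    (Module.End.baseChangeHom (ZMod 2) (AlgebraicClosure (ZMod 2)) V).toRingHom
  have h2 : ∀ g, f (ρ g) = H557.PartC.bc ρ g := fun g => rfl
  exact hN.map (A' := Module.End (AlgebraicClosure (ZMod 2)) (AlgebraicClosure (ZMod 2) ⊗[ZMod 2] V))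
    (H557.PartC.bc ρ) f h2

end

/-- the main contradiction -/
theorem main_contra9 {k : ℕ} (hk : 1 ≤ k)
    (hIH : ∀ (Y : Type u) [Group Y] [Finite Y], IsPSolvable 2 Y → DAt.{u} k Y)
    (G : Type u) [Group G] [Finite G] (hG : IsPSolvable 2 G) (hC : Crit.{u} (k + 1) G)
    {V : Type u} [AddCommGroup V] [Module (ZMod 2) V] [Finite V] (ρ : G →* Module.End (ZMod 2) V)
    (hρ : ∀ g, ρ g = 1 → g = 1) (hN : ∀ S : Subgroup G, IsPGroup 2 S → Nil ρ S (k + 1)) : False := by
  obtain ⟨R, h1⟩ := D1.exists hC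
  obtain ⟨L, N₁, h⟩ := h1.exists_D2 hk
  refine contra9 (ρ := H557.PartC.bc ρ) h (hIH ↥N₁
    (Lib.PSolvable.IsPSolvable_of_injective 2 hG N₁.subtype N₁.subtype_injective))
    (fun g hg => hρ g (H557.PartC.bc_inj ρ hg)) fun S hS => ?_
  exact Nil.bc ρ (hN S hS)

/-- a normal `2`-subgroup acts trivially on an irreducible module in characteristic `2` -/
theorem core_of_irr {G : Type u} [Group G] [Finite G] {V : Type u} [AddCommGroup V] [Module (ZMod 2) V]
    [Finite V] (ρ : G →* Module.End (ZMod 2) V) (hρ : ∀ g, ρ g = 1 → g = 1)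
    (hirr : ∀ S : Submodule (ZMod 2) V, (∀ g, ∀ m ∈ S, ρ g m ∈ S) → S = ⊥ ∨ S = ⊤)
    (hV : Nontrivial V) (N : Subgroup G) (hn : N.Normal) (hN2 : IsPGroup 2 N) : N = ⊥ := by
  have hF2 : Fact (Nat.Prime 2) := ⟨Nat.prime_two⟩
  -- fixed points of `N` on `V`
  let S : Submodule (ZMod 2) V :=
    { carrier := {v | ∀ n ∈ N, ρ n v = v}
      zero_mem' := fun n _ => map_zero _
      add_mem' := fun {a c} ha hc n hn' => by rw [map_add, ha n hn', hc n hn']
      smul_mem' := fun t v hv n hn' => by rw [map_smul, hv n hn'] }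
  have hS : ∀ g, ∀ m ∈ S, ρ g m ∈ S := by
    intro g m hm n hn'
    have h1 := hm _ (hn.conj_mem n hn' g⁻¹)
    rw [inv_inv] at h1
    have h2 : ρ n (ρ g m) = ρ g (ρ (g⁻¹ * n * g) m) := by
      rw [← Module.End.mul_apply, ← Module.End.mul_apply, ← map_mul, ← map_mul]
      congr 2
      group
    rw [h2, h1]
  rcases hirr S hS with h1 | h1
  · -- a 2-group has a nonzero fixed vector
    exfalso
    let act : MulAction ↥N V :=
      { smul := fun n v => ρ n v
        one_smul := fun v => by
          show ρ ((1 : ↥N) : G) v = v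
          rw [Subgroup.coe_one, map_one, Module.End.one_apply]
        mul_smul := fun a c v => by
          show ρ ((a * c : ↥N) : G) v = ρ a (ρ c v)
          rw [Subgroup.coe_mul, map_mul, Module.End.mul_apply] }
    have h2 := hN2.card_modEq_card_fixedPoints V
    have h3 : 2 ∣ Nat.card V := by
      obtain ⟨v, hv⟩ := exists_ne (0 : V)
      have h4 : addOrderOf v = 2 := by
        refine addOrderOf_eq_prime ?_ hv
        rw [two_smul]; exact zmod2_double v
      rw [← h4]
      exact addOrderOf_dvd_natCard v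
    have h4 : 2 ∣ Nat.card (MulAction.fixedPoints ↥N V) :=
      (Nat.modEq_zero_iff_dvd.1 (h2.symm.trans (Nat.modEq_zero_iff_dvd.2 h3)))
    have h5 : (0 : V) ∈ MulAction.fixedPoints ↥N V := fun n => map_zero (ρ n)
    have h6 : Nat.card (MulAction.fixedPoints ↥N V) = 1 := by
      have : Subsingleton (MulAction.fixedPoints ↥N V) := by
        refine ⟨fun a c => ?_⟩
        have key : ∀ v : MulAction.fixedPoints ↥N V, (v : V) = 0 := by
          intro v
          have h7 : (v : V) ∈ S := fun n hn' => v.2 ⟨n, hn'⟩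
          rw [h1, Submodule.mem_bot] at h7
          exact h7
        exact Subtype.ext ((key a).trans (key c).symm)
      have hne : Nonempty (MulAction.fixedPoints ↥N V) := ⟨⟨0, h5⟩⟩
      exact Nat.card_eq_one_iff_unique.2 ⟨this, hne⟩
    rw [h6] at h4
    exact absurd h4 (by decide)
  · rw [eq_bot_iff]
    intro n hn'
    rw [Subgroup.mem_bot]
    apply hρ
    ext v
    have h7 : v ∈ S := by rw [h1]; exact Submodule.mem_top
    exact h7 n hn'

/-- Theorem D for irreducible faithful representations, given the smaller groups -/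
theorem DAt_faithful_irr {k : ℕ} (hk : 1 ≤ k)
    (hIH : ∀ (Y : Type u) [Group Y] [Finite Y], IsPSolvable 2 Y → DAt.{u} k Y)
    (G : Type u) [Group G] [Finite G] (hG : IsPSolvable 2 G)
    (hsm : ∀ (Y : Type u) [Group Y] [Finite Y], IsPSolvable 2 Y → Nat.card Y < Nat.card G →
      DAt.{u} (k + 1) Y)
    {V : Type u} [AddCommGroup V] [Module (ZMod 2) V] [Finite V] (ρ : G →* Module.End (ZMod 2) V)
    (hρ : ∀ g, ρ g = 1 → g = 1)
    (hirr : ∀ S : Submodule (ZMod 2) V, (∀ g, ∀ m ∈ S, ρ g m ∈ S) → S = ⊥ ∨ S = ⊤)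
    (hN : ∀ S : Subgroup G, IsPGroup 2 S → Nil ρ S (k + 1)) :
    ∀ g ∈ T (k + 1) (⊤ : Subgroup G), ρ g = 1 := by
  have hF2 : Fact (Nat.Prime 2) := ⟨Nat.prime_two⟩
  by_contra hcon
  push Not at hcon
  obtain ⟨g₀, hg₀, hg₀'⟩ := hcon
  have hds : ∀ S : Subgroup G, IsPGroup 2 S → ds S (k + 1) = ⊥ := by
    intro S hS
    rw [ds_succ, Subgroup.commutator_eq_bot_iff_le_centralizer]
    intro a ha c hc
    have h1 := quadratic (hN S hS) ha hc
    have h2 := quadratic (hN S hS) hc ha
    rw [sub_mul, mul_sub, one_mul, mul_one] at h1 h2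
    have h3 : ρ (c * a) = ρ (a * c) := by
      rw [map_mul, map_mul]
      have h4 : ρ a * ρ c - ρ a - (ρ c - 1) - (ρ c * ρ a - ρ c - (ρ a - 1)) = 0 := by rw [h1, h2, sub_zero]
      have h5 : ρ a * ρ c - ρ a - (ρ c - 1) - (ρ c * ρ a - ρ c - (ρ a - 1)) = ρ a * ρ c - ρ c * ρ a := by abel
      rw [h5, sub_eq_zero] at h4
      exact h4.symm
    have h6 : c * a * (a * c)⁻¹ = 1 := by
      apply hρ
      rw [map_mul, h3, ← map_mul, mul_inv_cancel, map_one]
    exact mul_inv_eq_one.1 h6
  refine main_contra9 hk hIH G hG ?_ ρ hρ hN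
  constructor
  · -- core
    have hV : Nontrivial V := by
      by_contra hnt
      rw [not_nontrivial_iff_subsingleton] at hnt
      exact hg₀' (Subsingleton.elim _ _)
    exact core_of_irr ρ hρ hirr hV
  · intro hbot
    rw [hbot, Subgroup.mem_bot] at hg₀
    apply hg₀'
    rw [hg₀, map_one]
  · exact odd_of_DAt (k + 1) (Nat.le_add_left 1 k) G hG hds hsm
  · intro H hH
    have hlt : Nat.card H < Nat.card G := by
      refine lt_of_le_of_ne (Subgroup.card_le_card_group H) fun he => hH ?_
      exact Subgroup.eq_top_of_card_eq H he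
    have h1 := hsm ↥H (Lib.PSolvable.IsPSolvable_of_injective 2 hG H.subtype H.subtype_injective) hlt
      V (ρ.comp H.subtype) (fun S hS => Nil.comp H.subtype (hN _ (hS.map H.subtype)))
    rw [← T_subtype, eq_bot_iff]
    rintro _ ⟨y, hy, rfl⟩
    rw [Subgroup.mem_bot]
    exact hρ _ (h1 y hy)

/-- reduction to faithful representations -/
theorem DAt_irr {k : ℕ} (hk : 1 ≤ k)
    (hIH : ∀ (Y : Type u) [Group Y] [Finite Y], IsPSolvable 2 Y → DAt.{u} k Y)
    (G : Type u) [Group G] [Finite G] (hG : IsPSolvable 2 G)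
    (hsm : ∀ (Y : Type u) [Group Y] [Finite Y], IsPSolvable 2 Y → Nat.card Y < Nat.card G →
      DAt.{u} (k + 1) Y)
    {V : Type u} [AddCommGroup V] [Module (ZMod 2) V] [Finite V] (ρ : G →* Module.End (ZMod 2) V)
    (hirr : ∀ S : Submodule (ZMod 2) V, (∀ g, ∀ m ∈ S, ρ g m ∈ S) → S = ⊥ ∨ S = ⊤)
    (hN : ∀ S : Subgroup G, IsPGroup 2 S → Nil ρ S (k + 1)) :
    ∀ g ∈ T (k + 1) (⊤ : Subgroup G), ρ g = 1 := by
  have hF2 : Fact (Nat.Prime 2) := ⟨Nat.prime_two⟩
  by_cases hker : ρ.ker = ⊥
  · refine DAt_faithful_irr hk hIH G hG hsm ρ (fun g hg => ?_) hirr hN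
    have : g ∈ ρ.ker := hg
    rw [hker] at this
    exact Subgroup.mem_bot.1 this
  let f : G →* G ⧸ ρ.ker := QuotientGroup.mk' ρ.ker
  have hfs : Function.Surjective f := QuotientGroup.mk'_surjective _
  let ρ' : G ⧸ ρ.ker →* Module.End (ZMod 2) V := QuotientGroup.lift ρ.ker ρ (fun g hg => hg)
  have hρ' : ∀ g, ρ' (f g) = ρ g := fun g => rfl
  have hlt : Nat.card (G ⧸ ρ.ker) < Nat.card G := by
    have h1 : Nat.card G = Nat.card (G ⧸ ρ.ker) * Nat.card ρ.ker :=
      Subgroup.card_eq_card_quotient_mul_card_subgroup _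
    have h2 : 1 < Nat.card ρ.ker := by
      have h3 : Nat.card ρ.ker ≠ 1 := fun h4 => hker (Subgroup.eq_bot_of_card_eq _ h4)
      have h4 : 0 < Nat.card ρ.ker := Nat.card_pos
      omega
    have h3 : 0 < Nat.card (G ⧸ ρ.ker) := Nat.card_pos
    rw [h1]
    exact lt_mul_of_one_lt_right h3 h2
  have h1 := hsm (G ⧸ ρ.ker) (Lib.PSolvable.IsPSolvable_of_surjective 2 hG f hfs) hlt V ρ' (by
    intro S hS
    obtain ⟨P, hP, rfl⟩ := exists_two_subgroup_lift f hfs S hS
    refine Nil.of_comp f ?_
    have h2 : ρ'.comp f = ρ := by ext g : 1; exact hρ' g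
    rw [h2]
    exact hN P hP)
  intro g hg
  rw [← hρ']
  apply h1
  rw [← T_map_top f hfs]
  exact ⟨g, hg, rfl⟩

/-- reduction to irreducible representations -/
theorem DAt_of_irr {e : ℕ} (he : 1 ≤ e) (G : Type u) [Group G] [Finite G]
    (hirr : ∀ (V : Type u) [AddCommGroup V] [Module (ZMod 2) V] [Finite V]
      (ρ : G →* Module.End (ZMod 2) V),
      (∀ S : Submodule (ZMod 2) V, (∀ g, ∀ m ∈ S, ρ g m ∈ S) → S = ⊥ ∨ S = ⊤) →
      (∀ S : Subgroup G, IsPGroup 2 S → Nil ρ S e) → ∀ g ∈ T e (⊤ : Subgroup G), ρ g = 1) :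
    DAt.{u} e G := by
  suffices H : ∀ n : ℕ, ∀ (V : Type u) [AddCommGroup V] [Module (ZMod 2) V] [Finite V]
      (ρ : G →* Module.End (ZMod 2) V), Nat.card V ≤ n →
      (∀ S : Subgroup G, IsPGroup 2 S → Nil ρ S e) → ∀ g ∈ T e (⊤ : Subgroup G), ρ g = 1 by
    intro V _ _ _ ρ hN
    exact H (Nat.card V) V ρ le_rfl hN
  intro n
  induction n with
  | zero =>
    intro V _ _ _ ρ hV
    have : 0 < Nat.card V := Nat.card_pos
    omega
  | succ n ih =>
    intro V _ _ _ ρ hV hN
    by_cases hI : ∀ S : Submodule (ZMod 2) V, (∀ g, ∀ m ∈ S, ρ g m ∈ S) → S = ⊥ ∨ S = ⊤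
    · exact hirr V ρ hI hN
    push Not at hI
    obtain ⟨S, hS, hS1, hS2⟩ := hI
    -- restriction and quotient
    let ρS : G →* Module.End (ZMod 2) S :=
      { toFun := fun g => (ρ g).restrict (hS g)
        map_one' := by ext m; simp
        map_mul' := fun a c => by ext m; simp }
    have hρS : ∀ g (m : S), ((ρS g m : S) : V) = ρ g m := fun g m => rfl
    obtain ⟨ρQ, hρQ⟩ := exists_quot_rep ρ S hS
    have hcS : Nat.card S ≤ n := by
      have : Nat.card S < Nat.card V := by
        refine lt_of_le_of_ne (Nat.card_le_card_of_injective _ S.subtype_injective) fun he' => hS2 ?_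
        have h1 : Function.Bijective S.subtype :=
          (Nat.bijective_iff_injective_and_card _).2 ⟨S.subtype_injective, he'⟩
        rw [eq_top_iff]
        intro v _
        obtain ⟨s, rfl⟩ := h1.2 v
        exact s.2
      omega
    have hQfin : Finite (V ⧸ S) := Finite.of_surjective _ S.mkQ_surjective
    have hcQ : Nat.card (V ⧸ S) ≤ n := by
      have h1 : Nat.card V = Nat.card S * Nat.card (V ⧸ S) := Submodule.card_eq_card_quotient_mul_card S
      have h2 : 1 < Nat.card S := by
        have : Nontrivial S := (Submodule.nontrivial_iff_ne_bot).2 hS1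
        exact Finite.one_lt_card
      have h3 : 0 < Nat.card (V ⧸ S) := Nat.card_pos
      have h4 : Nat.card (V ⧸ S) < Nat.card V := by
        rw [h1]; exact lt_mul_of_one_lt_left h3 h2
      omega
    have hNS : ∀ P : Subgroup G, IsPGroup 2 P → Nil ρS P e := by
      intro P hP s hs
      have key : ∀ j : ℕ, ∀ m : S, (opProd ρS s j m : V) = opProd ρ s j (m : V) := by
        intro j
        induction j with
        | zero => intro m; rfl
        | succ j ihj =>
          intro m
          rw [opProd_succ, opProd_succ, Module.End.mul_apply, Module.End.mul_apply, ← ihj]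
          rfl
      ext m
      rw [key, hN P hP s hs]
      rfl
    have hNQ : ∀ P : Subgroup G, IsPGroup 2 P → Nil ρQ P e := by
      intro P hP s hs
      have key : ∀ j : ℕ, ∀ m : V, opProd ρQ s j (S.mkQ m) = S.mkQ (opProd ρ s j m) := by
        intro j
        induction j with
        | zero => intro m; rfl
        | succ j ihj =>
          intro m
          rw [opProd_succ, opProd_succ, Module.End.mul_apply, Module.End.mul_apply, ihj]
          rw [LinearMap.sub_apply, LinearMap.sub_apply, Module.End.one_apply, Module.End.one_apply,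
            map_sub, hρQ]
      apply LinearMap.ext
      intro v
      obtain ⟨m, rfl⟩ := S.mkQ_surjective v
      rw [key, hN P hP s hs, LinearMap.zero_apply, map_zero, LinearMap.zero_apply]
    have h1 := ih S ρS hcS hNS
    have h2 := ih (V ⧸ S) ρQ hcQ hNQ
    -- elements of odd order of `T e ⊤` act trivially
    obtain ⟨j, rfl⟩ : ∃ j, e = j + 1 := ⟨e - 1, by omega⟩
    have hle : T (j + 1) (⊤ : Subgroup G) ≤ ρ.ker := by
      rw [← oddGen_T_succ]
      refine (Subgroup.closure_le _).2 ?_
      rintro g ⟨hg, hgo⟩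
      show ρ g = 1
      have h3 : ∀ v, ρ g v - v ∈ S := by
        intro v
        have h4 := h2 g hg
        have h5 : ρQ g (S.mkQ v) = S.mkQ v := by rw [h4, Module.End.one_apply]
        rw [hρQ, ← sub_eq_zero, ← map_sub, Submodule.mkQ_apply, Submodule.Quotient.mk_eq_zero] at h5
        exact h5
      have h4 : ∀ v ∈ S, ρ g v = v := by
        intro v hv
        have h5 := congrArg (fun F : Module.End (ZMod 2) S => ((F ⟨v, hv⟩ : S) : V)) (h1 g hg)
        exact h5
      have h5 : ρ g * ρ g = 1 := by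
        ext v
        rw [Module.End.mul_apply, Module.End.one_apply]
        have h6 := h4 _ (h3 v)
        rw [map_sub, sub_eq_iff_eq_add] at h6
        rw [h6]
        have h7 := zmod2_double (ρ g v)
        have h8 : ρ g v - v + ρ g v = (ρ g v + ρ g v) - v := by abel
        rw [h8, h7, zero_sub, zmod2_neg]
      obtain ⟨n', hn'⟩ := hgo
      have h6 : ρ g ^ orderOf g = 1 := by rw [← map_pow, pow_orderOf_eq_one, map_one]
      rw [hn', pow_succ, pow_mul, pow_two, h5, one_pow, one_mul] at h6
      exact h6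
    intro g hg
    exact hle hg

theorem isPGroup_zpowers {G : Type*} [Group G] {x : G} (hx : IsTwo x) : IsPGroup 2 (Subgroup.zpowers x) := by
  obtain ⟨k, hk⟩ := hx
  rintro ⟨_, n, rfl⟩
  refine ⟨k, Subtype.ext ?_⟩
  show (x ^ n) ^ 2 ^ k = 1
  rw [← zpow_natCast, ← zpow_mul, mul_comm, zpow_mul, zpow_natCast, hk, one_zpow]

/-- **Theorem D** -/
theorem DAt_all : ∀ e : ℕ, ∀ (X : Type u) [Group X] [Finite X], IsPSolvable 2 X → DAt.{u} e X := by
  intro e
  induction e using Nat.strong_induction_on with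
  | _ e ihe =>
    rcases e with _ | _ | k
    · -- e = 0
      intro X _ _ _ M _ _ _ ρ hN g _
      have h1 := hN ⊥ IsPGroup.of_bot (fun _ => 1) (fun i => Subgroup.one_mem _)
      have h2 : ∀ F : Module.End (ZMod 2) M, F = 0 := fun F => by
        have h3 : (1 : Module.End (ZMod 2) M) = 0 := h1
        rw [← mul_one F, h3, mul_zero]
      rw [h2 (ρ g), h2 1]
    · -- e = 1
      intro X _ _ _ M _ _ _ ρ hN g hg
      have h1 : T 1 (⊤ : Subgroup X) ≤ ρ.ker := by
        refine (oddGen_le _).trans ?_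
        refine (Subgroup.closure_le _).2 ?_
        rintro y ⟨_, hy⟩
        have h2 := hN (Subgroup.zpowers y) (isPGroup_zpowers hy) (fun i => if i = 0 then y else 1) (fun i => by
          by_cases hi : i = 0
          · subst hi
            exact Subgroup.mem_zpowers y
          · simp only [hi, if_false]
            exact Subgroup.one_mem _)
        have h3 : (ρ y - 1) * 1 = 0 := h2
        rw [mul_one, sub_eq_zero] at h3
        exact h3
      exact h1 hg
    · -- e = k + 2
      have hIH : ∀ (Y : Type u) [Group Y] [Finite Y], IsPSolvable 2 Y → DAt.{u} (k + 1) Y :=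
        ihe (k + 1) (by omega)
      suffices H : ∀ n : ℕ, ∀ (X : Type u) [Group X] [Finite X], IsPSolvable 2 X → Nat.card X ≤ n →
          DAt.{u} (k + 1 + 1) X by
        intro X _ _ hX
        exact H (Nat.card X) X hX le_rfl
      intro n
      induction n with
      | zero =>
        intro X _ _ _ hc
        have : 0 < Nat.card X := Nat.card_pos
        omega
      | succ n ihn =>
        intro X _ _ hX hc
        refine DAt_of_irr (Nat.le_add_left 1 (k + 1)) X ?_
        intro V _ _ _ ρ hirr hN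
        refine DAt_irr (Nat.le_add_left 1 k) hIH X hX ?_ ρ hirr hN
        intro Y _ _ hY hlt
        exact ihn Y hY (by omega)

/-- the derived series of a subgroup -/
theorem map_derivedSeries {G : Type*} [Group G] (P : Subgroup G) (i : ℕ) :
    (derivedSeries ↥P i).map P.subtype = ds P i := by
  induction i with
  | zero => rw [derivedSeries_zero, ← MonoidHom.range_eq_map, Subgroup.range_subtype, ds_zero]
  | succ i ih => rw [derivedSeries_succ, Subgroup.map_commutator, ih, ds_succ]

end Cfsg.Agent.H552
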