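import Mathlib
import Cfsg.Prelude.Def_Local
import Cfsg.Agent.H552.Series

/-!
# Statements of the induction for S4258 (helper552)

`EAt e X`: Theorem E with parameter `e` for the group `X`: if `X` acts on an elementary abelian `2`-group `M`
such that `(y - 1) ^ (2 ^ e - 1) = 0` for all elements `y` of `2`-power order, then `T e X` acts trivially.
`Crit e G`: the critical groups.
-/

set_option autoImplicit false

universe u

namespace Cfsg.Agent.H552

/-- Theorem E with parameter `e` for the group `X` -/
def EAt (e : ℕ) (X : Type u) [Group X] : Prop :=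
  ∀ (M : Type u) [AddCommGroup M] [Module (ZMod 2) M] [Finite M] (ρ : X →* Module.End (ZMod 2) M),
    (∀ y : X, IsTwo y → (ρ y - 1) ^ (2 ^ e - 1) = 0) → ∀ g ∈ T e (⊤ : Subgroup X), ρ g = 1

/-- critical groups: no normal `2`-subgroup, `T e G` is nontrivial of odd order, and `T e H = 1` for all proper
subgroups `H` -/
structure Crit (e : ℕ) (G : Type u) [Group G] : Prop where
  core : ∀ N : Subgroup G, N.Normal → IsPGroup 2 N → N = ⊥
  ne : T e (⊤ : Subgroup G) ≠ ⊥
  odd : Odd (Nat.card (T e (⊤ : Subgroup G)))
  min : ∀ H : Subgroup G, H ≠ ⊤ → T e H = ⊥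

end Cfsg.Agent.H552
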