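import Mathlib
import Cfsg.Agent.H552.FiveB

/-!
# Case 5b of S4258 (helper552), conclusion
-/

set_option autoImplicit false
set_option linter.unusedSectionVars false
set_option linter.unusedVariables false
set_option linter.style.haveILetI false

universe u

namespace Cfsg.Agent.H552

open scoped commutatorElement
open Cfsg.Agent.OddOrderCharacters.PF9

/-- the subgroup of `Lb` acting trivially modulo `P` -/
def kap {X : Type*} [Group X] [Finite X] {M : Type*} [AddCommGroup M] [Module (ZMod 2) M]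
    (τ : X →* Module.End (ZMod 2) M) (Lb : Subgroup X) (P : Submodule (ZMod 2) M) : Subgroup X where
  carrier := {y | y ∈ Lb ∧ ∀ m, τ y m - m ∈ P}
  one_mem' := ⟨Lb.one_mem, fun m => by rw [map_one, Module.End.one_apply, sub_self]; exact P.zero_mem⟩
  mul_mem' := by
    rintro a b ⟨ha, ha'⟩ ⟨hb, hb'⟩
    refine ⟨Lb.mul_mem ha hb, fun m => ?_⟩
    have h1 : τ (a * b) m - m = (τ a (τ b m) - τ b m) + (τ b m - m) := by
      rw [map_mul, Module.End.mul_apply]; abel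
    rw [h1]
    exact P.add_mem (ha' _) (hb' m)
  inv_mem' := by
    rintro a ⟨ha, ha'⟩
    refine ⟨Lb.inv_mem ha, ?_⟩
    have key : ∀ n : ℕ, ∀ m, τ (a ^ n) m - m ∈ P := by
      intro n
      induction n with
      | zero => intro m; rw [pow_zero, map_one, Module.End.one_apply, sub_self]; exact P.zero_mem
      | succ n ih =>
        intro m
        have h1 : τ (a ^ (n + 1)) m - m = (τ (a ^ n) (τ a m) - τ a m) + (τ a m - m) := by
          rw [pow_succ, map_mul, Module.End.mul_apply]; abel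
        rw [h1]
        exact P.add_mem (ih _) (ha' m)
    have h2 : a⁻¹ = a ^ (orderOf a - 1) := by
      rw [inv_eq_iff_mul_eq_one, ← pow_succ', Nat.sub_add_cancel (orderOf_pos a), pow_orderOf_eq_one]
    rw [h2]
    exact key _

theorem mem_kap {X : Type*} [Group X] [Finite X] {M : Type*} [AddCommGroup M] [Module (ZMod 2) M]
    {τ : X →* Module.End (ZMod 2) M} {Lb : Subgroup X} {P : Submodule (ZMod 2) M} {y : X} :
    y ∈ kap τ Lb P ↔ y ∈ Lb ∧ ∀ m, τ y m - m ∈ P := Iff.rfl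

/-- E1 for an abelian normal subgroup of odd order -/
theorem E1_abelian {X : Type*} [Group X] [Finite X] {M : Type*} [AddCommGroup M] [Module (ZMod 2) M] [Finite M]
    (τ : X →* Module.End (ZMod 2) M) (hτ : ∀ y, τ y = 1 → y = 1) {A : Subgroup X} (hn : A.Normal)
    (hodd : Odd (Nat.card A)) (hab : ∀ a ∈ A, ∀ c ∈ A, a * c = c * a) {x : X} (hx : IsTwo x) {e : ℕ}
    (he : 1 ≤ e) (hN : (τ x - 1) ^ (2 ^ e - 1) = 0) : ∀ a ∈ A, x ^ 2 ^ (e - 1) * a = a * x ^ 2 ^ (e - 1) := by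
  have hcomm : IsMulCommutative A := ⟨⟨fun a c => Subtype.ext (hab a a.2 c c.2)⟩⟩
  set z := x ^ 2 ^ (e - 1) with hz
  have hz2 : IsTwo z := hx.pow _
  have hzp : IsPGroup 2 (Subgroup.zpowers z) := by
    obtain ⟨k, hk⟩ := hz2
    rintro ⟨_, n, rfl⟩
    refine ⟨k, Subtype.ext ?_⟩
    show (z ^ n) ^ 2 ^ k = 1
    rw [← zpow_natCast, ← zpow_mul, mul_comm, zpow_mul, zpow_natCast, hk, one_zpow]
  have h1 := S0056.result (Subgroup.zpowers z) A
    (by rw [Subgroup.normalizer_eq_top_iff.2 hn]; exact le_top)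
    (coprime_two_odd hzp hodd) (fun v hv hp => by
      set r := orderOf v with hr
      have : Fact r.Prime := ⟨hp⟩
      have hr2 : r ≠ 2 := by
        intro h2
        have h3 := odd_orderOf_of_mem hodd hv
        rw [← hr, h2] at h3
        exact absurd h3 (by decide)
      -- the elements of order dividing `r`
      let A' : Subgroup X :=
        { carrier := {a | a ∈ A ∧ a ^ r = 1}
          one_mem' := ⟨A.one_mem, one_pow _⟩
          mul_mem' := fun {a c} ha hc => ⟨A.mul_mem ha.1 hc.1, by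
            have h2 : Commute a c := hab a ha.1 c hc.1
            rw [h2.mul_pow, ha.2, hc.2, one_mul]⟩
          inv_mem' := fun {a} ha => ⟨A.inv_mem ha.1, by rw [inv_pow, ha.2, inv_one]⟩ }
      have hA' : IsPGroup r A' := by
        rintro ⟨a, ha⟩
        exact ⟨1, Subtype.ext (by rw [pow_one]; exact ha.2)⟩
      have hA'n : A'.Normal := ⟨fun a ha g => ⟨hn.conj_mem a ha.1 g, by
        rw [conj_pow, ha.2, mul_one, mul_inv_cancel]⟩⟩
      have h3 := H557.PartC.E1Z τ hr2 he hN hA'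
        (by rw [Subgroup.normalizer_eq_top_iff.2 hA'n]; exact Subgroup.mem_top x)
        (fun a ha c hc => hab a ha.1 c hc.1) (fun a _ h4 => hτ a h4) v
        ⟨hv, by rw [hr]; exact pow_orderOf_eq_one v⟩
      intro a ha
      obtain ⟨n, rfl⟩ := ha
      exact (Commute.zpow_left h3 n))
  intro a ha
  have h2 := h1 (Subgroup.mem_zpowers z) a ha
  exact h2.symm

section

variable {G : Type u} [Group G] [Finite G] {k : ℕ} {Q R L N₁ : Subgroup G}
  {q : ℕ} [Fact q.Prime] {W : Type u} [AddCommGroup W] [Module (ZMod q) W] [Finite W]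
  {σ : G →* Module.End (ZMod q) W} {ι : Type u} {b : ι → W →ₗ[ZMod q] W →ₗ[ZMod q] ZMod q}
  {M : Type u} [AddCommGroup M] [Module (ZMod 2) M] [Finite M] {π : ↥R → M}
  {ρ : ↥N₁ →* Module.End (ZMod 2) M}

/-- the action of `X = N₁ / C_{N₁}(R)` on `M` -/
theorem MD.exists_tau (d : MD R L N₁ π ρ) [hn : (KX R N₁).Normal] :
    ∃ τ : (↥N₁ ⧸ KX R N₁) →* Module.End (ZMod 2) M,
      ∀ n : ↥N₁, τ (QuotientGroup.mk' (KX R N₁) n) = ρ n := by
  refine ⟨QuotientGroup.lift (KX R N₁) ρ fun n hn' => ?_, fun n => rfl⟩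
  rw [Subgroup.mem_subgroupOf] at hn'
  rw [MonoidHom.mem_ker, d.act_eq_one_iff]
  intro r hr
  have h1 : r * (n : G) = (n : G) * r := hn' r hr
  rw [← h1, mul_inv_cancel_right, mul_inv_cancel]
  exact Subgroup.one_mem _

/-- case 5b -/
theorem five_b (hIH : ∀ j ≤ k, ∀ (Y : Type u) [Group Y] [Finite Y], IsPSolvable 2 Y → EAt.{u} j Y)
    (hG : IsPSolvable 2 G)
    (h : D2 k Q R L N₁) (w : WD k q Q R σ b) (hna : ¬ R ≤ Subgroup.centralizer (R : Set G))
    (hsing : ∀ α : G → ℤˣ, wt σ (Z0 R L) α ≠ ⊥ → ∀ c ∈ R, ∀ e ∈ R, α (c ^ 2) = 1 → α (e ^ 2) = 1 →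
      α ⁅c, e⁆ = 1 → (∀ r ∈ R, α ⁅c, r⁆ = 1) ∨ (∀ r ∈ R, α ⁅e, r⁆ = 1) ∨ (∀ r ∈ R, α ⁅c * e, r⁆ = 1)) :
    False := by
  classical
  have hk := h.hk
  obtain ⟨M, i1, i2, i3, π, ρ, d⟩ := h.exists_MD
  have hKn : (KX R N₁).Normal := h.KX_normal
  obtain ⟨τ, hτ⟩ := d.exists_tau
  set X := ↥N₁ ⧸ KX R N₁ with hX
  set f : ↥N₁ →* X := QuotientGroup.mk' (KX R N₁) with hf
  have hfs : Function.Surjective f := QuotientGroup.mk'_surjective _
  have hC : Crit.{u} k X := h.crit_X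
  have hXsol : IsPSolvable 2 X :=
    Lib.PSolvable.IsPSolvable_of_surjective 2 (Lib.PSolvable.IsPSolvable_of_injective 2 hG N₁.subtype N₁.subtype_injective) f hfs
  set Lb : Subgroup X := T k (⊤ : Subgroup X) with hLb
  have hLbn : Lb.Normal := T_normal k inferInstance
  have hLbodd : Odd (Nat.card Lb) := hC.odd
  -- elements of `Lb`
  have hLb1 : ∀ y ∈ Lb, ∃ l, ∃ hl : l ∈ L, y = f ⟨l, h.LN₁ hl⟩ := by
    intro y hy
    rw [hLb, ← T_map_top f hfs] at hy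
    obtain ⟨n, hn, rfl⟩ := hy
    have h1 : (n : G) ∈ T k N₁ := by rw [← T_subtype]; exact ⟨n, hn, rfl⟩
    exact ⟨n, h.L₀L h1, rfl⟩
  have hLb2 : ∀ l, (hl : l ∈ L) → f ⟨l, h.LN₁ hl⟩ ∈ Lb := by
    intro l hl
    obtain ⟨l₀, hl₀, c, hc, hlc⟩ := h.L_eq hl
    have hcN : c ∈ N₁ := h.CN₁ hc
    have hl₀' := hl₀
    rw [← T_subtype] at hl₀
    obtain ⟨n, hn, hnl⟩ := hl₀
    have h1 : f ⟨l, h.LN₁ hl⟩ = f n := by
      have h2 : (⟨l, h.LN₁ hl⟩ : ↥N₁) = n * ⟨c, hcN⟩ := Subtype.ext (by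
        show l = N₁.subtype n * c
        rw [hlc, ← hnl])
      rw [h2, map_mul]
      have h3 : f ⟨c, hcN⟩ = 1 := (QuotientGroup.eq_one_iff _).2 (by
        rw [Subgroup.mem_subgroupOf]; exact hc.2)
      rw [h3, mul_one]
    rw [h1, hLb, ← T_map_top f hfs]
    exact ⟨n, hn, rfl⟩
  -- faithfulness
  have hfaith : ∀ y, τ y = 1 → y = 1 := by
    intro y hy
    obtain ⟨n, rfl⟩ := hfs y
    rw [hτ, d.act_eq_one_iff] at hy
    refine (QuotientGroup.eq_one_iff _).2 ?_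
    rw [Subgroup.mem_subgroupOf]
    exact h.cent_of n.2 hy
  have hfixL : ∀ m, (∀ y ∈ Lb, τ y m = m) → m = 0 := by
    intro m hm
    refine d.fixL h m fun l hl => ?_
    rw [← hτ]
    exact hm _ (hLb2 l hl)
  -- the restriction to `Lb`
  let τL : ↥Lb →* Module.End (ZMod 2) M := τ.comp Lb.subtype
  have hqinv : ∀ {α : G → ℤˣ} {B : M →ₗ[ZMod 2] M →ₗ[ZMod 2] ZMod 2} {qf : M → ZMod 2},
      AB π α B qf → ∀ y ∈ Lb, ∀ m, qf (τ y m) = qf m := by
    intro α B qf ab y hy m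
    obtain ⟨l, hl, rfl⟩ := hLb1 y hy
    rw [hτ]
    exact ab.inv_L h d hl m
  have hsing' : ∀ {α : G → ℤˣ} {B : M →ₗ[ZMod 2] M →ₗ[ZMod 2] ZMod 2} {qf : M → ZMod 2},
      wt σ (Z0 R L) α ≠ ⊥ → AB π α B qf → ∀ m m', qf m = 0 → qf m' = 0 → B m m' = 0 →
      m ∈ LinearMap.ker B ∨ m' ∈ LinearMap.ker B ∨ m + m' ∈ LinearMap.ker B := by
    intro α B qf hα ab m m' hm hm' hmm
    obtain ⟨c, rfl⟩ := d.surj m
    obtain ⟨e, rfl⟩ := d.surj m'
    rw [ab.hq, lg_eq_zero] at hm hm'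
    rw [ab.hB, lg_eq_zero] at hmm
    have key : ∀ c : ↥R, (∀ r ∈ R, α ⁅(c : G), r⁆ = 1) → π c ∈ LinearMap.ker B := by
      intro c hc
      rw [LinearMap.mem_ker]
      ext v
      obtain ⟨r, rfl⟩ := d.surj v
      rw [ab.hB, LinearMap.zero_apply, lg_eq_zero]
      exact hc r r.2
    rcases hsing α hα c c.2 e e.2 hm hm' hmm with h1 | h1 | h1
    · exact Or.inl (key c h1)
    · exact Or.inr (Or.inl (key e h1))
    · right; right
      rw [← d.add]
      exact key _ h1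
  have hquad : ∀ {α : G → ℤˣ} {B : M →ₗ[ZMod 2] M →ₗ[ZMod 2] ZMod 2} {qf : M → ZMod 2},
      wt σ (Z0 R L) α ≠ ⊥ → AB π α B qf → _ := fun {α B qf} hα ab =>
    quad' hLbodd τL qf B ab.hadd (fun l m => hqinv ab l l.2 m)
      (fun m hm => hfixL m fun y hy => hm ⟨y, hy⟩) (hsing' hα ab)
  -- the radicals intersect trivially
  have hrad : ∀ m, (∀ α B qf, wt σ (Z0 R L) α ≠ ⊥ → AB π α B qf → m ∈ LinearMap.ker B) → m = 0 := by
    intro m hm
    obtain ⟨a, rfl⟩ := d.surj m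
    rw [d.ker]
    refine h.center_le hna ⟨a.2, fun r hr => ?_⟩
    rw [eq_comm, ← commutatorElement_eq_one_iff_mul_comm]
    by_contra hne
    have h1 : ⁅(a : G), r⁆ ∈ Z0 R L := h.comm_RR (Subgroup.commutator_mem_commutator a.2 hr)
    obtain ⟨α, hα, hα1⟩ := exists_alpha h w h1 hne
    obtain ⟨B, qf, ab⟩ := exists_AB h w d hα
    have h2 := hm α B qf hα ab
    rw [LinearMap.mem_ker] at h2
    have h3 := ab.hB a ⟨r, hr⟩
    rw [h2, LinearMap.zero_apply] at h3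
    exact hα1 (lg_eq_zero.1 h3.symm)
  -- `Lb` is abelian
  have hab : ∀ y ∈ Lb, ∀ y' ∈ Lb, y * y' = y' * y := by
    intro y hy y' hy'
    have h1 : ∀ m, τ y (τ y' m) = τ y' (τ y m) := by
      intro m
      rw [← sub_eq_zero]
      refine hrad _ fun α B qf hα ab => ?_
      exact (hquad hα ab).1 ⟨y, hy⟩ ⟨y', hy'⟩ m
    have h2 : τ (y' * y)⁻¹ * τ (y * y') = 1 := by
      have h3 : τ (y * y') = τ (y' * y) := by
        ext m
        rw [map_mul, map_mul, Module.End.mul_apply, Module.End.mul_apply, h1]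
      rw [h3, ← map_mul, inv_mul_cancel, map_one]
    rw [← map_mul] at h2
    have h4 := hfaith _ h2
    rw [inv_mul_eq_one] at h4
    exact h4.symm
  -- propP for `X`
  obtain ⟨j, hj⟩ : ∃ j, k = j + 1 := ⟨k - 1, by omega⟩
  have hPX : ∀ x : X, IsTwo x → (∀ a ∈ Lb, x * a = a * x) → x = 1 := by
    have hC' := hC
    rw [hj] at hC'
    obtain ⟨RX, hD1⟩ := D1.exists hC'
    intro x hx hxa
    refine hD1.propP hx fun a ha => hxa a ?_
    rw [hLb, hj]; exact ha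
  -- exponents
  have hNR : ∀ n : ℕ, ∀ x : ↥N₁, IsTwo x → ∀ m : ↥R, IsTwo ((m : G) * x) := by
    intro n x hx m
    exact isTwo_mul h.hR (hx.map N₁.subtype) (h.N₁R x.2) m.2
  have hz : ∀ x : ↥N₁, IsTwo x → (x : G) ^ 2 ^ k ∈ Subgroup.centralizer (R : Set G) := by
    intro x hx
    have h1 : (τ (f x) - 1) ^ (2 ^ (k + 1) - 1) = 0 := by
      rw [H979.TwoLenA.sub_one_pow, hτ]
      ext v
      obtain ⟨m, rfl⟩ := d.surj v
      rw [← d.pi_eq x m (2 ^ (k + 1)) (d.mem_R x m _), LinearMap.zero_apply, d.ker]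
      show ((m : G) * x) ^ 2 ^ (k + 1) * ((x : G) ^ 2 ^ (k + 1))⁻¹ ∈ _
      rw [w.expo _ (hNR 0 x hx m), w.expo (x : G) (hx.map N₁.subtype), inv_one, mul_one]
      exact Subgroup.one_mem _
    have h2 := E1_abelian τ hfaith hLbn hLbodd hab (hx.map f) (Nat.le_add_left 1 k) h1
    rw [Nat.add_sub_cancel] at h2
    have h3 := hPX _ ((hx.map f).pow _) h2
    rw [← map_pow] at h3
    have h4 := (QuotientGroup.eq_one_iff _).1 h3
    rw [Subgroup.mem_subgroupOf] at h4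
    exact h4
  have hexpX : ∀ x : X, IsTwo x → x ^ 2 ^ k = 1 := by
    intro x hx
    obtain ⟨n, rfl⟩ := hfs x
    obtain ⟨t, ht, hft⟩ := exists_two_lift f n hx
    rw [← hft, ← map_pow]
    refine (QuotientGroup.eq_one_iff _).2 ?_
    rw [Subgroup.mem_subgroupOf]
    exact hz _ ht
  -- norms are singular
  have hnorm : ∀ x : ↥N₁, IsTwo x → ∀ {α : G → ℤˣ} {B : M →ₗ[ZMod 2] M →ₗ[ZMod 2] ZMod 2} {qf : M → ZMod 2},
      wt σ (Z0 R L) α ≠ ⊥ → AB π α B qf → ∀ m, qf ((∑ i ∈ Finset.range (2 ^ k), (ρ x) ^ i) m) = 0 := by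
    intro x hx α B qf hα ab m
    obtain ⟨a, rfl⟩ := d.surj m
    rw [← d.pi_eq x a (2 ^ k) (d.mem_R x a _), ab.hq, lg_eq_zero]
    set r' : G := ((a : G) * x) ^ 2 ^ k * ((x : G) ^ 2 ^ k)⁻¹ with hr'
    have hr'R : r' ∈ R := d.mem_R x a _
    have h1 : r' * (x : G) ^ 2 ^ k = (x : G) ^ 2 ^ k * r' := hz x hx r' hr'R
    have h2 : r' ^ 2 = 1 := by
      have h3 : (r' * (x : G) ^ 2 ^ k) ^ 2 = 1 := by
        have h4 : r' * (x : G) ^ 2 ^ k = ((a : G) * x) ^ 2 ^ k := by rw [hr']; group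
        rw [h4, ← pow_mul, ← pow_succ]
        exact w.expo _ (hNR 0 x hx a)
      rw [Commute.mul_pow h1, ← pow_mul (x : G), ← pow_succ, w.expo (x : G) (hx.map N₁.subtype),
        mul_one] at h3
      exact h3
    show α (r' ^ 2) = 1
    rw [h2]
    exact alpha_one w hα
  -- the family of kernels
  let 𝒦 : Set (Subgroup X) := {κ | ∃ (α : G → ℤˣ) (B : M →ₗ[ZMod 2] M →ₗ[ZMod 2] ZMod 2) (qf : M → ZMod 2),
    wt σ (Z0 R L) α ≠ ⊥ ∧ AB π α B qf ∧ ¬ (∀ m, m ∉ LinearMap.ker B → qf m ≠ 0) ∧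
      κ = kap τ Lb (LinearMap.ker B)}
  have h𝒦 : ∀ {α : G → ℤˣ} {B : M →ₗ[ZMod 2] M →ₗ[ZMod 2] ZMod 2} {qf : M → ZMod 2},
      wt σ (Z0 R L) α ≠ ⊥ → AB π α B qf → ¬ (∀ m, m ∉ LinearMap.ker B → qf m ≠ 0) →
      Nat.card (M ⧸ LinearMap.ker B) = 16 ∧ (kap τ Lb (LinearMap.ker B)).relIndex Lb = 5 := by
    intro α B qf hα ab hna'
    rcases (hquad hα ab).2.2 with h1 | ⟨h1, h2⟩
    · exact absurd h1 hna'
    refine ⟨h1, h2 ((kap τ Lb (LinearMap.ker B)).subgroupOf Lb) fun l => ?_⟩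
    rw [Subgroup.mem_subgroupOf, mem_kap]
    exact ⟨fun h3 => h3.2, fun h3 => ⟨l.2, h3⟩⟩
  -- invariance of the radical under `Lb`
  have hPinv : ∀ {α : G → ℤˣ} {B : M →ₗ[ZMod 2] M →ₗ[ZMod 2] ZMod 2} {qf : M → ZMod 2},
      AB π α B qf → ∀ y ∈ Lb, ∀ m ∈ LinearMap.ker B, τ y m ∈ LinearMap.ker B := by
    intro α B qf ab y hy m hm
    rw [LinearMap.mem_ker] at hm ⊢
    ext v
    have hBB : ∀ a b, B a b = qf (a + b) - qf a - qf b := fun a b => by rw [ab.hadd]; ring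
    have h1 : v = τ y (τ y⁻¹ v) := by
      rw [← Module.End.mul_apply, ← map_mul, mul_inv_cancel, map_one, Module.End.one_apply]
    have h2 : B (τ y m) (τ y (τ y⁻¹ v)) = B m (τ y⁻¹ v) := by
      rw [hBB, hBB, ← map_add, hqinv ab y hy, hqinv ab y hy, hqinv ab y hy]
    rw [h1, h2, hm, LinearMap.zero_apply, LinearMap.zero_apply]
  -- `𝒦` is not empty
  have h𝒦ne : 𝒦.Nonempty := by
    by_contra hemp
    rw [Set.not_nonempty_iff_eq_empty] at hemp
    obtain ⟨x, hx, hx2, m, hm, hmx⟩ := h.exists_x (hIH k le_rfl ↥N₁ (Lib.PSolvable.IsPSolvable_of_injective 2 hG N₁.subtype N₁.subtype_injective))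
    apply hmx
    have hx2' : IsTwo (⟨x, hx⟩ : ↥N₁) := by
      obtain ⟨n, hn⟩ := hx2
      exact ⟨n, Subtype.ext hn⟩
    have h1 := d.pi_eq ⟨x, hx⟩ ⟨m, hm⟩ (2 ^ k) (d.mem_R _ _ _)
    have h2 : (∑ i ∈ Finset.range (2 ^ k), (ρ ⟨x, hx⟩) ^ i) (π ⟨m, hm⟩) = 0 := by
      refine hrad _ fun α B qf hα ab => ?_
      by_contra hnot
      have h3 : ∀ m, m ∉ LinearMap.ker B → qf m ≠ 0 := by
        by_contra h4
        have h5 : kap τ Lb (LinearMap.ker B) ∈ 𝒦 := ⟨α, B, qf, hα, ab, h4, rfl⟩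
        rw [hemp] at h5
        exact h5
      exact h3 _ hnot (hnorm ⟨x, hx⟩ hx2' hα ab _)
    rw [h2, d.ker] at h1
    exact h1
  -- the intersection
  have hconj : ∀ κ ∈ 𝒦, ∀ g : X, ∃ κ' ∈ 𝒦, ∀ y, y ∈ κ' → g * y * g⁻¹ ∈ κ := by
    rintro κ ⟨α, B, qf, hα, ab, hna', rfl⟩ g
    obtain ⟨n, rfl⟩ := hfs g
    have ab' := ab.conj d n
    have hker : ∀ m, m ∈ LinearMap.ker (B.compl₁₂ (ρ n) (ρ n)) ↔ ρ n m ∈ LinearMap.ker B := by
      intro m
      rw [LinearMap.mem_ker, LinearMap.mem_ker]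
      constructor
      · intro h1
        ext v
        have h2 : v = ρ n (ρ n⁻¹ v) := by
          rw [← Module.End.mul_apply, ← map_mul, mul_inv_cancel, map_one, Module.End.one_apply]
        rw [h2, ← LinearMap.compl₁₂_apply, h1]; rfl
      · intro h1
        ext v
        rw [LinearMap.compl₁₂_apply, h1]; rfl
    refine ⟨kap τ Lb (LinearMap.ker (B.compl₁₂ (ρ n) (ρ n))),
      ⟨_, _, _, wt_conj h hα n, ab', ?_, rfl⟩, ?_⟩
    · intro h1
      apply hna'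
      intro m hm
      have h2 : m = ρ n (ρ n⁻¹ m) := by
        rw [← Module.End.mul_apply, ← map_mul, mul_inv_cancel, map_one, Module.End.one_apply]
      have h3 := h1 (ρ n⁻¹ m) (fun h4 => hm (by rw [h2]; exact (hker _).1 h4))
      rw [h2]; exact h3
    · rintro y ⟨hy, hy'⟩
      refine ⟨hLbn.conj_mem y hy _, fun m => ?_⟩
      have h2 := (hker _).1 (hy' (ρ n⁻¹ m))
      have e1 : ρ n (τ y (ρ n⁻¹ m)) = τ (f n * y * (f n)⁻¹) m := by
        rw [← hτ, ← hτ, ← Module.End.mul_apply, ← Module.End.mul_apply, ← map_mul τ, ← map_mul τ, map_inv]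
      have e2 : ρ n (ρ n⁻¹ m) = m := by
        rw [← Module.End.mul_apply, ← map_mul, mul_inv_cancel, map_one, Module.End.one_apply]
      rw [map_sub, e1, e2] at h2
      exact h2
  have h𝒦0 : ∀ a ∈ Lb, (∀ κ ∈ 𝒦, a ∈ κ) → a = 1 := by
    let Dd : Subgroup X := ⨅ κ ∈ 𝒦, κ
    have hDd : ∀ a, a ∈ Dd ↔ ∀ κ ∈ 𝒦, a ∈ κ := fun a => by
      show a ∈ (⨅ κ ∈ 𝒦, κ) ↔ _
      simp only [Subgroup.mem_iInf]
    obtain ⟨κ₀, hκ₀⟩ := h𝒦ne
    have hDn : Dd.Normal := ⟨fun a ha g => by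
      rw [hDd] at ha ⊢
      intro κ hκ
      obtain ⟨κ', hκ', hc⟩ := hconj κ hκ g
      exact hc a (ha κ' hκ')⟩
    have hDL : Dd ≤ Lb := by
      intro a ha
      rw [hDd] at ha
      obtain ⟨α, B, qf, hα, ab, hna', hκe⟩ := hκ₀
      have := ha κ₀ ⟨α, B, qf, hα, ab, hna', hκe⟩
      rw [hκe] at this
      exact this.1
    have hDne : Dd ≠ Lb := by
      intro he
      obtain ⟨α, B, qf, hα, ab, hna', hκe⟩ := hκ₀
      have h1 := (h𝒦 hα ab hna').2
      have h2 : Lb ≤ kap τ Lb (LinearMap.ker B) := by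
        intro a ha
        rw [← he, hDd] at ha
        exact ha _ ⟨α, B, qf, hα, ab, hna', rfl⟩
      rw [Subgroup.relIndex_eq_one.2 h2] at h1
      exact absurd h1 (by decide)
    have hC' := hC
    rw [hj] at hC'
    obtain ⟨RX, hD1⟩ := D1.exists hC'
    have hLbj : Lb = T (j + 1) (⊤ : Subgroup X) := by rw [hLb, hj]
    rw [← hLbj] at hD1
    have h1 := hD1.centralizes hDn hDL hDne
    have h2 : Lb ≤ Subgroup.centralizer (Lb : Set X) := fun a ha c hc => hab c hc a ha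
    have h3 := hD1.CQR_eq_bot h2
    intro a ha ha'
    have h4 : a ∈ Lb ⊓ Subgroup.centralizer (RX : Set X) := by
      refine ⟨ha, fun r hr => ?_⟩
      have h5 := h1 (hD1.hRU hr) a ((hDd a).2 ha')
      exact h5.symm
    rw [h3, Subgroup.mem_bot] at h4
    exact h4
  -- final
  have hM : 2 ≤ k → ∀ (Y : Type u) [Group Y] [Finite Y], IsPSolvable 2 Y →
      (∀ y : Y, IsTwo y → y ^ 2 ^ (k - 1) = 1) → Odd (Nat.card (T (k - 1) (⊤ : Subgroup Y))) := by
    intro hk2 Y _ _ hY hexpY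
    exact H979.TwoLenA.odd_of_EAt (k - 1) (by omega) Y hY hexpY
      (fun Z _ _ hZ _ => hIH (k - 1) (by omega) Z hZ)
  refine H979.TwoLenF.final hk X hXsol hC hPX (fun hk2 Y _ _ hY => hIH (k - 1) (by omega) Y hY) hM hab hexpX
    𝒦 ?_ h𝒦0 ?_
  · rintro κ ⟨α, B, qf, hα, ab, hna', rfl⟩
    exact ⟨fun a ha => ha.1, (h𝒦 hα ab hna').2⟩
  · rintro x hx κ ⟨α, B, qf, hα, ab, hna', rfl⟩
    obtain ⟨h16, h5⟩ := h𝒦 hα ab hna'
    refine H979.TwoLenStar.star τ Lb hLbn hab hLbodd _ (fun a ha => (mem_kap.1 ha).1) h5 (LinearMap.ker B)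
      (fun y hy m hm => hPinv ab y hy m hm) (fun y hy m => (mem_kap.1 hy).2 m) (fun m hm => ?_) h16 hk (hexpX x hx) ?_
    · exact (hquad hα ab).2.1 m fun l => hm l l.2
    · -- at most two values
      obtain ⟨n, rfl⟩ := hfs x
      obtain ⟨t, ht, hft⟩ := exists_two_lift f n hx
      rw [← hft]
      have hsum : ∀ m, (∑ i ∈ Finset.range (2 ^ k), τ (f (n ^ t) ^ i) m) =
          (∑ i ∈ Finset.range (2 ^ k), (ρ (n ^ t)) ^ i) m := by
        intro m
        rw [LinearMap.sum_apply]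
        refine Finset.sum_congr rfl fun i _ => ?_
        rw [← map_pow f, hτ, map_pow ρ (n ^ t)]
      intro m m'
      rw [hsum, hsum, hsum, map_sub, sub_eq_add_neg, zmod2_neg]
      have h1 := hnorm _ ht hα ab m
      have h2 := hnorm _ ht hα ab m'
      have h3 := hnorm _ ht hα ab (m + m')
      rw [map_add, ab.hadd, h1, h2, zero_add, zero_add] at h3
      exact hsing' hα ab _ _ h1 h2 h3

end

end Cfsg.Agent.H552
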