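import Mathlib
import Cfsg.Agent.H552.Crit2

/-!
# The linearized situation for S4258 (helper552)

`W = Q / Z(Q)` as a vector space over `ZMod q`, with the action `σ` of `G`, and the commutator forms `b i`, one for
each weight of `Z(Q)` in the module `V`.
-/

set_option autoImplicit false
set_option linter.unusedSectionVars false
set_option linter.unusedVariables false

universe u

namespace Cfsg.Agent.H552

open Module

/-- the weight space of the subgroup `A` for the signs `α` -/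
def wt {q : ℕ} {G : Type*} [Group G] {W : Type*} [AddCommGroup W] [Module (ZMod q) W]
    (σ : G →* Module.End (ZMod q) W) (A : Subgroup G) (α : G → ℤˣ) : Submodule (ZMod q) W where
  carrier := {w | ∀ c ∈ A, σ c w = ((α c : ℤˣ) : ℤ) • w}
  zero_mem' := by intro c _; simp
  add_mem' := by
    intro v w hv hw c hc
    rw [map_add, hv c hc, hw c hc, smul_add]
  smul_mem' := by
    intro t w hw c hc
    rw [map_smul, hw c hc, smul_comm]

theorem mem_wt {q : ℕ} {G : Type*} [Group G] {W : Type*} [AddCommGroup W] [Module (ZMod q) W]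
    {σ : G →* Module.End (ZMod q) W} {A : Subgroup G} {α : G → ℤˣ} {w : W} :
    w ∈ wt σ A α ↔ ∀ c ∈ A, σ c w = ((α c : ℤˣ) : ℤ) • w := Iff.rfl

/-- the dimension of the weight space modulo the radical of the form `b` -/
noncomputable def wdim {q : ℕ} [Fact q.Prime] {G : Type*} [Group G] {W : Type*} [AddCommGroup W]
    [Module (ZMod q) W] (σ : G →* Module.End (ZMod q) W) (A : Subgroup G) (α : G → ℤˣ)
    (b : W →ₗ[ZMod q] W →ₗ[ZMod q] ZMod q) : ℕ :=
  finrank (ZMod q) ((wt σ A α).map (LinearMap.ker b).mkQ)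

/-- the linearized situation -/
structure WD (k q : ℕ) [Fact q.Prime] {G : Type u} [Group G] (Q R : Subgroup G) {W : Type u}
    [AddCommGroup W] [Module (ZMod q) W] (σ : G →* Module.End (ZMod q) W) {ι : Type u}
    (b : ι → W →ₗ[ZMod q] W →ₗ[ZMod q] ZMod q) : Prop where
  q2 : q ≠ 2
  nontriv : ∃ w : W, w ≠ 0
  alt : ∀ i w, b i w w = 0
  nondeg : ∀ w, (∀ i w', b i w w' = 0) → w = 0
  trivQ : ∀ a ∈ Q, σ a = 1
  faithR : ∀ r ∈ R, σ r = 1 → r = 1
  expo : ∀ y : G, IsTwo y → y ^ 2 ^ (k + 1) = 1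
  invR : ∀ r ∈ R, ∀ i w w', b i (σ r w) (σ r w') = b i w w'
  invz : ∀ y : G, IsTwo y → ∀ i w w', b i (σ (y ^ 2 ^ k) w) (σ (y ^ 2 ^ k) w') = b i w w'
  perm : ∀ (g : G) i, ∃ j, ∀ w w', b i (σ g w) (σ g w') = b j w w'
  irr : ∀ A : Submodule (ZMod q) W, (∀ g, ∀ w ∈ A, σ g w ∈ A) → A = ⊥ ∨ A = ⊤
  fixR : ∀ w, (∀ r ∈ R, σ r w = w) → w = 0
  E1 : ∀ y : G, IsTwo y → ∀ A : Submodule (ZMod q) W, (∀ w ∈ A, σ y w ∈ A) →
    (∀ w ∈ A, ∀ w' ∈ A, ∀ i, b i w w' = 0) → ∀ w ∈ A, σ (y ^ 2 ^ k) w = w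
  E2 : ∀ y : G, IsTwo y → ∀ i,
    finrank (ZMod q) ((LinearMap.range (σ (y ^ 2 ^ k) - 1)).map (LinearMap.ker (b i)).mkQ) ≤ 2

end Cfsg.Agent.H552
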