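import Mathlib
import Cfsg.Agent.H552.FiveB2
import Cfsg.Agent.H552.WData
import Cfsg.Agent.H979.TwoLen5A
import Cfsg.Agent.H557.PartW
import Cfsg.Agent.H979.TwoLenTR
import Cfsg.Agent.H979.TwoLen5N

/-!
# Theorem E and the `2`-length (helper552; for S4258)
-/

set_option autoImplicit false
set_option linter.unusedSectionVars false
set_option linter.unusedVariables false
set_option linter.style.haveILetI false

universe u

namespace Cfsg.Agent.H552

open scoped commutatorElement

section

variable {G : Type u} [Group G] [Finite G]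

/-- the case of nonabelian `Q` -/
theorem contra_nonabelian {k : ℕ} {Q R L N₁ : Subgroup G}
    (hIH : ∀ j ≤ k, ∀ (Y : Type u) [Group Y] [Finite Y], IsPSolvable 2 Y → EAt.{u} j Y)
    (hG : IsPSolvable 2 G) (h : D2 k Q R L N₁) {q : ℕ} [Fact q.Prime] {W : Type u} [AddCommGroup W]
    [Module (ZMod q) W] [Finite W] {σ : G →* Module.End (ZMod q) W} {ι : Type u}
    {b : ι → W →ₗ[ZMod q] W →ₗ[ZMod q] ZMod q} (w : WD k q Q R σ b) : False := by
  have hQn := h.normalQ
  obtain ⟨x, hx, hx2, m, hm, hmx⟩ := h.exists_x (hIH k le_rfl ↥N₁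
    (Lib.PSolvable.IsPSolvable_of_injective 2 hG N₁.subtype N₁.subtype_injective))
  have hxR := h.N₁R hx
  by_cases hRab : R ≤ Subgroup.centralizer (R : Set G)
  · -- `R` is abelian
    have hRab' : ∀ r ∈ R, ∀ s ∈ R, r * s = s * r := fun r hr s hs => (hRab hr s hs).symm
    have hR0 : ⁅R, R⁆ = ⊥ := by rwa [Subgroup.commutator_eq_bot_iff_le_centralizer]
    have hZ0 : ∀ c ∈ Z0 R L, c = 1 := fun c hc => by
      have := h.Z0_le hc
      rw [hR0, Subgroup.mem_bot] at this
      exact this
    have hR2 : ∀ r ∈ R, r ^ 2 = 1 := fun r hr => hZ0 _ (h.sq_mem hr)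
    have h1 := H979.TwoLenRA.caseRA w h.hk hRab' hR2 hx2 hxR hm (isTwo_mul h.hR hx2 hxR hm)
    apply hmx
    rw [h1, mul_inv_cancel]
    exact Subgroup.one_mem _
  -- `R` is nonabelian
  have hc : ∀ c ∈ Z0 R L, ∀ r ∈ R, c * r = r * c := fun c hc r hr => h.Z0_central hc hr
  have h2 : ∀ c ∈ Z0 R L, c ^ 2 = 1 := fun c hc => h.Z0_sq hc
  have hRZ : ∀ r ∈ R, ∀ s ∈ R, ⁅r, s⁆ ∈ Z0 R L := fun r hr s hs =>
    h.comm_RR (Subgroup.commutator_mem_commutator hr hs)
  by_cases hbig : ∀ α : G → ℤˣ, wt σ (Z0 R L) α ≠ ⊥ → ∃ i, 4 < wdim σ (Z0 R L) α (b i)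
  · apply hmx
    refine h.contra_of_comm hx hx2 ?_ ?_ hRab m hm
    · intro g hg c hc'
      have h3 := (H979.TwoLen5A.five_a w (Z0 R L) inf_le_left hc h2 hRZ hbig hx2 hxR (h.norm_Z0 hx)).1
      have h4 : g⁻¹ * c * g ∈ Z0 R L := by
        have := (Subgroup.mem_normalizer_iff.1 (h.norm_Z0 (N₁.inv_mem hg)) c).1 hc'
        simpa using this
      have h5 := h3 _ h4
      calc g * x ^ 2 ^ k * g⁻¹ * c = g * (x ^ 2 ^ k * (g⁻¹ * c * g)) * g⁻¹ := by group
        _ = g * ((g⁻¹ * c * g) * x ^ 2 ^ k) * g⁻¹ := by rw [h5]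
        _ = _ := by group
    · intro m' hm' c hc' hcx
      exact (H979.TwoLen5A.five_a w (Z0 R L) inf_le_left hc h2 hRZ hbig hx2 hxR (h.norm_Z0 hx)).2 m' hm'
        (isTwo_mul h.hR hx2 hxR hm') c hc' hcx
  · push Not at hbig
    obtain ⟨α₀, hα₀, hs⟩ := hbig
    have hN : ∀ g : G, ∃ a ∈ Q, ∃ n ∈ Subgroup.normalizer ((Z0 R L : Subgroup G) : Set G), g = a * n := by
      intro g
      obtain ⟨a, ha, r, hr, n, hn, rfl⟩ := h.G_eq g
      refine ⟨a, ha, r * n, ?_, by group⟩
      refine Subgroup.mul_mem _ ?_ (h.norm_Z0 hn)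
      refine Subgroup.centralizer_le_normalizer _ fun c hc' => ?_
      exact hc c hc' r hr
    have hs' := H979.TwoLenTR.transfer w (Z0 R L) inf_le_left hc h2 hN hα₀ hs
    refine five_b hIH hG h w hRab ?_
    intro α hα c hc' e he h3 h4 h5
    obtain ⟨v, hv, hv0⟩ := Submodule.exists_mem_ne_zero_of_ne_bot hα
    obtain ⟨i, hi⟩ : ∃ i, v ∉ LinearMap.ker (b i) := by
      by_contra hcon
      push Not at hcon
      apply hv0
      refine w.nondeg v fun i w' => ?_
      have h6 := hcon i
      rw [LinearMap.mem_ker] at h6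
      rw [h6, LinearMap.zero_apply]
    exact H979.TwoLen5N.no_sing w (Z0 R L) inf_le_left hc h2 hRZ (fun r hr => h.sq_mem hr) α i ⟨v, hv, hi⟩
      (hs' α hα i) hc' he h3 h4 h5

end

/-- the main contradiction -/
theorem main_contra {k : ℕ} (hk : 1 ≤ k)
    (hIH : ∀ j ≤ k, ∀ (Y : Type u) [Group Y] [Finite Y], IsPSolvable 2 Y → EAt.{u} j Y)
    (G : Type u) [Group G] [Finite G] (hG : IsPSolvable 2 G) (hC : Crit.{u} (k + 1) G)
    {V : Type u} [AddCommGroup V] [Module (ZMod 2) V] [Finite V] (ρ : G →* Module.End (ZMod 2) V)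
    (hρ : ∀ g, ρ g = 1 → g = 1) (hN : ∀ y : G, IsTwo y → (ρ y - 1) ^ (2 ^ (k + 1) - 1) = 0) : False := by
  obtain ⟨R, h1⟩ := D1.exists hC
  obtain ⟨L, N₁, h⟩ := h1.exists_D2 hk
  set Q := T (k + 1) (⊤ : Subgroup G) with hQ
  by_cases hab : Q ≤ Subgroup.centralizer (Q : Set G)
  · -- `Q` abelian
    obtain ⟨x, hx, hx2, m, hm, hmx⟩ := h.exists_x (hIH k le_rfl ↥N₁
      (Lib.PSolvable.IsPSolvable_of_injective 2 hG N₁.subtype N₁.subtype_injective))
    have key : ∀ y : G, IsTwo y → y ^ 2 ^ k = 1 := by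
      intro y hy
      refine h.propP (hy.pow _) ?_
      have := E1_abelian ρ hρ h.normalQ h.oddQ (fun a ha c hc => hab hc a ha) hy (Nat.le_add_left 1 k)
        (hN y hy)
      rwa [Nat.add_sub_cancel] at this
    apply hmx
    rw [key _ (isTwo_mul h.hR hx2 (h.N₁R hx) hm), key _ hx2, inv_one, mul_one]
    exact Subgroup.one_mem _
  · obtain ⟨q, i1, W, i2, i3, i4, σ, ι, b, w⟩ := H557.PartW.exists_WD h1 hab ρ hρ hN
    exact contra_nonabelian hIH hG h w

/-- Theorem E for irreducible faithful representations, given the smaller groups -/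
theorem EAt_faithful_irr {k : ℕ} (hk : 1 ≤ k)
    (hIH : ∀ j ≤ k, ∀ (Y : Type u) [Group Y] [Finite Y], IsPSolvable 2 Y → EAt.{u} j Y)
    (G : Type u) [Group G] [Finite G] (hG : IsPSolvable 2 G)
    (hsm : ∀ (Y : Type u) [Group Y] [Finite Y], IsPSolvable 2 Y → Nat.card Y < Nat.card G →
      EAt.{u} (k + 1) Y)
    {V : Type u} [AddCommGroup V] [Module (ZMod 2) V] [Finite V] (ρ : G →* Module.End (ZMod 2) V)
    (hρ : ∀ g, ρ g = 1 → g = 1)
    (hirr : ∀ S : Submodule (ZMod 2) V, (∀ g, ∀ m ∈ S, ρ g m ∈ S) → S = ⊥ ∨ S = ⊤)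
    (hN : ∀ y : G, IsTwo y → (ρ y - 1) ^ (2 ^ (k + 1) - 1) = 0) :
    ∀ g ∈ T (k + 1) (⊤ : Subgroup G), ρ g = 1 := by
  have hF2 : Fact (Nat.Prime 2) := ⟨Nat.prime_two⟩
  by_contra hcon
  push Not at hcon
  obtain ⟨g₀, hg₀, hg₀'⟩ := hcon
  have hexp : ∀ y : G, IsTwo y → y ^ 2 ^ (k + 1) = 1 := by
    intro y hy
    apply hρ
    rw [map_pow]
    have h1 := hN y hy
    rw [H979.TwoLenA.sub_one_pow] at h1
    have h2 := mul_neg_geom_sum (ρ y) (2 ^ (k + 1))
    rw [h1, mul_zero] at h2
    exact (sub_eq_zero.1 h2.symm).symm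
  refine main_contra hk hIH G hG ?_ ρ hρ hN
  constructor
  · -- core
    intro N hn hN2
    -- fixed points of `N` on `V`
    let S : Submodule (ZMod 2) V :=
      { carrier := {v | ∀ n ∈ N, ρ n v = v}
        zero_mem' := fun n _ => map_zero _
        add_mem' := fun {a c} ha hc n hn' => by rw [map_add, ha n hn', hc n hn']
        smul_mem' := fun t v hv n hn' => by rw [map_smul, hv n hn'] }
    have hS : ∀ g, ∀ m ∈ S, ρ g m ∈ S := by
      intro g m hm n hn'
      have h1 := hm _ (hn.conj_mem n hn' g⁻¹)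
      rw [inv_inv] at h1
      have h2 : ρ n (ρ g m) = ρ g (ρ (g⁻¹ * n * g) m) := by
        rw [← Module.End.mul_apply, ← Module.End.mul_apply, ← map_mul, ← map_mul]
        congr 2
        group
      rw [h2, h1]
    rcases hirr S hS with h1 | h1
    · -- a 2-group has a nonzero fixed vector
      exfalso
      have hV : Nontrivial V := by
        by_contra hnt
        rw [not_nontrivial_iff_subsingleton] at hnt
        exact hg₀' (Subsingleton.elim _ _)
      let act : MulAction ↥N V :=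
        { smul := fun n v => ρ n v
          one_smul := fun v => by
            show ρ ((1 : ↥N) : G) v = v
            rw [Subgroup.coe_one, map_one, Module.End.one_apply]
          mul_smul := fun a c v => by
            show ρ ((a * c : ↥N) : G) v = ρ a (ρ c v)
            rw [Subgroup.coe_mul, map_mul, Module.End.mul_apply] }
      have h2 := hN2.card_modEq_card_fixedPoints V
      have h3 : 2 ∣ Nat.card V := by
        obtain ⟨v, hv⟩ := exists_ne (0 : V)
        have h4 : addOrderOf v = 2 := by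
          refine addOrderOf_eq_prime ?_ hv
          rw [two_smul]; exact zmod2_double v
        rw [← h4]
        exact addOrderOf_dvd_natCard v
      have h4 : 2 ∣ Nat.card (MulAction.fixedPoints ↥N V) :=
        (Nat.modEq_zero_iff_dvd.1 (h2.symm.trans (Nat.modEq_zero_iff_dvd.2 h3)))
      have h5 : (0 : V) ∈ MulAction.fixedPoints ↥N V := fun n => map_zero (ρ n)
      have h6 : Nat.card (MulAction.fixedPoints ↥N V) = 1 := by
        have : Subsingleton (MulAction.fixedPoints ↥N V) := by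
          refine ⟨fun a c => ?_⟩
          have key : ∀ v : MulAction.fixedPoints ↥N V, (v : V) = 0 := by
            intro v
            have h7 : (v : V) ∈ S := fun n hn' => v.2 ⟨n, hn'⟩
            rw [h1, Submodule.mem_bot] at h7
            exact h7
          exact Subtype.ext ((key a).trans (key c).symm)
        have hne : Nonempty (MulAction.fixedPoints ↥N V) := ⟨⟨0, h5⟩⟩
        exact Nat.card_eq_one_iff_unique.2 ⟨this, hne⟩
      rw [h6] at h4
      exact absurd h4 (by decide)
    · rw [eq_bot_iff]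
      intro n hn'
      rw [Subgroup.mem_bot]
      apply hρ
      ext v
      have h7 : v ∈ S := by rw [h1]; exact Submodule.mem_top
      exact h7 n hn'
  · intro hbot
    rw [hbot, Subgroup.mem_bot] at hg₀
    apply hg₀'
    rw [hg₀, map_one]
  · exact H979.TwoLenA.odd_of_EAt (k + 1) (Nat.le_add_left 1 k) G hG hexp hsm
  · intro H hH
    have hlt : Nat.card H < Nat.card G := by
      refine lt_of_le_of_ne (Subgroup.card_le_card_group H) fun he => hH ?_
      exact Subgroup.eq_top_of_card_eq H he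
    have h1 := hsm ↥H (Lib.PSolvable.IsPSolvable_of_injective 2 hG H.subtype H.subtype_injective) hlt
      V (ρ.comp H.subtype) (fun y hy => hN y (hy.map H.subtype))
    rw [← T_subtype, eq_bot_iff]
    rintro _ ⟨y, hy, rfl⟩
    rw [Subgroup.mem_bot]
    exact hρ _ (h1 y hy)

/-- reduction to faithful representations -/
theorem EAt_irr {k : ℕ} (hk : 1 ≤ k)
    (hIH : ∀ j ≤ k, ∀ (Y : Type u) [Group Y] [Finite Y], IsPSolvable 2 Y → EAt.{u} j Y)
    (G : Type u) [Group G] [Finite G] (hG : IsPSolvable 2 G)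
    (hsm : ∀ (Y : Type u) [Group Y] [Finite Y], IsPSolvable 2 Y → Nat.card Y < Nat.card G →
      EAt.{u} (k + 1) Y)
    {V : Type u} [AddCommGroup V] [Module (ZMod 2) V] [Finite V] (ρ : G →* Module.End (ZMod 2) V)
    (hirr : ∀ S : Submodule (ZMod 2) V, (∀ g, ∀ m ∈ S, ρ g m ∈ S) → S = ⊥ ∨ S = ⊤)
    (hN : ∀ y : G, IsTwo y → (ρ y - 1) ^ (2 ^ (k + 1) - 1) = 0) :
    ∀ g ∈ T (k + 1) (⊤ : Subgroup G), ρ g = 1 := by
  have hF2 : Fact (Nat.Prime 2) := ⟨Nat.prime_two⟩
  by_cases hker : ρ.ker = ⊥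
  · refine EAt_faithful_irr hk hIH G hG hsm ρ (fun g hg => ?_) hirr hN
    have : g ∈ ρ.ker := hg
    rw [hker] at this
    exact Subgroup.mem_bot.1 this
  let f : G →* G ⧸ ρ.ker := QuotientGroup.mk' ρ.ker
  have hfs : Function.Surjective f := QuotientGroup.mk'_surjective _
  let ρ' : G ⧸ ρ.ker →* Module.End (ZMod 2) V := QuotientGroup.lift ρ.ker ρ (fun g hg => hg)
  have hρ' : ∀ g, ρ' (f g) = ρ g := fun g => rfl
  have hlt : Nat.card (G ⧸ ρ.ker) < Nat.card G := by
    have h1 : Nat.card G = Nat.card (G ⧸ ρ.ker) * Nat.card ρ.ker :=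
      Subgroup.card_eq_card_quotient_mul_card_subgroup _
    have h2 : 1 < Nat.card ρ.ker := by
      have h3 : Nat.card ρ.ker ≠ 1 := fun h4 => hker (Subgroup.eq_bot_of_card_eq _ h4)
      have h4 : 0 < Nat.card ρ.ker := Nat.card_pos
      omega
    have h3 : 0 < Nat.card (G ⧸ ρ.ker) := Nat.card_pos
    rw [h1]
    exact lt_mul_of_one_lt_right h3 h2
  have h1 := hsm (G ⧸ ρ.ker) (Lib.PSolvable.IsPSolvable_of_surjective 2 hG f hfs) hlt V ρ' (by
    intro y hy
    obtain ⟨g, rfl⟩ := hfs y
    obtain ⟨n, hn, hgn⟩ := exists_two_lift f g hy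
    rw [← hgn, hρ']
    exact hN _ hn)
  intro g hg
  rw [← hρ']
  apply h1
  rw [← T_map_top f hfs]
  exact ⟨g, hg, rfl⟩

/-- reduction to irreducible representations -/
theorem EAt_of_irr {e : ℕ} (he : 1 ≤ e) (G : Type u) [Group G] [Finite G]
    (hirr : ∀ (V : Type u) [AddCommGroup V] [Module (ZMod 2) V] [Finite V]
      (ρ : G →* Module.End (ZMod 2) V),
      (∀ S : Submodule (ZMod 2) V, (∀ g, ∀ m ∈ S, ρ g m ∈ S) → S = ⊥ ∨ S = ⊤) →
      (∀ y : G, IsTwo y → (ρ y - 1) ^ (2 ^ e - 1) = 0) → ∀ g ∈ T e (⊤ : Subgroup G), ρ g = 1) :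
    EAt.{u} e G := by
  suffices H : ∀ n : ℕ, ∀ (V : Type u) [AddCommGroup V] [Module (ZMod 2) V] [Finite V]
      (ρ : G →* Module.End (ZMod 2) V), Nat.card V ≤ n →
      (∀ y : G, IsTwo y → (ρ y - 1) ^ (2 ^ e - 1) = 0) → ∀ g ∈ T e (⊤ : Subgroup G), ρ g = 1 by
    intro V _ _ _ ρ hN
    exact H (Nat.card V) V ρ le_rfl hN
  intro n
  induction n with
  | zero =>
    intro V _ _ _ ρ hV
    have : 0 < Nat.card V := Nat.card_pos
    omega
  | succ n ih =>
    intro V _ _ _ ρ hV hN
    by_cases hI : ∀ S : Submodule (ZMod 2) V, (∀ g, ∀ m ∈ S, ρ g m ∈ S) → S = ⊥ ∨ S = ⊤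
    · exact hirr V ρ hI hN
    push Not at hI
    obtain ⟨S, hS, hS1, hS2⟩ := hI
    -- restriction and quotient
    let ρS : G →* Module.End (ZMod 2) S :=
      { toFun := fun g => (ρ g).restrict (hS g)
        map_one' := by ext m; simp
        map_mul' := fun a c => by ext m; simp }
    have hρS : ∀ g (m : S), ((ρS g m : S) : V) = ρ g m := fun g m => rfl
    obtain ⟨ρQ, hρQ⟩ := exists_quot_rep ρ S hS
    have hcS : Nat.card S ≤ n := by
      have : Nat.card S < Nat.card V := by
        refine lt_of_le_of_ne (Nat.card_le_card_of_injective _ S.subtype_injective) fun he' => hS2 ?_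
        have h1 : Function.Bijective S.subtype :=
          (Nat.bijective_iff_injective_and_card _).2 ⟨S.subtype_injective, he'⟩
        rw [eq_top_iff]
        intro v _
        obtain ⟨s, rfl⟩ := h1.2 v
        exact s.2
      omega
    have hQfin : Finite (V ⧸ S) := Finite.of_surjective _ S.mkQ_surjective
    have hcQ : Nat.card (V ⧸ S) ≤ n := by
      have h1 : Nat.card V = Nat.card S * Nat.card (V ⧸ S) := Submodule.card_eq_card_quotient_mul_card S
      have h2 : 1 < Nat.card S := by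
        have : Nontrivial S := (Submodule.nontrivial_iff_ne_bot).2 hS1
        exact Finite.one_lt_card
      have h3 : 0 < Nat.card (V ⧸ S) := Nat.card_pos
      have h4 : Nat.card (V ⧸ S) < Nat.card V := by
        rw [h1]; exact lt_mul_of_one_lt_left h3 h2
      omega
    have hNS : ∀ y : G, IsTwo y → (ρS y - 1) ^ (2 ^ e - 1) = 0 := by
      intro y hy
      have key : ∀ j : ℕ, ∀ m : S, (((ρS y - 1) ^ j) m : V) = ((ρ y - 1) ^ j) (m : V) := by
        intro j
        induction j with
        | zero => intro m; rfl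
        | succ j ihj =>
          intro m
          rw [pow_succ, pow_succ, Module.End.mul_apply, Module.End.mul_apply, ihj]
          rfl
      ext m
      rw [key, hN y hy]
      rfl
    have hNQ : ∀ y : G, IsTwo y → (ρQ y - 1) ^ (2 ^ e - 1) = 0 := by
      intro y hy
      have key : ∀ j : ℕ, ∀ m : V, ((ρQ y - 1) ^ j) (S.mkQ m) = S.mkQ (((ρ y - 1) ^ j) m) := by
        intro j
        induction j with
        | zero => intro m; rfl
        | succ j ihj =>
          intro m
          rw [pow_succ, pow_succ, Module.End.mul_apply, Module.End.mul_apply, ← ihj]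
          congr 1
          rw [LinearMap.sub_apply, LinearMap.sub_apply, Module.End.one_apply, Module.End.one_apply,
            map_sub, hρQ]
      apply LinearMap.ext
      intro v
      obtain ⟨m, rfl⟩ := S.mkQ_surjective v
      rw [key, hN y hy, LinearMap.zero_apply, map_zero, LinearMap.zero_apply]
    have h1 := ih S ρS hcS hNS
    have h2 := ih (V ⧸ S) ρQ hcQ hNQ
    -- elements of odd order of `T e ⊤` act trivially
    obtain ⟨j, rfl⟩ : ∃ j, e = j + 1 := ⟨e - 1, by omega⟩
    have hle : T (j + 1) (⊤ : Subgroup G) ≤ ρ.ker := by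
      rw [← oddGen_T_succ]
      refine (Subgroup.closure_le _).2 ?_
      rintro g ⟨hg, hgo⟩
      show ρ g = 1
      have h3 : ∀ v, ρ g v - v ∈ S := by
        intro v
        have h4 := h2 g hg
        have h5 : ρQ g (S.mkQ v) = S.mkQ v := by rw [h4, Module.End.one_apply]
        rw [hρQ, ← sub_eq_zero, ← map_sub, Submodule.mkQ_apply, Submodule.Quotient.mk_eq_zero] at h5
        exact h5
      have h4 : ∀ v ∈ S, ρ g v = v := by
        intro v hv
        have h5 := congrArg (fun F : Module.End (ZMod 2) S => ((F ⟨v, hv⟩ : S) : V)) (h1 g hg)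
        exact h5
      have h5 : ρ g * ρ g = 1 := by
        ext v
        rw [Module.End.mul_apply, Module.End.one_apply]
        have h6 := h4 _ (h3 v)
        rw [map_sub, sub_eq_iff_eq_add] at h6
        rw [h6]
        have h7 := zmod2_double (ρ g v)
        have h8 : ρ g v - v + ρ g v = (ρ g v + ρ g v) - v := by abel
        rw [h8, h7, zero_sub, zmod2_neg]
      obtain ⟨n', hn'⟩ := hgo
      have h6 : ρ g ^ orderOf g = 1 := by rw [← map_pow, pow_orderOf_eq_one, map_one]
      rw [hn', pow_succ, pow_mul, pow_two, h5, one_pow, one_mul] at h6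
      exact h6
    intro g hg
    exact hle hg

/-- **Theorem E** -/
theorem EAt_all : ∀ e : ℕ, ∀ (X : Type u) [Group X] [Finite X], IsPSolvable 2 X → EAt.{u} e X := by
  intro e
  induction e using Nat.strong_induction_on with
  | _ e ihe =>
    rcases e with _ | _ | k
    · -- e = 0
      intro X _ _ _ M _ _ _ ρ hN g _
      have h1 := hN 1 isTwo_one
      rw [pow_zero, Nat.sub_self, pow_zero] at h1
      have h2 : ∀ F : Module.End (ZMod 2) M, F = 0 := fun F => by rw [← mul_one F, h1, mul_zero]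
      rw [h2 (ρ g), h2 1]
    · -- e = 1
      intro X _ _ _ M _ _ _ ρ hN g hg
      have h1 : T 1 (⊤ : Subgroup X) ≤ ρ.ker := by
        refine (oddGen_le _).trans ?_
        refine (Subgroup.closure_le _).2 ?_
        rintro y ⟨_, hy⟩
        have h2 := hN y hy
        have h3 : (2 : ℕ) ^ (0 + 1) - 1 = 1 := by norm_num
        rw [h3, pow_one, sub_eq_zero] at h2
        exact h2
      exact h1 hg
    · -- e = k + 2
      have hIH : ∀ j ≤ k + 1, ∀ (Y : Type u) [Group Y] [Finite Y], IsPSolvable 2 Y → EAt.{u} j Y :=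
        fun j hj => ihe j (by omega)
      suffices H : ∀ n : ℕ, ∀ (X : Type u) [Group X] [Finite X], IsPSolvable 2 X → Nat.card X ≤ n →
          EAt.{u} (k + 1 + 1) X by
        intro X _ _ hX
        exact H (Nat.card X) X hX le_rfl
      intro n
      induction n with
      | zero =>
        intro X _ _ _ hc
        have : 0 < Nat.card X := Nat.card_pos
        omega
      | succ n ihn =>
        intro X _ _ hX hc
        refine EAt_of_irr (Nat.le_add_left 1 (k + 1)) X ?_
        intro V _ _ _ ρ hirr hN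
        refine EAt_irr (Nat.le_add_left 1 k) hIH X hX ?_ ρ hirr hN
        intro Y _ _ hY hlt
        exact ihn Y hY (by omega)

end Cfsg.Agent.H552
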